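import Cfsg.Agent.H53.RankTwoAut
import Cfsg.Agent.H53.PStructure
import Cfsg.Agent.H24.SmallRank
import Cfsg.Agent.H35.Constrained
import Cfsg.Agent.H59.PSolvable

/-! Chief `p`-factors of `p`-solvable groups of `p`-rank at most two. -/

set_option autoImplicit false
set_option linter.style.haveILetI false

namespace Cfsg.Agent.H59

open Subgroup
open scoped commutatorElement

universe u

/-- A normal series from `⊥` to `B` whose factors have order not divisible by `p ^ 3`. -/
inductive SmallSeries (p : ℕ) {G : Type*} [Group G] : Subgroup G → Prop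
  | bot : SmallSeries p ⊥
  | step {A B : Subgroup G} : SmallSeries p A → A ≤ B → B.Normal → ¬ p ^ 3 ∣ A.relIndex B →
      SmallSeries p B

variable {p : ℕ}

theorem SmallSeries.normal {G : Type*} [Group G] {B : Subgroup G} (h : SmallSeries p B) : B.Normal := by
  cases h with
  | bot => infer_instance
  | step _ _ hn _ => exact hn

/-- Chief factors below a small series. -/
theorem SmallSeries.not_dvd {G : Type*} [Group G] {B : Subgroup G} (h : SmallSeries p B)
    (H K : Subgroup G) [H.Normal] [K.Normal] (hKH : K < H)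
    (hchief : ∀ L : Subgroup G, L.Normal → K ≤ L → L ≤ H → L = K ∨ L = H) (hB : H ≤ B ⊔ K) :
    ¬ p ^ 3 ∣ K.relIndex H := by
  induction h with
  | bot => exact absurd (hB.trans (bot_sup_eq K).le) hKH.not_ge
  | @step A B hA hAB hn hnd ih =>
    by_cases hle : H ≤ A ⊔ K
    · exact ih hle
    haveI := hA.normal
    have hK : (A ⊔ K) ⊓ H = K := by
      rcases hchief ((A ⊔ K) ⊓ H) inferInstance (le_inf le_sup_right hKH.le) inf_le_right with h | h
      · exact h
      · exact absurd (inf_eq_right.mp h) hle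
    intro hdvd
    apply hnd
    refine hdvd.trans ?_
    rw [← hK, inf_relIndex_right]
    have h1 : (A ⊔ K).relIndex H ∣ (A ⊔ K).relIndex (B ⊔ K) := by
      rw [← QuotientGroup.ker_mk' (A ⊔ K), relIndex_ker, relIndex_ker]
      exact card_dvd_of_le (map_mono hB)
    refine h1.trans ?_
    rw [show B ⊔ K = B ⊔ (A ⊔ K) by rw [← sup_assoc, sup_eq_left.mpr hAB], relIndex_sup_right]
    exact relIndex_dvd_of_le_left _ le_sup_left

/-- Pulling a small series back from a quotient. -/
theorem SmallSeries.comap {G H : Type*} [Group G] [Group H] {π : G →* H}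
    (hs : Function.Surjective π) (hk : SmallSeries p π.ker) {B : Subgroup H} (hB : SmallSeries p B) :
    SmallSeries p (B.comap π) := by
  induction hB with
  | bot => rwa [MonoidHom.comap_bot]
  | step hA hAB hn hnd ih =>
    refine ih.step (comap_mono hAB) (hn.comap π) ?_
    rwa [relIndex_comap, map_comap_eq_self_of_surjective hs]

theorem not_cube_dvd {p n : ℕ} (hn : n ≠ 0) (h : n ≤ p ^ 2) (hp : 2 ≤ p) : ¬ p ^ 3 ∣ n := fun hd => by
  have := (Nat.le_of_dvd (Nat.pos_of_ne_zero hn) hd).trans h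
  have h2 : p ^ 2 < p ^ 3 := Nat.pow_lt_pow_right (by omega) (by norm_num)
  omega

variable [Fact p.Prime]

/-- `m_p(K) ≤ 2`, for a subgroup `K`. -/
def RankTwoIn (p : ℕ) {G : Type*} [Group G] (K : Subgroup G) : Prop :=
  ∀ A : Subgroup G, A ≤ K → (∀ a ∈ A, ∀ b ∈ A, a * b = b * a) → (∀ a ∈ A, a ^ p = 1) → Nat.card A ≤ p ^ 2

theorem rankTwoIn_mono {G : Type*} [Group G] {K L : Subgroup G} (h : RankTwoIn p K) (hLK : L ≤ K) :
    RankTwoIn p L := fun A hA => h A (hA.trans hLK)

theorem rankTwoIn_iff {G : Type*} [Group G] {K : Subgroup G} (h : RankTwoIn p K) :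
    Cfsg.PRankLE p 2 K := by
  intro A hA he
  rw [← card_map_of_injective (K := A) K.subtype_injective]
  refine h _ (map_subtype_le A) ?_ ?_
  · rintro _ ⟨a, ha, rfl⟩ _ ⟨b, hb, rfl⟩
    rw [← map_mul, ← map_mul]
    exact congrArg _ (congrArg Subtype.val (hA.is_comm.comm ⟨a, ha⟩ ⟨b, hb⟩) :)
  · rintro _ ⟨a, ha, rfl⟩
    rw [← map_pow, he a ha, map_one]

/-- Two elements of a normal subgroup of order at most `p ^ n` have small stabilizer index. -/
theorem relIndex_centralizer_singleton_le {G : Type*} [Group G] [Finite G] {K W : Subgroup G} [W.Normal]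
    (hK : IsPGroup p K) {n : ℕ} (hW : Nat.card W ≤ p ^ (n + 1)) {x : G} (hx : x ∈ W) :
    (centralizer ({x} : Set G)).relIndex K ≤ p ^ n := by
  classical
  have hpp : p.Prime := Fact.out
  set C := (centralizer ({x} : Set G)).subgroupOf K with hC
  obtain ⟨j, hj⟩ := IsPGroup.iff_card.mp hK
  obtain ⟨i, -, hi⟩ := (Nat.dvd_prime_pow hpp).mp (hj ▸ C.index_dvd_card)
  show C.index ≤ p ^ n
  rcases eq_or_ne x 1 with rfl | hx1
  · have : C = ⊤ := eq_top_iff.mpr fun k _ => by
      rw [hC, mem_subgroupOf, mem_centralizer_singleton_iff, mul_one, one_mul]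
    rw [this, index_top]
    exact Nat.one_le_pow _ _ hpp.pos
  have hmem : ∀ k l : K, (k⁻¹ * l : K) ∈ C ↔ (k : G) * x * (k : G)⁻¹ = l * x * (l : G)⁻¹ := by
    intro k l
    rw [hC, mem_subgroupOf, mem_centralizer_singleton_iff]
    simp only [Subgroup.coe_mul, Subgroup.coe_inv]
    constructor
    · intro h
      calc (k : G) * x * (k : G)⁻¹ = k * (x * ((k : G)⁻¹ * l)) * (l : G)⁻¹ := by group
        _ = k * (((k : G)⁻¹ * l) * x) * (l : G)⁻¹ := by rw [h]
        _ = l * x * (l : G)⁻¹ := by group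
    · intro h
      calc (k : G)⁻¹ * l * x = (k : G)⁻¹ * (l * x * (l : G)⁻¹) * l := by group
        _ = (k : G)⁻¹ * (k * x * (k : G)⁻¹) * l := by rw [h]
        _ = x * ((k : G)⁻¹ * l) := by group
  let f : K ⧸ C → W := Quotient.lift (fun k : K => (⟨(k : G) * x * (k : G)⁻¹, ‹W.Normal›.conj_mem x hx k⟩ : W))
    (fun k l h => Subtype.ext ((hmem k l).mp (QuotientGroup.leftRel_apply.mp h)))
  have hf : Function.Injective f := by
    rintro ⟨k⟩ ⟨l⟩ h
    exact Quotient.sound (QuotientGroup.leftRel_apply.mpr ((hmem k l).mpr (congrArg Subtype.val h)))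
  have h1 : (1 : W) ∉ Set.range f := by
    rintro ⟨⟨k⟩, hk⟩
    have := congrArg Subtype.val hk
    apply hx1
    simpa [f] using this
  have hlt : C.index < p ^ (n + 1) := by
    refine lt_of_lt_of_le ?_ hW
    rw [index_eq_card]
    have : Fintype W := Fintype.ofFinite _
    have : Fintype (K ⧸ C) := Fintype.ofFinite _
    simp only [Nat.card_eq_fintype_card]
    exact Fintype.card_lt_of_injective_of_notMem f hf h1
  rw [hi] at hlt ⊢
  exact Nat.pow_le_pow_right hpp.pos (Nat.lt_succ_iff.mp ((Nat.pow_lt_pow_iff_right hpp.one_lt).mp hlt))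

theorem relIndex_centralizer_pair_le {G : Type*} [Group G] [Finite G] {K W : Subgroup G} [W.Normal]
    (hK : IsPGroup p K) {n : ℕ} (hW : Nat.card W ≤ p ^ (n + 1)) {x y : G} (hx : x ∈ W) (hy : y ∈ W) :
    (centralizer ({x} : Set G) ⊓ centralizer ({y} : Set G)).relIndex K ≤ p ^ n * p ^ n :=
  relIndex_inf_le.trans (Nat.mul_le_mul (relIndex_centralizer_singleton_le hK hW hx)
    (relIndex_centralizer_singleton_le hK hW hy))

/-- An element of order `p` centralizing an elementary abelian subgroup of maximal order. -/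
theorem mem_of_pow_eq_one {G : Type*} [Group G] [Finite G] {K E : Subgroup G} (hr : RankTwoIn p K)
    (hE : E ≤ K) (hc : ∀ a ∈ E, ∀ b ∈ E, a * b = b * a) (he : ∀ a ∈ E, a ^ p = 1) (hcard : p ^ 2 ≤ Nat.card E)
    {x : G} (hx : x ∈ K) (hxp : x ^ p = 1) (hxc : ∀ a ∈ E, a * x = x * a) : x ∈ E := by
  set A := closure ((E : Set G) ∪ {x}) with hA
  have hgen : ∀ a ∈ (E : Set G) ∪ {x}, ∀ b ∈ (E : Set G) ∪ {x}, a * b = b * a := by
    rintro a (ha | rfl) b (hb | rfl)
    · exact hc a ha b hb
    · exact hxc a ha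
    · exact (hxc b hb).symm
    · rfl
  haveI hAc : IsMulCommutative A := Subgroup.isMulCommutative_closure hgen
  have hAe : ∀ a ∈ A, a ^ p = 1 := by
    intro a ha
    induction ha using Subgroup.closure_induction with
    | mem a ha =>
      rcases ha with ha | rfl
      · exact he a ha
      · exact hxp
    | one => exact one_pow p
    | mul a b ha hb iha ihb =>
      have h : a * b = b * a := (congrArg Subtype.val (hAc.is_comm.comm (⟨a, ha⟩ : A) ⟨b, hb⟩) :)
      rw [Commute.mul_pow h, iha, ihb, one_mul]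
    | inv a _ iha => rw [inv_pow, iha, inv_one]
  have hAK : A ≤ K := (closure_le _).mpr (Set.union_subset hE (by simpa using hx))
  have hle := hr A hAK (fun a ha b hb => (congrArg Subtype.val (hAc.is_comm.comm (⟨a, ha⟩ : A) ⟨b, hb⟩) :)) hAe
  rw [eq_of_le_of_card_ge (fun a ha => subset_closure (Or.inl ha) : E ≤ A) (hle.trans hcard)]
  exact subset_closure (Or.inr rfl)

/-- The `p`-rank of a quotient by a central elementary abelian subgroup containing `Ω₁`. -/
theorem rankTwoIn_map_of_central {G H : Type*} [Group G] [Finite G] [Group H] (hp : p ≠ 2) (π : G →* H)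
    {K : Subgroup G} (hker : π.ker ≤ K) (hcard : Nat.card π.ker ≤ p ^ 2)
    (he : ∀ c ∈ π.ker, c ^ p = 1) (hcen : ∀ c ∈ π.ker, ∀ k ∈ K, c * k = k * c)
    (hom : ∀ x ∈ K, x ^ p = 1 → x ∈ π.ker) : RankTwoIn p (K.map π) := by
  intro A' hA' hA'c hA'e
  set A := A'.comap π ⊓ K with hA
  have hmapA : A.map π = A' := by
    refine le_antisymm (map_le_iff_le_comap.mpr inf_le_left) fun a ha => ?_
    obtain ⟨k, hk, rfl⟩ := hA' ha
    exact ⟨k, ⟨ha, hk⟩, rfl⟩
  have hkA : π.ker ≤ A := le_inf (fun c hc => by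
    rw [mem_comap, MonoidHom.mem_ker.mp hc]; exact one_mem _) hker
  have hcomm : ∀ a b : A, ⁅b, a⁆ ∈ center A ∧ ⁅b, a⁆ ^ p = 1 := by
    intro a b
    have hm : ((⁅b, a⁆ : A) : G) ∈ π.ker := by
      rw [MonoidHom.mem_ker, ← Subgroup.subtype_apply, map_commutatorElement, map_commutatorElement,
        commutatorElement_eq_one_iff_mul_comm]
      exact hA'c _ b.2.1 _ a.2.1
    refine ⟨mem_center_iff.mpr fun c => Subtype.ext (hcen _ hm c c.2.2).symm, Subtype.ext ?_⟩
    simpa using he _ hm
  let f : A →* π.ker :=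
    { toFun := fun a => ⟨((a : G)) ^ p, by rw [MonoidHom.mem_ker, map_pow]; exact hA'e _ a.2.1⟩
      map_one' := Subtype.ext (one_pow p)
      map_mul' := fun a b => Subtype.ext (by
        have h := H24.mul_pow_prime_of_class_two (Fact.out : p.Prime) hp (hcomm a b).1 (hcomm a b).2
        simpa using congrArg Subtype.val h) }
  have hfk : f.ker = π.ker.subgroupOf A := by
    ext a
    rw [MonoidHom.mem_ker, mem_subgroupOf, Subtype.ext_iff]
    exact ⟨fun h => hom _ a.2.2 h, fun h => he _ h⟩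
  have hc : Nat.card A' = f.ker.index := by
    rw [hfk, ← hmapA, ← relIndex_ker]
    rfl
  rw [hc, index_ker]
  exact (Nat.card_le_card_of_injective _ Subtype.val_injective).trans hcard

/-- A cyclic group has `p`-rank at most one. -/
theorem rankTwoIn_of_isCyclic {G : Type*} [Group G] [Finite G] {K : Subgroup G} [IsCyclic K] :
    RankTwoIn p K := by
  classical
  have hpp : p.Prime := Fact.out
  intro A hA _ hAe
  have : Fintype K := Fintype.ofFinite _
  refine le_trans ?_ (le_trans (IsCyclic.card_pow_eq_one_le (α := K) hpp.pos) (Nat.le_self_pow two_ne_zero p))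
  rw [← Fintype.card_subtype, ← Nat.card_eq_fintype_card]
  exact Nat.card_le_card_of_injective (fun a : A => (⟨⟨a, hA a.2⟩, Subtype.ext (by simpa using hAe a a.2)⟩ :
    {k : K // k ^ p = 1})) fun a b h => Subtype.ext (congrArg (fun k => ((k : K) : G)) (congrArg Subtype.val h))

/-- A cyclic normal self-centralizing subgroup of a `p`-group, `p` odd, has cyclic quotient. -/
theorem isCyclic_map_of_cyclic_centralizer {G H : Type*} [Group G] [Finite G] [Group H] (hp : p ≠ 2)
    {K D : Subgroup G} [D.Normal] [IsCyclic D] (hD : IsPGroup p D) (π : G →* H) (hker : π.ker = D)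
    (hc : ∀ k ∈ K, (∀ d ∈ D, k * d = d * k) → k ∈ D) : IsCyclic (K.map π) := by
  obtain ⟨j, hj⟩ := IsPGroup.iff_card.mp hD
  haveI : IsCyclic (MulAut D) := by
    have h := ZMod.isCyclic_units_of_prime_pow p (Fact.out) hp j
    rw [← hj] at h
    exact isCyclic_of_surjective (IsCyclic.mulAutMulEquiv D).symm (IsCyclic.mulAutMulEquiv D).symm.surjective
  let f : K →* MulAut D := (MulAut.conjNormal (H := D)).comp K.subtype
  obtain ⟨g, hg⟩ := IsCyclic.exists_generator (α := f.range)
  obtain ⟨k0, hk0⟩ := g.2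
  refine ⟨⟨⟨π k0, mem_map_of_mem π k0.2⟩, fun x => ?_⟩⟩
  obtain ⟨k, hk, hkx⟩ := x.2
  obtain ⟨i, hi⟩ := mem_zpowers_iff.mp (hg ⟨f ⟨k, hk⟩, ⟨k, hk⟩, rfl⟩)
  refine mem_zpowers_iff.mpr ⟨i, Subtype.ext ?_⟩
  simp only [Subgroup.coe_zpow]
  rw [← map_zpow, ← hkx]
  have hf : f (k0 ^ i) = f ⟨k, hk⟩ := by
    rw [map_zpow, hk0]
    simpa using congrArg Subtype.val hi
  have hmem : (⟨k, hk⟩ : K)⁻¹ * k0 ^ i ∈ f.ker := by
    rw [MonoidHom.mem_ker, map_mul, map_inv, hf, inv_mul_cancel]
  have hD' : k⁻¹ * (k0 : G) ^ i ∈ π.ker := by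
    rw [hker]
    refine hc _ (mul_mem (inv_mem hk) (zpow_mem k0.2 i)) fun d hd => ?_
    have h1 := congrArg Subtype.val (DFunLike.congr_fun (MonoidHom.mem_ker.mp hmem) (⟨d, hd⟩ : D))
    simp only [f, MonoidHom.comp_apply, MulAut.conjNormal_apply, MulAut.one_apply, coe_subtype,
      Subgroup.coe_mul, Subgroup.coe_inv, Subgroup.coe_zpow] at h1
    exact (mul_inv_eq_iff_eq_mul.mp h1)
  rw [MonoidHom.mem_ker, map_mul, map_inv, inv_mul_eq_one] at hD'
  exact hD'.symm

/-- `G`-chief factors inside a normal `p`-subgroup of rank at most two are of order at most `p ^ 2`. -/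
theorem smallSeries_of_rank_two (hp : p ≠ 2) : ∀ m : ℕ, ∀ {G : Type u} [Group G] [Finite G] (K : Subgroup G),
    K.Normal → IsPGroup p K → RankTwoIn p K → Nat.card K = m → SmallSeries p K := by
  intro m
  induction m using Nat.strong_induction_on with
  | _ m ih =>
  intro G _ _ K hKn hKp hr hm
  subst hm
  have hpp : p.Prime := Fact.out
  rcases eq_or_ne K ⊥ with rfl | hK1
  · exact .bot
  have sub : ∀ L : Subgroup G, L.Normal → L < K → SmallSeries p L := fun L hLn hLK => by
    refine ih _ ?_ L hLn (hKp.to_le hLK.le) (rankTwoIn_mono hr hLK.le) rfl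
    by_contra h
    exact hLK.ne (eq_of_le_of_card_ge hLK.le (not_lt.mp h))
  have small : ∀ C : Subgroup G, C.Normal → Nat.card C ≤ p ^ 2 → SmallSeries p C := fun C hCn hC =>
    SmallSeries.bot.step bot_le hCn (by
      rw [relIndex_bot_left]; exact not_cube_dvd Nat.card_pos.ne' hC hpp.two_le)
  have via : ∀ C L : Subgroup G, ∀ (_ : C.Normal), L.Normal → C ≤ L → L ≤ K → C ≠ ⊥ → Nat.card C ≤ p ^ 2 →
      RankTwoIn p (L.map (QuotientGroup.mk' C)) → SmallSeries p L := by
    intro C L hCn hLn hCL hLK hC1 hC hrq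
    have hs := QuotientGroup.mk'_surjective C
    have hsm : SmallSeries p (L.map (QuotientGroup.mk' C)) := by
      refine ih _ ?_ _ (hLn.map _ hs) ((hKp.to_le hLK).map _) hrq rfl
      rw [← relIndex_ker, QuotientGroup.ker_mk']
      refine lt_of_lt_of_le ?_ (card_le_of_le hLK)
      have h := card_mul_index (C.subgroupOf L)
      rw [Nat.card_congr (subgroupOfEquivOfLe hCL).toEquiv] at h
      rw [← h]
      exact lt_mul_left (Nat.pos_of_ne_zero FiniteIndex.index_ne_zero)
        (Finite.one_lt_card_iff_nontrivial.mpr ((nontrivial_iff_ne_bot C).mpr hC1))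
    have h := SmallSeries.comap (π := QuotientGroup.mk' C) hs
      (by rw [QuotientGroup.ker_mk']; exact small C hCn hC) hsm
    rwa [comap_map_eq_self (by rw [QuotientGroup.ker_mk']; exact hCL)] at h
  haveI := hKn
  by_cases hbig : ∃ C : Subgroup G, C.Normal ∧ C ≤ K ∧ (∀ a ∈ C, ∀ b ∈ C, a * b = b * a) ∧
      (∀ a ∈ C, a ^ p = 1) ∧ p < Nat.card C
  · obtain ⟨C, hCn, hCK, hCc, hCe, hCp⟩ := hbig
    haveI := hCn
    have hC2 := hr C hCK hCc hCe
    have hC2' : Nat.card C = p ^ 2 := by
      obtain ⟨j, hj⟩ := IsPGroup.iff_card.mp (hKp.to_le hCK)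
      rw [hj] at hCp hC2 ⊢
      have h1 : 1 < j := (Nat.pow_lt_pow_iff_right hpp.one_lt).mp (by rwa [pow_one])
      have h2 : j ≤ 2 := (Nat.pow_le_pow_iff_right hpp.one_lt).mp hC2
      rw [show j = 2 by omega]
    set K1 := K ⊓ centralizer (C : Set G) with hK1d
    have hK1small : SmallSeries p K1 := by
      refine via C K1 hCn inferInstance (le_inf hCK fun a ha b hb => hCc b hb a ha) inf_le_left ?_ hC2 ?_
      · intro h; rw [h, card_bot] at hCp; exact absurd hCp (not_lt.mpr hpp.one_le)
      refine rankTwoIn_map_of_central hp _ ?_ ?_ ?_ ?_ ?_ <;> rw [QuotientGroup.ker_mk']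
      · exact le_inf hCK fun a ha b hb => hCc b hb a ha
      · exact hC2
      · exact hCe
      · exact fun c hc k hk => mem_centralizer_iff.mp hk.2 c hc
      · exact fun x hx hxp => mem_of_pow_eq_one hr hCK hCc hCe hC2'.ge hx.1 hxp
          fun a ha => mem_centralizer_iff.mp hx.2 a ha
    refine hK1small.step inf_le_left hKn (not_cube_dvd FiniteIndex.index_ne_zero ?_ hpp.two_le)
    obtain ⟨x, hx, hx1⟩ := (bot_or_exists_ne_one C).resolve_left (by
      intro h; rw [h, card_bot] at hCp; exact absurd hCp (not_lt.mpr hpp.one_le))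
    obtain ⟨y, hy, hyx⟩ : ∃ y ∈ C, y ∉ zpowers x := by
      refine SetLike.not_le_iff_exists.mp fun h => ?_
      have := (card_le_of_le h).trans (Nat.le_of_dvd hpp.pos (by
        rw [Nat.card_zpowers]; exact orderOf_dvd_of_pow_eq_one (hCe x hx)))
      omega
    have hgen : C ≤ closure {x, y} := by
      have hle : closure ({x, y} : Set G) ≤ C := (closure_le _).mpr (Set.insert_subset hx (by simpa using hy))
      obtain ⟨j, hj⟩ := IsPGroup.iff_card.mp ((hKp.to_le hCK).to_le hle)
      have hxl : zpowers x < closure ({x, y} : Set G) :=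
        lt_of_le_not_ge (zpowers_le.mpr (subset_closure (by simp)))
          fun h => hyx (h (subset_closure (by simp)))
      have hxc : Nat.card (zpowers x) = p := by
        rw [Nat.card_zpowers, orderOf_eq_prime (hCe x hx) hx1]
      have hj2 : 1 < j := by
        refine (Nat.pow_lt_pow_iff_right hpp.one_lt).mp ?_
        rw [pow_one, ← hj, ← hxc]
        exact lt_of_le_of_ne (card_le_of_le hxl.le) fun h => hxl.ne (eq_of_le_of_card_ge hxl.le h.ge)
      exact (eq_of_le_of_card_ge hle (by rw [hC2', hj]; exact Nat.pow_le_pow_right hpp.pos hj2)).ge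
    have hle : centralizer ({x} : Set G) ⊓ centralizer ({y} : Set G) ≤ centralizer (C : Set G) := by
      intro g hg
      rw [mem_centralizer_iff]
      intro c hc
      have := (centralizer_closure ({x, y} : Set G)).ge (show g ∈ centralizer ({x, y} : Set G) by
        rw [mem_centralizer_iff]
        rintro h (rfl | rfl)
        · exact mem_centralizer_iff.mp hg.1 _ rfl
        · exact mem_centralizer_iff.mp hg.2 _ rfl)
      exact mem_centralizer_iff.mp this c (hgen hc)
    rw [hK1d, inf_comm, inf_relIndex_right]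
    refine (Nat.le_of_dvd (Nat.pos_of_ne_zero FiniteIndex.index_ne_zero) (relIndex_dvd_of_le_left K hle)).trans ?_
    refine (relIndex_centralizer_pair_le hKp (n := 1) (le_of_eq hC2') hx hy).trans (le_of_eq ?_)
    ring
  have hsmallE : ∀ C : Subgroup G, C.Normal → C ≤ K → (∀ a ∈ C, ∀ b ∈ C, a * b = b * a) →
      (∀ a ∈ C, a ^ p = 1) → Nat.card C ≤ p := fun C h1 h2 h3 h4 =>
    not_lt.mp fun h => hbig ⟨C, h1, h2, h3, h4, h⟩
  obtain ⟨D0, hD0, hD1, hD2, hD3, hD4⟩ := H24.exists_critical hKp
  set W0 := closure {x : K | x ∈ D0 ∧ x ^ p = 1} with hW0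
  haveI hWc : W0.Characteristic := H53.characteristic_closure_pow_eq_one p D0
  have hWmem : ∀ x ∈ W0, x ∈ D0 ∧ x ^ p = 1 := by
    intro x hx
    induction hx using Subgroup.closure_induction with
    | mem x hx => exact hx
    | one => exact ⟨D0.one_mem, one_pow p⟩
    | mul a b _ _ ha hb =>
      refine ⟨D0.mul_mem ha.1 hb.1, ?_⟩
      have hc : ⁅(⟨b, hb.1⟩ : D0), ⟨a, ha.1⟩⁆ ∈ center D0 :=
        mem_center_iff.mpr fun c => Subtype.ext ((hD1 b hb.1 a ha.1) c c.2)
      have h := H24.mul_pow_eq_one_of_class_two hpp hp hc (Subtype.ext (by simpa using ha.2))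
        (Subtype.ext (by simpa using hb.2))
      simpa using congrArg Subtype.val h
    | inv a _ ha => exact ⟨D0.inv_mem ha.1, by rw [inv_pow, ha.2, inv_one]⟩
  set W := W0.map K.subtype with hW
  haveI hWn : W.Normal := ConjAct.normal_of_characteristic_of_normal
  have hWK : W ≤ K := map_subtype_le _
  have hWe : ∀ a ∈ W, a ^ p = 1 := by
    rintro _ ⟨a, ha, rfl⟩
    rw [← map_pow, (hWmem a ha).2, map_one]
  by_cases hWab : ∀ a ∈ W, ∀ b ∈ W, a * b = b * a
  · -- `D` is cyclic
    have hWp : Nat.card W ≤ p := hsmallE W hWn hWK hWab hWe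
    set D := D0.map K.subtype with hD
    haveI hDn : D.Normal := by haveI := hD0; exact ConjAct.normal_of_characteristic_of_normal
    have hDK : D ≤ K := map_subtype_le _
    haveI hDcyc : IsCyclic D := by
      refine H24.isCyclic_of_pow_eq_one_mem (hKp.to_le hDK) hp (A := W.subgroupOf D)
        ((Nat.card_le_card_of_injective (fun a : W.subgroupOf D => (⟨(a : D), a.2⟩ : W))
          fun a b h => Subtype.ext (Subtype.ext (congrArg Subtype.val h :))).trans hWp) ?_
      rintro ⟨_, a, ha, rfl⟩ hx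
      refine ⟨a, subset_closure ⟨ha, ?_⟩, rfl⟩
      exact K.subtype_injective (by simpa using congrArg Subtype.val hx)
    have hcD : ∀ k ∈ K, (∀ d ∈ D, k * d = d * k) → k ∈ D := fun k hk h =>
      ⟨⟨k, hk⟩, hD4 (mem_centralizer_iff.mpr fun d hd => Subtype.ext (h d ⟨d, hd, rfl⟩).symm), rfl⟩
    have hD1' : D ≠ ⊥ := by
      intro h
      obtain ⟨k, hk, hk1⟩ := (bot_or_exists_ne_one K).resolve_left hK1
      refine hk1 (mem_bot.mp ((SetLike.ext_iff.mp h k).mp (hcD k hk fun d hd => ?_)))
      rw [mem_bot.mp ((SetLike.ext_iff.mp h d).mp hd), mul_one, one_mul]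
    rcases hDK.eq_or_lt with hDK' | hDK'
    · -- `K` is cyclic
      haveI : IsCyclic K := hDK' ▸ hDcyc
      refine via W K hWn hKn hWK le_rfl ?_ (hWp.trans (Nat.le_self_pow two_ne_zero p)) ?_
      · haveI : Nontrivial K := (nontrivial_iff_ne_bot K).mpr hK1
        obtain ⟨⟨k, hk⟩, hko⟩ := exists_prime_orderOf_dvd_card' (G := K) p (by
          obtain ⟨j, hj⟩ := IsPGroup.iff_card.mp hKp
          rw [hj]
          refine dvd_pow_self p ?_
          rintro rfl
          exact absurd (hj.trans (pow_zero p)) (Finite.one_lt_card (α := K)).ne')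
        intro h
        have hkD : (⟨k, hk⟩ : K) ∈ D0 := by
          obtain ⟨d, hd, hdk⟩ := hDK'.symm ▸ hk
          exact (K.subtype_injective (a₂ := ⟨k, hk⟩) hdk) ▸ hd
        have hk1 : k = 1 := mem_bot.mp (h ▸ ⟨_, subset_closure ⟨hkD, orderOf_dvd_iff_pow_eq_one.mp hko.dvd⟩, rfl⟩)
        subst hk1
        exact hpp.one_lt.ne' (hko.symm.trans (orderOf_eq_one_iff.mpr rfl))
      · haveI : IsCyclic (K.map (QuotientGroup.mk' W)) :=
          isCyclic_of_surjective _ ((QuotientGroup.mk' W).subgroupMap_surjective K)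
        exact rankTwoIn_of_isCyclic
    · have hs := QuotientGroup.mk'_surjective D
      haveI : IsCyclic (K.map (QuotientGroup.mk' D)) :=
        isCyclic_map_of_cyclic_centralizer hp (hKp.to_le hDK) _ (QuotientGroup.ker_mk' D) hcD
      have hsm : SmallSeries p (K.map (QuotientGroup.mk' D)) := by
        refine ih _ ?_ _ (hKn.map _ hs) (hKp.map _) rankTwoIn_of_isCyclic rfl
        rw [← relIndex_ker, QuotientGroup.ker_mk']
        have h := card_mul_index (D.subgroupOf K)
        rw [Nat.card_congr (subgroupOfEquivOfLe hDK).toEquiv] at h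
        rw [← h]
        exact lt_mul_left (Nat.pos_of_ne_zero FiniteIndex.index_ne_zero)
          (Finite.one_lt_card_iff_nontrivial.mpr ((nontrivial_iff_ne_bot D).mpr hD1'))
      have h := SmallSeries.comap hs (by rw [QuotientGroup.ker_mk']; exact sub D hDn hDK') hsm
      rwa [comap_map_eq_self (by rw [QuotientGroup.ker_mk']; exact hDK)] at h
  -- `W` is non-abelian of order `p ^ 3`
  push Not at hWab
  obtain ⟨x, hx, y, hy, hxy⟩ := hWab
  have hWr : Cfsg.PRankLE p 2 W := rankTwoIn_iff (rankTwoIn_mono hr hWK)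
  have hWexp : ∀ w : W, w ^ p = 1 := fun w => Subtype.ext (by simpa using hWe w w.2)
  have hW3 : Nat.card W ≤ p ^ 3 := (H53.card_abelianization_le_of_exponent hWexp hWr).1
  have hWp : IsPGroup p W := hKp.to_le hWK
  set Z := (center W).map W.subtype with hZ
  haveI hZn : Z.Normal := ConjAct.normal_of_characteristic_of_normal
  have hZW : Z ≤ W := map_subtype_le _
  have hZc : ∀ z ∈ Z, ∀ w ∈ W, z * w = w * z := by
    rintro _ ⟨z, hz, rfl⟩ w hw
    exact (congrArg Subtype.val (mem_center_iff.mp hz ⟨w, hw⟩) :).symm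
  have hZp : Nat.card Z ≤ p := hsmallE Z hZn (hZW.trans hWK)
    (fun a ha b hb => hZc a ha b (hZW hb)) fun a ha => hWe a (hZW ha)
  haveI : Nontrivial W := ⟨⟨x, hx⟩, 1, fun h => hxy (by
    have hx1 : x = 1 := congrArg Subtype.val h
    rw [hx1, mul_one, one_mul])⟩
  haveI : Nontrivial (center W) := hWp.center_nontrivial
  have hZp' : Nat.card Z = p := by
    refine le_antisymm hZp (Nat.le_of_dvd Nat.card_pos ?_)
    rw [hZ, card_map_of_injective W.subtype_injective]
    obtain ⟨j, hj⟩ := IsPGroup.iff_card.mp (hWp.to_subgroup (center W))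
    rw [hj]
    refine dvd_pow_self p ?_
    rintro rfl
    exact absurd (hj.trans (pow_zero p)) (Finite.one_lt_card (α := center W)).ne'
  set L := closure ({x, y} : Set G) with hL
  have hLW : L ≤ W := (closure_le _).mpr (Set.insert_subset hx (by simpa using hy))
  have hL3 : p ^ 3 ≤ Nat.card L := by
    obtain ⟨j, hj⟩ := IsPGroup.iff_card.mp (hWp.to_le hLW)
    rw [hj]
    refine Nat.pow_le_pow_right hpp.pos ?_
    by_contra hj3
    have hc : IsMulCommutative L := by
      rcases Nat.lt_or_ge j 2 with h | h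
      · have : IsCyclic L := by
          rcases (show j = 0 ∨ j = 1 by omega) with rfl | rfl
          · have : Subsingleton L := (Nat.card_eq_one_iff_unique.mp (by simpa using hj)).1
            infer_instance
          · exact isCyclic_of_prime_card (by simpa using hj)
        infer_instance
      · exact IsPGroup.isMulCommutative_of_card_eq_prime_sq (p := p) (by rw [hj, show j = 2 by omega])
    exact hxy (congrArg Subtype.val (hc.is_comm.comm ⟨x, subset_closure (by simp)⟩ ⟨y, subset_closure (by simp)⟩) :)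
  have hLeq : L = W := eq_of_le_of_card_ge hLW (hW3.trans hL3)
  have hW3' : Nat.card W = p ^ 3 := le_antisymm hW3 (hLeq ▸ hL3)
  set K1 := K ⊓ centralizer (W : Set G) with hK1d
  -- an elementary abelian subgroup of order `p ^ 2` in `W`
  set E := closure ((Z : Set G) ∪ {y}) with hE
  have hEW : E ≤ W := (closure_le _).mpr (Set.union_subset hZW (by simpa using hy))
  haveI hEc : IsMulCommutative E := by
    refine Subgroup.isMulCommutative_closure ?_
    rintro a (ha | rfl) b (hb | rfl)
    · exact hZc a ha b (hZW hb)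
    · exact hZc a ha _ hy
    · exact (hZc b hb _ hy).symm
    · rfl
  have hyZ : y ∉ Z := fun h => hxy (hZc y h x hx).symm
  have hE2 : p ^ 2 ≤ Nat.card E := by
    obtain ⟨j, hj⟩ := IsPGroup.iff_card.mp (hWp.to_le hEW)
    rw [hj]
    refine Nat.pow_le_pow_right hpp.pos ?_
    have hlt : Z < E := lt_of_le_not_ge (fun z hz => subset_closure (Or.inl hz))
      fun h => hyZ (h (subset_closure (Or.inr rfl)))
    refine (Nat.pow_lt_pow_iff_right hpp.one_lt).mp ?_
    rw [pow_one, ← hj, ← hZp']
    exact lt_of_le_of_ne (card_le_of_le hlt.le) fun h => hlt.ne (eq_of_le_of_card_ge hlt.le h.ge)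
  have hK1cyc : IsCyclic K1 := by
    refine H24.isCyclic_of_pow_eq_one_mem (hKp.to_le inf_le_left) hp (A := Z.subgroupOf K1)
      ((Nat.card_le_card_of_injective (fun a : Z.subgroupOf K1 => (⟨(a : K1), a.2⟩ : Z))
        fun a b h => Subtype.ext (Subtype.ext (congrArg Subtype.val h :))).trans hZp) ?_
    rintro ⟨a, haK, haC⟩ ha
    have ha' : a ^ p = 1 := by simpa using congrArg Subtype.val ha
    have haE : a ∈ E := mem_of_pow_eq_one hr (hEW.trans hWK)
      (fun u hu v hv => (congrArg Subtype.val (hEc.is_comm.comm (⟨u, hu⟩ : E) ⟨v, hv⟩) :))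
      (fun u hu => hWe u (hEW hu)) hE2 haK ha' fun u hu => mem_centralizer_iff.mp haC u (hEW hu)
    show a ∈ Z
    exact ⟨⟨a, hEW haE⟩, mem_center_iff.mpr fun w => Subtype.ext (mem_centralizer_iff.mp haC w w.2), rfl⟩
  have hK1lt : K1 < K := lt_of_le_not_ge inf_le_left fun h =>
    hxy (mem_centralizer_iff.mp (h (hWK hy)).2 x hx)
  set N := W ⊔ K1 with hN
  have hK1N : K1.relIndex N = p ^ 2 := by
    rw [hN, relIndex_sup_right]
    have hZeq : K1 ⊓ W = Z := by
      refine le_antisymm ?_ (le_inf (le_inf (hZW.trans hWK) fun z hz => mem_centralizer_iff.mpr fun w hw =>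
        (hZc z hz w hw).symm) hZW)
      rintro a ⟨⟨-, haC⟩, haW⟩
      exact ⟨⟨a, haW⟩, mem_center_iff.mpr fun w => Subtype.ext (mem_centralizer_iff.mp haC w w.2), rfl⟩
    have h := card_mul_index (Z.subgroupOf W)
    rw [Nat.card_congr (subgroupOfEquivOfLe hZW).toEquiv, hZp', hW3', ← relIndex] at h
    rw [← inf_relIndex_right, hZeq]
    exact Nat.eq_of_mul_eq_mul_left hpp.pos (h.trans (by ring))
  have hNK : N ≤ K := sup_le hWK inf_le_left
  have hK1K : K1.relIndex K ≤ p ^ 4 := by
    have hle : centralizer ({x} : Set G) ⊓ centralizer ({y} : Set G) ≤ centralizer (W : Set G) := by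
      intro g hg
      rw [← hLeq, hL, centralizer_closure, mem_centralizer_iff]
      rintro h (rfl | rfl)
      · exact mem_centralizer_iff.mp hg.1 _ rfl
      · exact mem_centralizer_iff.mp hg.2 _ rfl
    rw [hK1d, inf_comm, inf_relIndex_right]
    refine (Nat.le_of_dvd (Nat.pos_of_ne_zero FiniteIndex.index_ne_zero) (relIndex_dvd_of_le_left K hle)).trans ?_
    exact (relIndex_centralizer_pair_le hKp (n := 2) hW3 hx hy).trans (le_of_eq (by ring))
  refine ((sub K1 inferInstance hK1lt).step le_sup_right inferInstance ?_).step hNK hKn ?_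
  · rw [← hN, hK1N]; exact not_cube_dvd (pow_ne_zero _ hpp.ne_zero) le_rfl hpp.two_le
  · refine not_cube_dvd FiniteIndex.index_ne_zero ?_ hpp.two_le
    have h := relIndex_mul_relIndex K1 N K le_sup_right hNK
    rw [hK1N] at h
    exact Nat.le_of_mul_le_mul_left (h ▸ hK1K.trans (le_of_eq (by ring)) : p ^ 2 * N.relIndex K ≤ p ^ 2 * p ^ 2)
      (pow_pos hpp.pos 2)

/-- The order of `GL₂(p)` is not divisible by `p ^ 2`. -/
theorem not_cube_dvd_card_GLTwo : ¬ p ^ 3 ∣ Nat.card (GL (Fin 2) (ZMod p)) := by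
  have hpp : p.Prime := Fact.out
  rw [Matrix.card_GL_field, Fin.prod_univ_two, ZMod.card]
  intro h
  simp only [Fin.val_zero, Fin.val_one, pow_zero, pow_one] at h
  rw [show p ^ 2 - p = p * (p - 1) by rw [Nat.mul_sub_one, sq]] at h
  have h2 : p ^ 2 ∣ (p ^ 2 - 1) * (p - 1) := by
    refine Nat.dvd_of_mul_dvd_mul_left hpp.pos ?_
    rw [show p * ((p ^ 2 - 1) * (p - 1)) = (p ^ 2 - 1) * (p * (p - 1)) by ring, ← pow_succ']
    exact h
  rcases hpp.dvd_mul.mp ((dvd_pow_self p two_ne_zero).trans h2) with h3 | h3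
  · have h4 := dvd_pow_self p two_ne_zero
    have h5 := Nat.dvd_sub h4 h3
    have : 1 ≤ p ^ 2 := Nat.one_le_pow _ _ hpp.pos
    rw [show p ^ 2 - (p ^ 2 - 1) = 1 by omega] at h5
    exact hpp.one_lt.ne' (Nat.dvd_one.mp h5)
  · have h5 := hpp.two_le
    have h6 : p ≤ p - 1 := Nat.le_of_dvd (by omega) h3
    omega

/-- `p`-chief factors of a `p`-solvable group of `p`-rank two have order `p` or `p ^ 2`. -/
theorem smallSeries_top {G : Type*} [Group G] [Finite G] (hp : p ≠ 2) (hG : Cfsg.IsPSolvable p G)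
    (hr : Cfsg.PRankLE p 2 G) : SmallSeries p (⊤ : Subgroup G) := by
  haveI hOn := H19.pPrimeCore_normal p G
  set O := Cfsg.pPrimeCore p G with hO
  set π := QuotientGroup.mk' O with hπ
  have hs := QuotientGroup.mk'_surjective O
  have hkO : SmallSeries p π.ker := by
    rw [QuotientGroup.ker_mk']
    refine SmallSeries.bot.step bot_le hOn ?_
    rw [relIndex_bot_left]
    intro h
    exact (Fact.out : p.Prime).not_dvd_one
      ((H19.pPrimeCore_coprime (G := G) p) ▸ Nat.dvd_gcd ((dvd_pow_self p three_ne_zero).trans h) dvd_rfl)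
  rw [← comap_top π]
  refine SmallSeries.comap hs hkO ?_
  haveI hPn := H19.pCore_normal p (G ⧸ O)
  set P := Cfsg.pCore p (G ⧸ O) with hP
  have hPp : IsPGroup p P := H51.pCore_isPGroup p _
  obtain ⟨S⟩ := (inferInstance : Nonempty (Sylow p G))
  have hrP : Cfsg.PRankLE p 2 P := H53.pRankLE_pCore_quotient S (H53.pRankLE_subgroup hr _)
  have hrP' : RankTwoIn p P := fun A hA hc he => by
    have h := hrP (A.subgroupOf P)
      ⟨⟨fun a b => Subtype.ext (Subtype.ext (hc _ a.2 _ b.2))⟩⟩
      (fun a ha => Subtype.ext (by simpa using he _ ha))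
    rwa [Nat.card_congr (subgroupOfEquivOfLe hA).toEquiv] at h
  have hsP := smallSeries_of_rank_two hp _ P hPn hPp hrP' rfl
  refine hsP.step le_top inferInstance ?_
  rw [relIndex_top_right]
  intro hd
  have hcen : centralizer (P : Set (G ⧸ O)) ≤ P :=
    centralizer_pCore_le_of_isPSolvable (H84.isPSolvable_of_surjective π hs hG)
      (H51.pPrimeCore_quotient_self p)
  obtain ⟨f, hf⟩ := H53.exists_hom_GLTwo_of_rank_two hp hPp hrP
  set φ := (MulAut.conjNormal (H := P) : G ⧸ O →* MulAut P) with hφ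
  have hφk : IsPGroup p φ.ker := hPp.to_le fun g hg => hcen (mem_centralizer_iff.mpr fun a ha => by
    have h1 := congrArg Subtype.val (DFunLike.congr_fun (MonoidHom.mem_ker.mp hg) (⟨a, ha⟩ : P))
    simp only [hφ, MulAut.conjNormal_apply, MulAut.one_apply] at h1
    exact (mul_inv_eq_iff_eq_mul.mp h1).symm)
  have hker : IsPGroup p (f.comp φ).ker := by
    rw [← MonoidHom.comap_ker]
    exact hf.comap_of_ker_isPGroup φ hφk
  have hle : (f.comp φ).ker ≤ P := H19.le_pCore inferInstance hker
  refine not_cube_dvd_card_GLTwo (p := p) (hd.trans ((index_dvd_of_le hle).trans ?_))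
  rw [index_ker]
  exact card_subgroup_dvd_card _

end Cfsg.Agent.H59
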