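import Cfsg.Agent.H51.Component

/-! Groups in which cyclic subgroups of equal prime power order are conjugate have one component. -/

set_option autoImplicit false

namespace Cfsg.Agent.H59

open Subgroup Cfsg
open scoped commutatorElement

variable {G : Type*} [Group G] [Finite G]

/-- Given that no component has a centre of odd index, the layer of `G` is a single component. -/
theorem layer_eq_component (hP : ∀ A B : Subgroup G, IsCyclic A → IsCyclic B → IsPGroup 2 A →
      Nat.card A = Nat.card B → ∃ g : G, B = A.map (MulAut.conj g).toMonoidHom)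
    (heven : ∀ K : Subgroup G, IsComponent K → 2 ∣ (center K).index) {K : Subgroup G} (hK : IsComponent K) :
    layer G = K := by
  haveI : Fact (Nat.Prime 2) := ⟨Nat.prime_two⟩
  have hex : ∀ L : Subgroup G, IsComponent L → ∃ x ∈ L, (∃ k, orderOf x = 2 ^ k) ∧ ∃ y ∈ L, x * y ≠ y * x := by
    intro L hL
    obtain ⟨T⟩ := (inferInstance : Nonempty (Sylow 2 L))
    obtain ⟨t, ht, htZ⟩ : ∃ t ∈ (T : Subgroup L), t ∉ center L := by
      by_contra h
      push Not at h
      exact T.not_dvd_index ((heven L hL).trans (index_dvd_of_le h))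
    obtain ⟨k, hk⟩ := IsPGroup.iff_orderOf.mp T.2 ⟨t, ht⟩
    rw [orderOf_mk] at hk
    rw [mem_center_iff] at htZ
    push Not at htZ
    obtain ⟨y, hy⟩ := htZ
    exact ⟨t, t.2, ⟨k, by rw [orderOf_coe]; exact hk⟩, y, y.2, fun h => hy (Subtype.ext h.symm)⟩
  have key : ∀ K L : Subgroup G, IsComponent K → IsComponent L → K ≠ L → ∀ x ∈ K, ∀ x' ∈ L,
      (∃ y ∈ K, x * y ≠ y * x) → (∃ y ∈ L, x' * y ≠ y * x') →
      ∀ a b : ℕ, orderOf x = 2 ^ a → orderOf x' = 2 ^ b → b ≤ a → False := by
    intro K L hK hL hne x hx x' hx' hxn hxn' a b ha hb hba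
    have hKL : ∀ {u v : G}, u ∈ K → v ∈ L → Commute u v := fun hu hv =>
      commutatorElement_eq_one_iff_mul_comm.mp
        (mem_bot.mp (((H51.component_eq_or_commute hK hL).resolve_left hne).le (commutator_mem_commutator hu hv)))
    have hy : (x * x') ^ 2 ^ a = 1 := by
      rw [(hKL hx hx').mul_pow, ← ha, pow_orderOf_eq_one, one_mul, ha]
      exact orderOf_dvd_iff_pow_eq_one.mp (hb ▸ Nat.pow_dvd_pow 2 hba)
    obtain ⟨c, hca, hc⟩ := (Nat.dvd_prime_pow Nat.prime_two).mp (orderOf_dvd_of_pow_eq_one hy)
    set z := x ^ 2 ^ (a - c) with hz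
    have hzc : orderOf z = 2 ^ c := by
      rw [hz, orderOf_pow' x (pow_ne_zero _ two_ne_zero), ha,
        Nat.gcd_eq_right (Nat.pow_dvd_pow 2 (Nat.sub_le a c)), Nat.pow_div (Nat.sub_le a c) two_pos,
        Nat.sub_sub_self hca]
    obtain ⟨g, hg⟩ := hP (zpowers z) (zpowers (x * x')) inferInstance inferInstance
      (IsPGroup.of_card (n := c) (by rw [Nat.card_zpowers, hzc])) (by rw [Nat.card_zpowers, Nat.card_zpowers, hzc, hc])
    set M := K.map (MulAut.conj g).toMonoidHom
    have hM : IsComponent M := H51.component_map_conj hK g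
    have hyM : x * x' ∈ M := by
      have h : x * x' ∈ (zpowers z).map (MulAut.conj g).toMonoidHom := hg ▸ mem_zpowers _
      exact map_mono (zpowers_le.mpr (K.pow_mem hx _)) h
    rcases H51.component_eq_or_commute hM hK with h | h
    · have hx'K : x' ∈ K := by
        have h' := K.mul_mem (K.inv_mem hx) (h ▸ hyM)
        rwa [inv_mul_cancel_left] at h'
      obtain ⟨y, hy, hyn⟩ := hxn'
      exact hyn (hKL hx'K hy).eq
    · obtain ⟨y, hy, hyn⟩ := hxn
      have h1 : Commute (x * x') y :=
        commutatorElement_eq_one_iff_mul_comm.mp (mem_bot.mp (h.le (commutator_mem_commutator hyM hy)))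
      have h2 : Commute x' y := (hKL hy hx').symm
      have h3 := h1.mul_left h2.inv_left
      rw [mul_inv_cancel_right] at h3
      exact hyn h3.eq
  refine le_antisymm (sSup_le fun L hL => ?_) (H51.component_le_layer hK)
  by_cases hne : L = K
  · exact hne.le
  obtain ⟨x, hx, ⟨a, ha⟩, hxn⟩ := hex K hK
  obtain ⟨x', hx', ⟨b, hb⟩, hxn'⟩ := hex L hL
  rcases le_total b a with h | h
  · exact (key K L hK hL (Ne.symm hne) x hx x' hx' hxn hxn' a b ha hb h).elim
  · exact (key L K hL hK hne x' hx' x hx hxn' hxn b a hb ha h).elim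

/-- With odd order groups solvable: the central quotient of a quasisimple group has even order. -/
theorem two_dvd_index_center {H : Type*} [Group H] [Finite H] (h : IsQuasisimple H)
    (hFT : Odd (Nat.card (H ⧸ center H)) → Group.IsSolvable (H ⧸ center H)) : 2 ∣ (center H).index := by
  rw [index_eq_card, ← even_iff_two_dvd, ← Nat.not_odd_iff_even]
  intro hodd
  refine H51.quasisimple_not_isSolvable h ?_
  haveI := hFT hodd
  haveI : Group.IsSolvable ↥(center H) :=
    Group.isSolvable_of_comm fun a b => Subtype.ext (Subgroup.mem_center_iff.mp b.2 a.1)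
  exact Group.isSolvable_of_ker_le_range (center H).subtype (QuotientGroup.mk' (center H))
    (by rw [QuotientGroup.ker_mk', Subgroup.range_subtype])

end Cfsg.Agent.H59
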