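import Cfsg.Agent.H59.WreathNormalRank

/-!
Normal 2-rank of a Sylow 2-subgroup of a general linear group in odd characteristic.
-/

set_option autoImplicit false
open Matrix Equiv

namespace Cfsg.Agent.H59.GLNormalRank

variable (F : Type*) [Field F] (d m : ℕ)

/-- Block diagonal copies of `GL_d`. -/
def base : (Fin m → GL (Fin d) F) →* GL (Fin d × Fin m) F :=
  (Units.map (Matrix.blockDiagonalRingHom (Fin d) (Fin m) F).toMonoidHom).comp
    (MulEquiv.piUnits (M := fun _ : Fin m => Matrix (Fin d) (Fin d) F)).symm.toMonoidHom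

theorem base_val (f : Fin m → GL (Fin d) F) :
    (base F d m f : Matrix (Fin d × Fin m) (Fin d × Fin m) F) =
      blockDiagonal fun i => (f i : Matrix (Fin d) (Fin d) F) := rfl

/-- Permutation of the blocks. -/
def blockPerm : Perm (Fin m) →* Perm (Fin d × Fin m) where
  toFun π := Equiv.prodCongr (Equiv.refl _) π
  map_one' := by ext x <;> simp
  map_mul' π σ := by ext x <;> simp

/-- Permutation matrices of the blocks. -/
def perm : Perm (Fin m) →* GL (Fin d × Fin m) F :=
  ((permMatrixHom (R := F)).comp (blockPerm d m)).toHomUnits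

theorem perm_val (π : Perm (Fin m)) (i j : Fin d × Fin m) :
    (perm F d m π : Matrix (Fin d × Fin m) (Fin d × Fin m) F) i j =
      if (i.1, π.symm i.2) = j then 1 else 0 := by
  show ((blockPerm d m π)⁻¹).permMatrix F i j = _
  simp [Equiv.Perm.permMatrix, PEquiv.toMatrix_apply, eq_comm, blockPerm, Prod.map]

theorem base_injective : Function.Injective (base F d m) := fun f g h => funext fun i => by
  have h' := congrArg Units.val h
  rw [base_val, base_val] at h'
  exact Units.ext (congrFun (blockDiagonal_injective h') i)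

theorem eq_one_of_base_eq_perm (hd : 1 ≤ d) (f : Fin m → GL (Fin d) F) (π : Perm (Fin m))
    (h : base F d m f = perm F d m π) : π = 1 := by
  refine Equiv.ext fun k => ?_
  by_contra hne
  have h1 := congrArg (fun x : GL (Fin d × Fin m) F =>
    (x : Matrix (Fin d × Fin m) (Fin d × Fin m) F) (⟨0, hd⟩, π k) (⟨0, hd⟩, k)) h
  rw [base_val, blockDiagonal_apply_ne _ _ _ (show π k ≠ k from hne), perm_val, if_pos (by simp)] at h1
  exact zero_ne_one h1

theorem perm_injective (hd : 1 ≤ d) : Function.Injective (perm F d m) := by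
  rw [injective_iff_map_eq_one]
  intro π hπ
  exact eq_one_of_base_eq_perm F d m hd 1 π (by rw [map_one, hπ])

theorem perm_conj (π : Perm (Fin m)) (f : Fin m → GL (Fin d) F) :
    perm F d m π * base F d m f * (perm F d m π)⁻¹ = base F d m (f ∘ π.symm) := by
  rw [mul_inv_eq_iff_eq_mul]
  refine Units.ext (Matrix.ext fun i j => ?_)
  rw [Units.val_mul, Units.val_mul, Matrix.mul_apply, Matrix.mul_apply,
    Finset.sum_eq_single (i.1, π.symm i.2), Finset.sum_eq_single (j.1, π j.2)]
  · rw [perm_val, if_pos rfl, one_mul, perm_val, if_pos (by simp), mul_one, base_val, base_val,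
      blockDiagonal_apply, blockDiagonal_apply]
    simp only [Equiv.symm_apply_eq, Function.comp_apply]
  · intro x _ hx
    rw [perm_val, if_neg, mul_zero]
    intro h
    exact hx (by rw [← h]; simp)
  · simp
  · intro x _ hx
    rw [perm_val, if_neg fun h => hx h.symm, zero_mul]
  · simp

/-- Block diagonal `GL_κ₁ × GL_κ₂`. -/
def sumHom (κ₁ κ₂ : Type) [Fintype κ₁] [DecidableEq κ₁] [Fintype κ₂] [DecidableEq κ₂] :
    GL κ₁ F × GL κ₂ F →* GL (κ₁ ⊕ κ₂) F :=
  (Units.map
    ({ toFun := fun x => fromBlocks x.1 0 0 x.2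
       map_one' := by simp
       map_mul' := fun x y => by simp [fromBlocks_multiply] } :
      Matrix κ₁ κ₁ F × Matrix κ₂ κ₂ F →* Matrix (κ₁ ⊕ κ₂) (κ₁ ⊕ κ₂) F)).comp
    (MulEquiv.prodUnits (M := Matrix κ₁ κ₁ F) (N := Matrix κ₂ κ₂ F)).symm.toMonoidHom

theorem sumHom_injective (κ₁ κ₂ : Type) [Fintype κ₁] [DecidableEq κ₁] [Fintype κ₂]
    [DecidableEq κ₂] : Function.Injective (sumHom F κ₁ κ₂) := fun x y h => by
  have h' : fromBlocks (x.1 : Matrix κ₁ κ₁ F) 0 0 (x.2 : Matrix κ₂ κ₂ F) =
      fromBlocks (y.1 : Matrix κ₁ κ₁ F) 0 0 (y.2 : Matrix κ₂ κ₂ F) := congrArg Units.val h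
  obtain ⟨h1, -, -, h2⟩ := fromBlocks_inj.mp h'
  exact Prod.ext (Units.ext h1) (Units.ext h2)

section card

variable [Fintype F]

theorem card_GL_succ (n : ℕ) :
    Nat.card (GL (Fin (n + 1)) F) =
      (Fintype.card F ^ (n + 1) - 1) * Fintype.card F ^ n * Nat.card (GL (Fin n) F) := by
  classical
  rw [Matrix.card_GL_field, Matrix.card_GL_field, Fin.prod_univ_succ, mul_assoc]
  congr 1
  have : Fintype.card F ^ n = ∏ _i : Fin n, Fintype.card F := by simp
  rw [this, ← Finset.prod_mul_distrib, ← this]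
  refine Finset.prod_congr rfl fun i _ => ?_
  rw [Fin.val_succ, Nat.mul_sub, pow_succ', pow_succ']

theorem padic_card_succ (hF : Odd (Fintype.card F)) (n : ℕ) :
    padicValNat 2 (Nat.card (GL (Fin (n + 1)) F)) =
      padicValNat 2 (Fintype.card F ^ (n + 1) - 1) + padicValNat 2 (Nat.card (GL (Fin n) F)) := by
  classical
  haveI : Fact (Nat.Prime 2) := ⟨Nat.prime_two⟩
  have hq0 : padicValNat 2 (Fintype.card F) = 0 := padicValNat.eq_zero_of_not_dvd
    fun h => Nat.not_even_iff_odd.mpr hF (even_iff_two_dvd.mpr h)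
  have h1 : 1 < Fintype.card F := Fintype.one_lt_card
  have hne : Fintype.card F ^ (n + 1) - 1 ≠ 0 := by
    have := Nat.one_lt_pow (show n + 1 ≠ 0 by omega) h1
    omega
  rw [card_GL_succ, padicValNat.mul (mul_ne_zero hne (pow_ne_zero _ (by omega))) Nat.card_pos.ne',
    padicValNat.mul hne (pow_ne_zero _ (by omega)), padicValNat.pow _ _, hq0, mul_zero, add_zero]

theorem padic_card_zero : padicValNat 2 (Nat.card (GL (Fin 0) F)) = 0 := by
  classical
  rw [Matrix.card_GL_field]
  simp

theorem padic_sq_sub_one_one (hF : Fintype.card F % 4 = 1) :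
    padicValNat 2 (Fintype.card F ^ 2 - 1) = padicValNat 2 (Fintype.card F - 1) + 1 := by
  haveI : Fact (Nat.Prime 2) := ⟨Nat.prime_two⟩
  have h1 : 1 < Fintype.card F := Fintype.one_lt_card
  have e : Fintype.card F ^ 2 - 1 =
      (Fintype.card F - 1) * (2 * ((Fintype.card F + 1) / 2)) := by
    rw [Nat.mul_div_cancel' (by omega), show Fintype.card F ^ 2 - 1 =
      Fintype.card F ^ 2 - 1 ^ 2 from rfl, Nat.sq_sub_sq, mul_comm]
  rw [e, padicValNat.mul (by omega) (by omega), padicValNat.mul two_ne_zero (by omega),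
    padicValNat.self Nat.one_lt_two, padicValNat.eq_zero_of_not_dvd (n := (Fintype.card F + 1) / 2)
      (by omega)]

/-- The 2-part of `|GL_n(q)|` for `q = 1 mod 4`. -/
theorem padic_card_one (hF : Fintype.card F % 4 = 1) (n : ℕ) :
    padicValNat 2 (Nat.card (GL (Fin n) F)) =
      n * padicValNat 2 (Fintype.card F - 1) + padicValNat 2 n.factorial := by
  haveI : Fact (Nat.Prime 2) := ⟨Nat.prime_two⟩
  have hodd : Odd (Fintype.card F) := Nat.odd_iff.2 (by omega)
  have h1 : 1 < Fintype.card F := Fintype.one_lt_card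
  induction n with
  | zero => rw [padic_card_zero]; simp
  | succ n ih =>
    rw [padic_card_succ F hodd, ih, Nat.factorial_succ,
      padicValNat.mul (by omega) n.factorial_ne_zero]
    rcases Nat.even_or_odd' n with ⟨j, rfl | rfl⟩
    · rw [H44.padic_odd_pow_sub_one hodd h1,
        padicValNat.eq_zero_of_not_dvd (n := 2 * j + 1) (by omega)]
      ring
    · rw [show 2 * j + 1 + 1 = 2 * (j + 1) by ring, H44.padic_even_pow_sub_one hodd h1,
        padic_sq_sub_one_one F hF, padicValNat.mul two_ne_zero (by omega),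
        padicValNat.self Nat.one_lt_two]
      ring

/-- The 2-part of `|GL_{2m}(q)|` and `|GL_{2m+1}(q)|` for `q = 3 mod 4`. -/
theorem padic_card_three (hF : Fintype.card F % 4 = 3) (j : ℕ) :
    padicValNat 2 (Nat.card (GL (Fin (2 * j)) F)) =
      j * (1 + padicValNat 2 (Fintype.card F ^ 2 - 1)) + padicValNat 2 j.factorial ∧
    padicValNat 2 (Nat.card (GL (Fin (2 * j + 1)) F)) =
      1 + (j * (1 + padicValNat 2 (Fintype.card F ^ 2 - 1)) + padicValNat 2 j.factorial) := by
  haveI : Fact (Nat.Prime 2) := ⟨Nat.prime_two⟩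
  have hodd : Odd (Fintype.card F) := Nat.odd_iff.2 (by omega)
  have h1 : 1 < Fintype.card F := Fintype.one_lt_card
  have hv : padicValNat 2 (Fintype.card F - 1) = 1 := by
    rw [show Fintype.card F - 1 = 2 * ((Fintype.card F - 1) / 2) by omega,
      padicValNat.mul two_ne_zero (by omega), padicValNat.self Nat.one_lt_two,
      padicValNat.eq_zero_of_not_dvd (n := (Fintype.card F - 1) / 2) (by omega)]
  have hstep : ∀ j, padicValNat 2 (Nat.card (GL (Fin (2 * j + 1)) F)) =
      1 + padicValNat 2 (Nat.card (GL (Fin (2 * j)) F)) := fun j => by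
    rw [padic_card_succ F hodd, H44.padic_odd_pow_sub_one hodd h1, hv]
  have hall : padicValNat 2 (Nat.card (GL (Fin (2 * j)) F)) =
      j * (1 + padicValNat 2 (Fintype.card F ^ 2 - 1)) + padicValNat 2 j.factorial := by
    induction j with
    | zero => rw [padic_card_zero]; simp
    | succ j ih =>
      rw [show 2 * (j + 1) = 2 * j + 1 + 1 by ring, padic_card_succ F hodd, hstep, ih,
        show 2 * j + 1 + 1 = 2 * (j + 1) by ring, H44.padic_even_pow_sub_one hodd h1,
        Nat.factorial_succ, padicValNat.mul (by omega) j.factorial_ne_zero]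
      ring
  exact ⟨hall, by rw [hstep, hall]⟩

end card

section factor

variable {F}

theorem gl_one_involution (x : GL (Fin 1) F) (hx : x ^ 2 = 1) : x = 1 ∨ x = -1 := by
  have h := congrArg (fun x : GL (Fin 1) F => (x : Matrix (Fin 1) (Fin 1) F) 0 0) hx
  simp [pow_two, Matrix.mul_apply] at h
  rcases mul_self_eq_one_iff.1 h with h | h
  · left
    refine Units.ext (Matrix.ext fun i j => ?_)
    fin_cases i; fin_cases j; simpa using h
  · right
    refine Units.ext (Matrix.ext fun i j => ?_)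
    fin_cases i; fin_cases j; simpa using h

theorem neg_one_ne_one (h2 : (2 : F) ≠ 0) {k : ℕ} (hk : 0 < k) : (-1 : GL (Fin k) F) ≠ 1 := by
  intro h
  have := congrArg (fun x : GL (Fin k) F => (x : Matrix (Fin k) (Fin k) F) ⟨0, hk⟩ ⟨0, hk⟩) h
  simp at this
  exact h2 (by linear_combination -this)

theorem card_zpowers_neg_one (h2 : (2 : F) ≠ 0) {k : ℕ} (hk : 0 < k) :
    Nat.card (Subgroup.zpowers (-1 : GL (Fin k) F)) = 2 := by
  rw [Nat.card_zpowers, orderOf_eq_prime_iff (p := 2)]
  exact ⟨by rw [neg_one_sq], neg_one_ne_one h2 hk⟩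

theorem mem_zpowers_neg_one {k : ℕ} (x : GL (Fin k) F) (hx : x = 1 ∨ x = -1) :
    x ∈ Subgroup.zpowers (-1 : GL (Fin k) F) := by
  rcases hx with rfl | rfl
  · exact one_mem _
  · exact Subgroup.mem_zpowers _

theorem zpowers_neg_one_sq {k : ℕ} (z : GL (Fin k) F)
    (hz : z ∈ Subgroup.zpowers (-1 : GL (Fin k) F)) : z ^ 2 = 1 := by
  obtain ⟨i, rfl⟩ := Subgroup.mem_zpowers_iff.1 hz
  rw [← zpow_natCast, ← _root_.zpow_mul, mul_comm, _root_.zpow_mul, zpow_natCast, neg_one_sq,
    _root_.one_zpow]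

theorem zpowers_neg_one_conj {k : ℕ} (r z : GL (Fin k) F)
    (hz : z ∈ Subgroup.zpowers (-1 : GL (Fin k) F)) :
    r * z * r⁻¹ ∈ Subgroup.zpowers (-1 : GL (Fin k) F) := by
  obtain ⟨i, rfl⟩ := Subgroup.mem_zpowers_iff.1 hz
  have hc : Commute r ((-1 : GL (Fin k) F) ^ i) := (Commute.neg_one_right r).zpow_right i
  rw [hc.eq, mul_inv_cancel_right]
  exact Subgroup.zpow_mem_zpowers _ _

/-- A central 2-element lies in every Sylow 2-subgroup. -/
theorem mem_sylow_of_central {G : Type*} [Group G] [Finite G] (z : G) (hc : ∀ g, Commute g z)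
    (hz : z ^ 2 = 1) (R : Sylow 2 G) : z ∈ (R : Subgroup G) := by
  haveI : Fact (Nat.Prime 2) := ⟨Nat.prime_two⟩
  have hp : IsPGroup 2 (Subgroup.zpowers z) := by
    intro x
    refine ⟨1, Subtype.ext ?_⟩
    obtain ⟨i, hi⟩ := Subgroup.mem_zpowers_iff.1 x.2
    rw [pow_one, Subgroup.coe_pow, ← hi, ← zpow_natCast, ← _root_.zpow_mul, mul_comm,
      _root_.zpow_mul, zpow_natCast, hz, _root_.one_zpow, Subgroup.coe_one]
  obtain ⟨P, hP⟩ := hp.exists_le_sylow
  obtain ⟨g, hg⟩ := MulAction.exists_smul_eq G P R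
  have h1 : g * z * g⁻¹ ∈ (R : Subgroup G) := by
    rw [← hg]
    exact ⟨z, hP (Subgroup.mem_zpowers _), rfl⟩
  rwa [(hc g).eq, mul_inv_cancel_right] at h1

theorem comm_eq_linear (h2 : (2 : F) ≠ 0) (t k : Matrix (Fin 2) (Fin 2) F) (ht : t * t = 1)
    (ht1 : t ≠ 1) (ht2 : t ≠ -1) (hk : k * t = t * k) :
    ∃ a b : F, k = a • 1 + b • t := by
  have e : ∀ i j, (t * t) i j = (1 : Matrix (Fin 2) (Fin 2) F) i j := fun i j => by rw [ht]
  have c : ∀ i j, (k * t) i j = (t * k) i j := fun i j => by rw [hk]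
  have e00 := e 0 0; have e01 := e 0 1; have e10 := e 1 0; have e11 := e 1 1
  have c00 := c 0 0; have c01 := c 0 1; have c10 := c 1 0
  simp [Matrix.mul_apply, Fin.sum_univ_two] at e00 e01 e10 e11 c00 c01 c10
  have htr : t 1 1 = - t 0 0 := by
    by_contra hne
    have hs : t 0 0 + t 1 1 ≠ 0 := fun h => hne (by linear_combination h)
    have h01 : t 0 1 = 0 := (mul_eq_zero.1 (show (t 0 0 + t 1 1) * t 0 1 = 0 by
      linear_combination e01)).resolve_left hs
    have h10 : t 1 0 = 0 := (mul_eq_zero.1 (show (t 0 0 + t 1 1) * t 1 0 = 0 by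
      linear_combination e10)).resolve_left hs
    rw [h01, zero_mul, add_zero] at e00
    rw [h01, mul_zero, zero_add] at e11
    rcases mul_self_eq_one_iff.1 e00 with h | h <;> rcases mul_self_eq_one_iff.1 e11 with h' | h'
    · exact ht1 (Matrix.ext fun i j => by fin_cases i <;> fin_cases j <;> simp [h, h', h01, h10])
    · exact hne (by rw [h, h'])
    · exact hne (by rw [h, h']; ring)
    · exact ht2 (Matrix.ext fun i j => by fin_cases i <;> fin_cases j <;> simp [h, h', h01, h10])
  rw [htr] at c01 c10 e11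
  obtain ⟨b, h01, h10, hd⟩ : ∃ b, k 0 1 = b * t 0 1 ∧ k 1 0 = b * t 1 0 ∧
      k 0 0 - k 1 1 = 2 * (b * t 0 0) := by
    by_cases hy : t 0 1 = 0
    · by_cases hz : t 1 0 = 0
      · have hx : t 0 0 ≠ 0 := fun h => by rw [h, hy] at e00; simp at e00
        refine ⟨(k 0 0 - k 1 1) / (2 * t 0 0), ?_, ?_, by field_simp⟩
        · have : 2 * t 0 0 * k 0 1 = 0 := by rw [hy] at c01; linear_combination -c01
          rw [(mul_eq_zero.1 this).resolve_left (mul_ne_zero h2 hx), hy, mul_zero]
        · have : 2 * t 0 0 * k 1 0 = 0 := by rw [hz] at c10; linear_combination c10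
          rw [(mul_eq_zero.1 this).resolve_left (mul_ne_zero h2 hx), hz, mul_zero]
      · refine ⟨k 1 0 / t 1 0, ?_, by field_simp, ?_⟩
        · field_simp; linear_combination c00
        · field_simp; linear_combination -c10
    · refine ⟨k 0 1 / t 0 1, by field_simp, ?_, ?_⟩
      · field_simp; linear_combination -c00
      · field_simp; linear_combination c01
  refine ⟨k 0 0 - b * t 0 0, b, Matrix.ext fun i j => ?_⟩
  fin_cases i <;> fin_cases j <;> simp [htr, h01, h10]
  linear_combination -hd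

/-- Few 2-elements centralise a non-central involution of `GL₂(q)`, `q = 3 mod 4`. -/
theorem card_comm_le [Fintype F] (hF : Fintype.card F % 4 = 3) (h2 : (2 : F) ≠ 0)
    (t : GL (Fin 2) F) (ht : t ^ 2 = 1) (ht1 : t ≠ 1) (ht2 : t ≠ -1) :
    Nat.card {k : GL (Fin 2) F // Commute k t ∧ ∃ c : ℕ, k ^ 2 ^ c = 1} ≤ 4 := by
  classical
  set T : Matrix (Fin 2) (Fin 2) F := t.val with hT
  have htt : T * T = 1 := by rw [hT, ← Units.val_mul, ← pow_two, ht, Units.val_one]
  have hT1 : T ≠ 1 := fun h => ht1 (Units.ext h)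
  have hT2 : T ≠ -1 := fun h => ht2 (Units.ext (by rw [Units.val_neg, Units.val_one]; exact h))
  choose a b hab using fun k : {k : GL (Fin 2) F // Commute k t ∧ ∃ c : ℕ, k ^ 2 ^ c = 1} =>
    comm_eq_linear h2 T k.1.val htt hT1 hT2 (by rw [hT, ← Units.val_mul, k.2.1.eq, Units.val_mul])
  have hsign : ∀ k, (a k + b k = 1 ∨ a k + b k = -1) ∧ (a k - b k = 1 ∨ a k - b k = -1) := by
    intro k
    obtain ⟨c, hc⟩ := k.2.2
    have hc' : k.1.val ^ 2 ^ c = 1 := by rw [← Units.val_pow_eq_pow_val, hc, Units.val_one]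
    have key : ∀ (u : F) (N : Matrix (Fin 2) (Fin 2) F), N ≠ 0 → k.1.val * N = u • N →
        u = 1 ∨ u = -1 := by
      intro u N hN hu
      have hpow : ∀ i : ℕ, k.1.val ^ i * N = u ^ i • N := fun i => by
        induction i with
        | zero => simp
        | succ i ih => rw [pow_succ', mul_assoc, ih, Matrix.mul_smul, hu, smul_smul, pow_succ]
      have h1 := hpow (2 ^ c)
      rw [hc', one_mul] at h1
      have h3 : u ^ 2 ^ c = 1 := by
        have h4 : (u ^ 2 ^ c - 1) • N = 0 := by rw [sub_smul, one_smul, ← h1, sub_self]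
        exact sub_eq_zero.1 ((smul_eq_zero.1 h4).resolve_right hN)
      have hu0 : u ≠ 0 := fun h => by
        rw [h, zero_pow (pow_ne_zero _ two_ne_zero)] at h3; exact zero_ne_one h3
      have hq := FiniteField.pow_card_sub_one_eq_one u hu0
      have hg := (pow_gcd_eq_one (a := u) (m := 2 ^ c) (n := Fintype.card F - 1)).2 ⟨h3, hq⟩
      have hdvd : Nat.gcd (2 ^ c) (Fintype.card F - 1) ∣ 2 := by
        obtain ⟨e, -, he⟩ := (Nat.dvd_prime_pow Nat.prime_two).1
          (Nat.gcd_dvd_left (2 ^ c) (Fintype.card F - 1))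
        rcases Nat.lt_or_ge e 2 with h | h
        · rw [he]; exact (pow_dvd_pow 2 (show e ≤ 1 by omega)).trans (by rw [pow_one])
        · exfalso
          have h5 := Nat.gcd_dvd_right (2 ^ c) (Fintype.card F - 1)
          rw [he] at h5
          have h6 : 4 ∣ Fintype.card F - 1 := (pow_dvd_pow 2 h).trans h5
          omega
      obtain ⟨w, hw⟩ := hdvd
      have h7 : u ^ 2 = 1 := by rw [hw, pow_mul, hg, one_pow]
      exact sq_eq_one_iff.1 h7
    constructor
    · refine key _ (1 + T) (fun h => hT2 (eq_neg_of_add_eq_zero_right h)) ?_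
      rw [hab k, mul_add, mul_one, add_mul, smul_mul_assoc, smul_mul_assoc, one_mul, htt, smul_add,
        add_smul, add_smul]
      abel
    · refine key _ (1 - T) (fun h => hT1 (sub_eq_zero.1 h).symm) ?_
      rw [hab k, mul_sub, mul_one, add_mul, smul_mul_assoc, smul_mul_assoc, one_mul, htt, smul_sub,
        sub_smul, sub_smul]
      abel
  let f : {k : GL (Fin 2) F // Commute k t ∧ ∃ c : ℕ, k ^ 2 ^ c = 1} → Bool × Bool :=
    fun k => (decide (a k + b k = 1), decide (a k - b k = 1))
  have hf : Function.Injective f := by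
    intro k l hkl
    simp only [f, Prod.mk.injEq, decide_eq_decide] at hkl
    have hp : a k + b k = a l + b l := by
      rcases (hsign k).1 with h | h <;> rcases (hsign l).1 with h' | h'
      · rw [h, h']
      · rw [h, hkl.1.1 h]
      · rw [hkl.1.2 h', h']
      · rw [h, h']
    have hm : a k - b k = a l - b l := by
      rcases (hsign k).2 with h | h <;> rcases (hsign l).2 with h' | h'
      · rw [h, h']
      · rw [h, hkl.2.1 h]
      · rw [hkl.2.2 h', h']
      · rw [h, h']
    have e1 : a k = a l := mul_left_cancel₀ h2 (by linear_combination hp + hm)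
    have e2 : b k = b l := mul_left_cancel₀ h2 (by linear_combination hp - hm)
    exact Subtype.ext (Units.ext (by rw [hab k, hab l, e1, e2]))
  refine (Nat.card_le_card_of_injective f hf).trans ?_
  simp

end factor

variable {F}

/-- `q = 3 mod 4`: normal elementary abelian subgroups of a Sylow 2-subgroup of `GL₂(q)` are central. -/
theorem gl_two_max [Fintype F] (hF : Fintype.card F % 4 = 3) (h2 : (2 : F) ≠ 0)
    (R : Sylow 2 (GL (Fin 2) F)) (hR : 16 ≤ Nat.card (R : Subgroup (GL (Fin 2) F)))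
    (T : Subgroup (GL (Fin 2) F)) (hTR : T ≤ R)
    (hTn : ∀ r ∈ (R : Subgroup (GL (Fin 2) F)), ∀ t ∈ T, r * t * r⁻¹ ∈ T)
    (hT2 : ∀ t ∈ T, t ^ 2 = 1) : T ≤ Subgroup.zpowers (-1 : GL (Fin 2) F) := by
  classical
  intro t ht
  refine mem_zpowers_neg_one t ?_
  by_contra! hne
  have hcomm : ∀ a ∈ T, ∀ b ∈ T, Commute a b := fun a ha b hb => by
    have hinv : ∀ c ∈ T, c⁻¹ = c := fun c hc =>
      inv_eq_of_mul_eq_one_right (by rw [← pow_two]; exact hT2 c hc)
    change a * b = b * a
    rw [← hinv _ (mul_mem ha hb), _root_.mul_inv_rev, hinv _ ha, hinv _ hb]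
  have hbound := card_comm_le hF h2 t (hT2 t ht) hne.1 hne.2
  set K := {k : GL (Fin 2) F // Commute k t ∧ ∃ c : ℕ, k ^ 2 ^ c = 1}
  haveI := Fintype.ofFinite (R : Subgroup (GL (Fin 2) F))
  let φ : ↥(R : Subgroup (GL (Fin 2) F)) → GL (Fin 2) F :=
    fun r => r.1 * t * r.1⁻¹
  let im : Finset (GL (Fin 2) F) := Finset.univ.image φ
  have hfib : ∀ y ∈ im, (Finset.univ.filter fun r => φ r = y).card ≤ 4 := by
    intro y hy
    obtain ⟨r₀, -, hr₀⟩ := Finset.mem_image.1 hy
    refine le_trans ?_ hbound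
    rw [← Nat.card_eq_finsetCard]
    refine Nat.card_le_card_of_injective (fun r => (⟨(r₀⁻¹ * r.1).1, ?_, ?_⟩ : K))
      fun a b hab => ?_
    · have h : r.1.1 * t * r.1.1⁻¹ = r₀.1 * t * r₀.1⁻¹ :=
        (Finset.mem_filter.1 r.2).2.trans hr₀.symm
      change _ * t = t * _
      rw [Subgroup.coe_mul, Subgroup.coe_inv]
      calc r₀.1⁻¹ * r.1.1 * t = r₀.1⁻¹ * (r.1.1 * t * r.1.1⁻¹) * r.1.1 := by group
        _ = _ := by rw [h]; group
    · obtain ⟨c, hc⟩ := R.2 (r₀⁻¹ * r.1)
      exact ⟨c, congrArg Subtype.val hc⟩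
    · exact Subtype.ext (mul_left_cancel (Subtype.ext (congrArg Subtype.val hab :)))
  have him : im.card ≤ 3 := by
    have h1 : (insert (1 : GL (Fin 2) F) im).card ≤ 4 := by
      refine le_trans ?_ hbound
      rw [← Nat.card_eq_finsetCard]
      refine Nat.card_le_card_of_injective (fun y => (⟨y.1, ?_⟩ : K)) fun a b hab => ?_
      · have hy : y.1 ∈ T := by
          rcases Finset.mem_insert.1 y.2 with h | h
          · rw [h]; exact T.one_mem
          · obtain ⟨r, -, hr⟩ := Finset.mem_image.1 h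
            rw [← hr]; exact hTn _ r.2 t ht
        exact ⟨hcomm _ hy _ ht, 1, by rw [pow_one]; exact hT2 _ hy⟩
      · exact Subtype.ext (congrArg Subtype.val hab :)
    rw [Finset.card_insert_of_notMem] at h1
    · omega
    · intro h
      obtain ⟨r, -, hr⟩ := Finset.mem_image.1 h
      exact hne.1 (by rw [mul_inv_eq_one] at hr; exact mul_eq_left.1 hr)
  have := Finset.card_le_mul_card_image (f := φ) Finset.univ 4 hfib
  rw [Finset.card_univ, ← Nat.card_eq_fintype_card] at this
  change _ ≤ 4 * im.card at this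
  omega

/-- Transport of the bound along an isomorphism of index types. -/
theorem normalElemMax_gl {κ : Type} [Fintype κ] [DecidableEq κ] [Fintype F] {n : ℕ}
    (e : κ ≃ Fin n) {W : Type*} [Group W] (ι : W →* GL κ F) (hι : Function.Injective ι)
    (hcard : Nat.card W = 2 ^ padicValNat 2 (Nat.card (GL (Fin n) F))) {N : ℕ}
    (h : NormalElemMax W N) (P : Sylow 2 (GL (Fin n) F)) :
    NormalElemMax (P : Subgroup (GL (Fin n) F)) N :=
  normalElemMax_sylow ((Units.mapEquiv (Matrix.reindexAlgEquiv F F e).toMulEquiv).toMonoidHom.comp ι)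
    (fun _ _ hab => hι ((Units.mapEquiv (Matrix.reindexAlgEquiv F F e).toMulEquiv).injective hab))
    hcard h P

variable [Fintype F]

theorem normalElemMax_one (hF : Fintype.card F % 4 = 1) (h2 : (2 : F) ≠ 0) (n : ℕ)
    (P : Sylow 2 (GL (Fin n) F)) :
    NormalElemMax (P : Subgroup (GL (Fin n) F)) (2 ^ n) := by
  classical
  haveI : Fact (Nat.Prime 2) := ⟨Nat.prime_two⟩
  let R : Sylow 2 (GL (Fin 1) F) := default
  obtain ⟨W₀, hW₀, -, -⟩ := H44.exists_genByOrder_sylow (p := 2) n
  have hv : padicValNat 2 (Nat.card (GL (Fin 1) F)) = padicValNat 2 (Fintype.card F - 1) := by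
    rw [padic_card_one F hF 1]; simp
  have hR : Nat.card (R : Subgroup (GL (Fin 1) F)) = 2 ^ padicValNat 2 (Fintype.card F - 1) := by
    rw [Sylow.card_eq_multiplicity, Nat.factorization_def _ Nat.prime_two, hv]
  refine normalElemMax_gl (finProdFinEquiv.trans (finCongr (one_mul n)))
    (H44.wreath (base F 1 n) (perm F 1 n) (R : Subgroup (GL (Fin 1) F)) W₀).subtype
    Subtype.val_injective ?_ ?_ P
  · rw [H44.card_wreath _ _ (perm_conj F 1 n) (base_injective F 1 n) (perm_injective F 1 n le_rfl)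
      (eq_one_of_base_eq_perm F 1 n le_rfl), hW₀, hR, padic_card_one F hF n, pow_add, pow_mul']
  have hz := card_zpowers_neg_one h2 (k := 1) Nat.one_pos
  rw [show (2 : ℕ) ^ n = Nat.card (Subgroup.zpowers (-1 : GL (Fin 1) F)) ^ n by rw [hz]]
  refine normalElemMax_wreath _ _ (perm_conj F 1 n) (base_injective F 1 n) _ _ _
    (Subgroup.zpowers_le.2 (mem_sylow_of_central _ (fun g => Commute.neg_one_right g) neg_one_sq R))
    (fun r _ z hz => zpowers_neg_one_conj r z hz) zpowers_neg_one_sq ?_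
    fun T _ _ hT t ht => mem_zpowers_neg_one t (gl_one_involution t (hT t ht))
  by_contra! h
  have hle : (R : Subgroup (GL (Fin 1) F)) ≤ Subgroup.zpowers (-1) := fun x hx =>
    mem_zpowers_neg_one x (gl_one_involution x (h x hx))
  have h4 := Subgroup.card_le_of_le hle
  rw [hz, hR] at h4
  have : 2 ≤ padicValNat 2 (Fintype.card F - 1) :=
    (padicValNat_dvd_iff_le (by have := Fintype.one_lt_card (α := F); omega)).1
      (show 2 ^ 2 ∣ Fintype.card F - 1 by norm_num; omega)
  have := Nat.pow_le_pow_right two_pos this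
  omega

theorem normalElemMax_three (hF : Fintype.card F % 4 = 3) (h2 : (2 : F) ≠ 0) (n : ℕ)
    (P : Sylow 2 (GL (Fin n) F)) :
    NormalElemMax (P : Subgroup (GL (Fin n) F)) (2 ^ ((n + 1) / 2)) := by
  classical
  haveI : Fact (Nat.Prime 2) := ⟨Nat.prime_two⟩
  obtain ⟨j, hj⟩ := Nat.even_or_odd' n
  let R : Sylow 2 (GL (Fin 2) F) := default
  obtain ⟨W₀, hW₀, -, -⟩ := H44.exists_genByOrder_sylow (p := 2) j
  have hv : padicValNat 2 (Nat.card (GL (Fin 2) F)) =
      1 + padicValNat 2 (Fintype.card F ^ 2 - 1) := by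
    have := (padic_card_three F hF 1).1; simpa using this
  have hR : Nat.card (R : Subgroup (GL (Fin 2) F)) =
      2 ^ (1 + padicValNat 2 (Fintype.card F ^ 2 - 1)) := by
    rw [Sylow.card_eq_multiplicity, Nat.factorization_def _ Nat.prime_two, hv]
  have h16 : 16 ≤ Nat.card (R : Subgroup (GL (Fin 2) F)) := by
    rw [hR]
    have hdvd : 2 ^ 3 ∣ Fintype.card F ^ 2 - 1 := by
      obtain ⟨k, hk⟩ : Odd (Fintype.card F) := Nat.odd_iff.2 (by omega)
      rw [hk]
      have h1 : (2 * k + 1) ^ 2 - 1 = 4 * (k * (k + 1)) := by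
        zify [Nat.one_le_pow 2 (2 * k + 1) (by omega)]
        ring
      obtain ⟨c, hc⟩ := Nat.even_mul_succ_self k
      rw [h1, hc]
      exact ⟨c, by ring⟩
    have hne : Fintype.card F ^ 2 - 1 ≠ 0 := by
      have := Nat.one_lt_pow two_ne_zero (Fintype.one_lt_card (α := F))
      omega
    have := (padicValNat_dvd_iff_le hne).1 hdvd
    calc 16 = 2 ^ 4 := rfl
      _ ≤ _ := Nat.pow_le_pow_right two_pos (by omega)
  set W := H44.wreath (base F 2 j) (perm F 2 j) (R : Subgroup (GL (Fin 2) F)) W₀ with hW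
  have hWcard : Nat.card W =
      2 ^ (j * (1 + padicValNat 2 (Fintype.card F ^ 2 - 1)) + padicValNat 2 j.factorial) := by
    rw [hW, H44.card_wreath _ _ (perm_conj F 2 j) (base_injective F 2 j)
      (perm_injective F 2 j one_le_two) (eq_one_of_base_eq_perm F 2 j one_le_two), hW₀, hR,
      pow_add _ (j * _), pow_mul']
  have hz := card_zpowers_neg_one h2 (k := 2) two_pos
  have hWmax : NormalElemMax W (2 ^ j) := by
    rw [show (2 : ℕ) ^ j = Nat.card (Subgroup.zpowers (-1 : GL (Fin 2) F)) ^ j by rw [hz]]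
    refine normalElemMax_wreath _ _ (perm_conj F 2 j) (base_injective F 2 j) _ _ _
      (Subgroup.zpowers_le.2 (mem_sylow_of_central _ (fun g => Commute.neg_one_right g) neg_one_sq R))
      (fun r _ z hz => zpowers_neg_one_conj r z hz) zpowers_neg_one_sq ?_
      fun T hTR hTn hT => gl_two_max hF h2 R h16 T hTR hTn hT
    by_contra! h
    have hle := gl_two_max hF h2 R h16 (R : Subgroup _) le_rfl
      (fun r hr t ht => mul_mem (mul_mem hr ht) (inv_mem hr)) h
    have h4 := Subgroup.card_le_of_le hle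
    omega
  rcases hj with rfl | rfl
  · rw [show (2 * j + 1) / 2 = j by omega]
    exact normalElemMax_gl finProdFinEquiv W.subtype Subtype.val_injective
      (by rw [(padic_card_three F hF j).1]; exact hWcard) hWmax P
  · have hz1 := card_zpowers_neg_one h2 (k := 1) Nat.one_pos
    rw [show (2 * j + 1 + 1) / 2 = j + 1 by omega, pow_succ',
      show (2 : ℕ) * 2 ^ j = Nat.card (Subgroup.zpowers (-1 : GL (Fin 1) F)) * 2 ^ j by rw [hz1]]
    refine normalElemMax_gl
      ((Equiv.sumCongr (Equiv.refl (Fin 1)) finProdFinEquiv).trans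
        (finSumFinEquiv.trans (finCongr (add_comm 1 (2 * j)))))
      ((sumHom F (Fin 1) (Fin 2 × Fin j)).comp
        ((Subgroup.zpowers (-1 : GL (Fin 1) F)).subtype.prodMap W.subtype))
      ((sumHom_injective F _ _).comp (Prod.map_injective.2
        ⟨Subtype.val_injective, Subtype.val_injective⟩)) ?_ ?_ P
    · rw [Nat.card_prod, hz1, hWcard, (padic_card_three F hF j).2, pow_add _ 1, pow_one]
    · exact hWmax.prod fun c => Subtype.ext (zpowers_neg_one_sq c.1 c.2)

end Cfsg.Agent.H59.GLNormalRank
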