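import Cfsg.Agent.H5.OrthBasic
import Cfsg.Agent.H5.Eichler

/-!
Quadratic forms of plus type over the field with two elements: every 2-group of isometries
stabilises a totally singular subspace of codimension one in a maximal one, the isometries fixing
such a subspace pointwise form a 2-group, and any two such subspaces have a common nontrivial
pointwise fixing isometry.
-/

set_option autoImplicit false

namespace Cfsg.Agent.H59.OPlusTwo

open QuadraticMap Cfsg.Agent.H5

variable {F V : Type*} [Field F] [AddCommGroup V] [Module F V] [FiniteDimensional F V]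
variable {Q : QuadraticForm F V}

omit [FiniteDimensional F V] in
private theorem Q_add_of_orth {x w : V} (h : polar Q x w = 0) (hw : Q w = 0) :
    Q (x + w) = Q x := by
  rw [QuadraticMap.map_add (⇑Q), hw, h, add_zero, add_zero]

omit [FiniteDimensional F V] in
private theorem pe {W : Submodule F V} {x w : V} (hx : x ∈ perp Q W) (hw : w ∈ W) :
    polar Q w x = 0 := hx w hw

theorem exists_singular_notMem {m : ℕ} (hQ : (polarBilin Q).Nondegenerate)
    (hdim : Module.finrank F V = 2 * m) {M : Submodule F V} (hM : Module.finrank F M = m)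
    (hM0 : ∀ x ∈ M, Q x = 0) (W : Submodule F V) (hk : Module.finrank F W < m) :
    ∃ y ∈ perp Q W, Q y = 0 ∧ y ∉ W := by
  have hMM : perp Q M = M :=
    (Submodule.eq_of_le_of_finrank_eq (le_perp_of_forall_eq_zero hM0)
      (by rw [finrank_perp hQ M, hdim, hM]; omega)).symm
  by_contra! hcon
  have hle : M ⊓ perp Q W ≤ M ⊓ W :=
    fun y hy => ⟨hy.1, hcon y hy.2 (hM0 y hy.1)⟩
  have h1 := Submodule.finrank_mono hle
  have h2 := finrank_perp_add hQ (M ⊔ W)
  rw [perp_sup, hMM, hdim] at h2
  have h3 := Submodule.finrank_sup_add_finrank_inf_eq M W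
  omega

section two

variable (h2 : ∀ t : F, t = 0 ∨ t = 1) (h20 : (2 : F) = 0)

include h2 h20

/-- One step: a 2-group stabilising `W` fixes a singular vector of `W⊥/W` outside zero. -/
theorem exists_fixed_coset [Finite V] {m : ℕ} (hQ : (polarBilin Q).Nondegenerate)
    (hdim : Module.finrank F V = 2 * m) {M : Submodule F V} (hM : Module.finrank F M = m)
    (hM0 : ∀ x ∈ M, Q x = 0) (P : Subgroup (orth Q)) (hP : IsPGroup 2 P)
    (W : Submodule F V) (hk : Module.finrank F W + 1 < m) (hW0 : ∀ x ∈ W, Q x = 0)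
    (hPW : ∀ p ∈ P, ∀ w ∈ W, (p : V ≃ₗ[F] V) w ∈ W) :
    ∃ x ∈ perp Q W, Q x = 0 ∧ x ∉ W ∧ ∀ p ∈ P, (p : V ≃ₗ[F] V) x - x ∈ W := by
  classical
  obtain ⟨u, huU, hu0, huW⟩ := exists_singular_notMem hQ hdim hM hM0 W (by omega)
  set W' : Submodule F V := W ⊔ Submodule.span F {u} with hW'
  have hW'dim : Module.finrank F W' ≤ Module.finrank F W + 1 := by
    refine le_trans (Submodule.finrank_add_le_finrank_add_finrank _ _) ?_
    rw [finrank_span_singleton (fun h : u = 0 => huW (h ▸ W.zero_mem))]
  obtain ⟨a, haU', haW'⟩ : ∃ a ∈ perp Q W', a ∉ W' := by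
    refine SetLike.not_le_iff_exists.1 fun hle => ?_
    have := Submodule.finrank_mono hle
    have h1 := finrank_perp_add hQ W'
    omega
  have haU : a ∈ perp Q W := perp_anti le_sup_left haU'
  have hau : polar Q u a = 0 := haU' u (Submodule.mem_sup_right (Submodule.mem_span_singleton_self u))
  have hua : polar Q a u = 0 := by rw [polar_comm]; exact hau
  let S : Type _ := {c : V ⧸ W // ∃ x, Submodule.Quotient.mk x = c ∧ x ∈ perp Q W ∧ Q x = 0}
  have : Finite (V ⧸ W) := Finite.of_surjective _ (Submodule.Quotient.mk_surjective W)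
  haveI : Fintype S := Fintype.ofFinite S
  let r : S → V := fun c => Classical.choose c.2
  have hr : ∀ c : S, Submodule.Quotient.mk (r c) = c.1 ∧ r c ∈ perp Q W ∧ Q (r c) = 0 :=
    fun c => Classical.choose_spec c.2
  -- the fixed point free involution on singular cosets
  let f : V → V := fun x =>
    if polar Q x u = 0 then x + u else x + a + (Q a + polar Q x a) • u
  have hfU : ∀ x ∈ perp Q W, f x ∈ perp Q W := fun x hx => by
    by_cases h : polar Q x u = 0
    · simp only [f, if_pos h]; exact add_mem hx huU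
    · simp only [f, if_neg h]
      exact add_mem (add_mem hx haU) (Submodule.smul_mem _ _ huU)
  have hf0 : ∀ x, Q x = 0 → Q (f x) = 0 := fun x hx => by
    by_cases h : polar Q x u = 0
    · simp only [f, if_pos h]; rw [Q_add_of_orth h hu0, hx]
    · have h1 : polar Q x u = 1 := (h2 _).resolve_left h
      simp only [f, if_neg h]
      rw [map_add_smul, QuadraticMap.map_add (⇑Q) x a, hu0, hx, polar_add_left, h1, hua]
      linear_combination (Q a + polar Q x a) * h20
  have hfW : ∀ x, ∀ w ∈ W, f (x + w) = f x + w := fun x w hw => by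
    have e1 : polar Q (x + w) u = polar Q x u := by rw [polar_add_left, pe huU hw, add_zero]
    have e2 : polar Q (x + w) a = polar Q x a := by rw [polar_add_left, pe haU hw, add_zero]
    simp only [f, e1, e2]
    split_ifs <;> abel
  have huu : polar Q u u = 0 := by rw [polar_self', h20, zero_mul]
  have haa : polar Q a a = 0 := by rw [polar_self', h20, zero_mul]
  have hff : ∀ x, f (f x) = x := fun x => by
    by_cases h : polar Q x u = 0
    · have h' : polar Q (x + u) u = 0 := by rw [polar_add_left, h, huu, add_zero]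
      simp only [f, if_pos h, if_pos h']
      rw [add_assoc, ← two_smul F u, h20, zero_smul, add_zero]
    · have h' : polar Q (x + a + (Q a + polar Q x a) • u) u = polar Q x u := by
        rw [polar_add_left, polar_add_left, polar_smul_left, huu, hua, smul_zero, add_zero,
          add_zero]
      have h'' : polar Q (x + a + (Q a + polar Q x a) • u) a = polar Q x a := by
        rw [polar_add_left, polar_add_left, polar_smul_left, hau, haa, smul_zero, add_zero,
          add_zero]
      simp only [f, if_neg h]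
      rw [h', if_neg h, h'']
      calc _ = x + ((2 : F) • a + (2 : F) • ((Q a + polar Q x a) • u)) := by
            rw [two_smul, two_smul]; abel
        _ = x := by rw [h20, zero_smul, zero_smul, add_zero, add_zero]
  have hfne : ∀ x, f x - x ∉ W := fun x => by
    by_cases h : polar Q x u = 0
    · simp only [f, if_pos h, add_sub_cancel_left]; exact huW
    · simp only [f, if_neg h]
      intro hmem
      refine haW' ?_
      have e : x + a + (Q a + polar Q x a) • u - x = a + (Q a + polar Q x a) • u := by abel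
      rw [e] at hmem
      have := sub_mem (Submodule.mem_sup_left (T := Submodule.span F {u}) hmem)
        (Submodule.mem_sup_right (S := W)
          (Submodule.smul_mem _ (Q a + polar Q x a) (Submodule.mem_span_singleton_self u)))
      rwa [add_sub_cancel_right] at this
  let g : S → S := fun c =>
    ⟨Submodule.Quotient.mk (f (r c)), f (r c), rfl, hfU _ (hr c).2.1, hf0 _ (hr c).2.2⟩
  have hgg : ∀ c, g (g c) = c := fun c => by
    apply Subtype.ext
    change Submodule.Quotient.mk (f (r (g c))) = c.1
    have hmem : r (g c) - f (r c) ∈ W := (Submodule.Quotient.eq W).1 (hr (g c)).1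
    have e : r (g c) = f (r c) + (r (g c) - f (r c)) := by abel
    rw [e, hfW _ _ hmem, hff, ← (hr c).1, Submodule.Quotient.eq]
    simpa using hmem
  have hgne : ∀ c, g c ≠ c := fun c h => by
    have h' : Submodule.Quotient.mk (f (r c)) = (Submodule.Quotient.mk (r c) : V ⧸ W) :=
      (congrArg Subtype.val h).trans (hr c).1.symm
    exact hfne _ ((Submodule.Quotient.eq W).1 h')
  have hev : 2 ∣ Nat.card S := by
    have hz : ∑ _c : S, (1 : ZMod 2) = 0 :=
      Finset.sum_involution (fun c _ => g c) (fun c _ => by decide) (fun c _ _ => hgne c)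
        (fun c _ => Finset.mem_univ _) (fun c _ => hgg c)
    rw [Finset.sum_const, Finset.card_univ, nsmul_eq_mul, mul_one] at hz
    rw [Nat.card_eq_fintype_card]
    exact (ZMod.natCast_eq_zero_iff_even.1 hz).two_dvd
  -- the action of P
  have hPU : ∀ p ∈ P, ∀ x ∈ perp Q W, (p : V ≃ₗ[F] V) x ∈ perp Q W := fun p hp x hx w hw => by
    change polar Q w ((p : V ≃ₗ[F] V) x) = 0
    have h := hPW p⁻¹ (inv_mem hp) w hw
    rw [← orth_apply_inv_apply p w, orth_polar]
    exact hx _ h
  letI act : MulAction P S :=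
    { smul := fun p c => ⟨Submodule.Quotient.mk (((p : orth Q) : V ≃ₗ[F] V) (r c)),
        _, rfl, hPU _ p.2 _ (hr c).2.1, by rw [orth_map]; exact (hr c).2.2⟩
      one_smul := fun c => Subtype.ext (hr c).1
      mul_smul := fun p q c => by
        apply Subtype.ext
        change Submodule.Quotient.mk (((p * q : P) : orth Q).1 (r c)) =
          Submodule.Quotient.mk (((p : orth Q) : V ≃ₗ[F] V) (r ⟨Submodule.Quotient.mk _, _⟩))
        rw [Submodule.Quotient.eq]
        set c' : S := ⟨Submodule.Quotient.mk (((q : orth Q) : V ≃ₗ[F] V) (r c)),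
          _, rfl, hPU _ q.2 _ (hr c).2.1, by rw [orth_map]; exact (hr c).2.2⟩
        have hmem : r c' - ((q : orth Q) : V ≃ₗ[F] V) (r c) ∈ W :=
          (Submodule.Quotient.eq W).1 (hr c').1
        have := hPW _ p.2 _ (W.neg_mem hmem)
        simpa [orth_mul_apply, map_sub] using this }
  let c0 : S := ⟨0, 0, rfl, zero_mem _, QuadraticMap.map_zero Q⟩
  have hc0 : c0 ∈ MulAction.fixedPoints P S := fun p => by
    apply Subtype.ext
    change Submodule.Quotient.mk (((p : orth Q) : V ≃ₗ[F] V) (r c0)) = (0 : V ⧸ W)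
    rw [Submodule.Quotient.mk_eq_zero]
    exact hPW _ p.2 _ ((Submodule.Quotient.mk_eq_zero W).1 (hr c0).1)
  obtain ⟨c, hc, hcne⟩ := hP.exists_fixed_point_of_prime_dvd_card_of_fixed_point S hev hc0
  refine ⟨r c, (hr c).2.1, (hr c).2.2, fun hmem => hcne ?_, fun p hp => ?_⟩
  · exact Subtype.ext (((Submodule.Quotient.mk_eq_zero W).2 hmem).symm.trans (hr c).1)
  · have := congrArg Subtype.val (hc ⟨p, hp⟩)
    rw [← (hr c).1] at this
    exact (Submodule.Quotient.eq W).1 this

/-- A 2-group of isometries stabilises a totally singular subspace of dimension `k < m`. -/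
theorem exists_invariant [Finite V] {m : ℕ} (hQ : (polarBilin Q).Nondegenerate)
    (hdim : Module.finrank F V = 2 * m) {M : Submodule F V} (hM : Module.finrank F M = m)
    (hM0 : ∀ x ∈ M, Q x = 0) (P : Subgroup (orth Q)) (hP : IsPGroup 2 P) :
    ∀ k, k < m → ∃ W : Submodule F V, Module.finrank F W = k ∧ (∀ x ∈ W, Q x = 0) ∧
      ∀ p ∈ P, ∀ w ∈ W, (p : V ≃ₗ[F] V) w ∈ W := by
  intro k
  induction k with
  | zero =>
    refine fun _ => ⟨⊥, finrank_bot F V, fun x hx => ?_, fun p _ w hw => ?_⟩
    · rw [(Submodule.mem_bot F).1 hx, QuadraticMap.map_zero]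
    · rw [(Submodule.mem_bot F).1 hw, map_zero]; exact zero_mem _
  | succ k ih =>
    intro hk
    obtain ⟨W, hWk, hW0, hPW⟩ := ih (by omega)
    obtain ⟨x, hxU, hx0, hxW, hxP⟩ :=
      exists_fixed_coset h2 h20 hQ hdim hM hM0 P hP W (by omega) hW0 hPW
    refine ⟨W ⊔ Submodule.span F {x}, ?_, fun z hz => ?_, fun p hp z hz => ?_⟩
    · have hx0' : x ≠ 0 := fun h => hxW (h ▸ W.zero_mem)
      have hinf : W ⊓ Submodule.span F {x} = ⊥ := by
        rw [← disjoint_iff, Submodule.disjoint_span_singleton' hx0']
        exact hxW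
      have h3 := Submodule.finrank_sup_add_finrank_inf_eq W (Submodule.span F {x})
      rw [hinf, finrank_bot, finrank_span_singleton hx0', hWk, add_zero] at h3
      exact h3
    · obtain ⟨w, hw, y, hy, rfl⟩ := Submodule.mem_sup.1 hz
      obtain ⟨t, rfl⟩ := Submodule.mem_span_singleton.1 hy
      rw [map_add_smul, hW0 w hw, hx0, pe hxU hw]; ring
    · obtain ⟨w, hw, y, hy, rfl⟩ := Submodule.mem_sup.1 hz
      obtain ⟨t, rfl⟩ := Submodule.mem_span_singleton.1 hy
      have e : (p : V ≃ₗ[F] V) (w + t • x) =
          ((p : V ≃ₗ[F] V) w + t • ((p : V ≃ₗ[F] V) x - x)) + t • x := by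
        rw [map_add, map_smul, smul_sub]; abel
      rw [e]
      exact Submodule.add_mem_sup (add_mem (hPW p hp w hw) (W.smul_mem t (hxP p hp))) hy

/-- An isometry fixing a totally singular subspace of dimension `m-1` pointwise has order
dividing `8`. -/
theorem pow_eight_of_fix {m : ℕ} (hm : 1 ≤ m) (hQ : (polarBilin Q).Nondegenerate)
    (hdim : Module.finrank F V = 2 * m) {M : Submodule F V} (hM : Module.finrank F M = m)
    (hM0 : ∀ x ∈ M, Q x = 0) (V0 : Submodule F V) (hV : Module.finrank F V0 + 1 = m)
    (hV0 : ∀ x ∈ V0, Q x = 0) (r : orth Q) (hr : ∀ v ∈ V0, (r : V ≃ₗ[F] V) v = v) :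
    r ^ 8 = 1 := by
  obtain ⟨y, hyU, hy0, hyV⟩ := exists_singular_notMem hQ hdim hM hM0 V0 (by omega)
  have hVV : V0 ≤ perp Q V0 := le_perp_of_forall_eq_zero hV0
  obtain ⟨z₁, hz₁U, hz₁⟩ : ∃ z ∈ perp Q V0, polar Q y z ≠ 0 := by
    by_contra! h
    refine hyV ?_
    rw [← perp_perp hQ V0]
    intro z hz
    change polar Q z y = 0
    rw [polar_comm]
    exact h z hz
  have hyy : polar Q y y = 0 := by rw [polar_self', hy0, mul_zero]
  obtain ⟨z, hzU, hz0, hyz⟩ : ∃ z ∈ perp Q V0, Q z = 0 ∧ polar Q y z = 1 := by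
    refine ⟨z₁ + Q z₁ • y, add_mem hz₁U (Submodule.smul_mem _ _ hyU), ?_, ?_⟩
    · rw [map_add_smul, hy0, polar_comm (⇑Q) z₁ y, (h2 _).resolve_left hz₁]
      linear_combination (Q z₁) * h20
    · rw [polar_add_right, polar_smul_right, hyy, smul_zero, add_zero]
      exact (h2 _).resolve_left hz₁
  have hzy : polar Q z y = 1 := by rw [polar_comm]; exact hyz
  -- vectors of U orthogonal to y and z lie in V0
  set N : Submodule F V := V0 ⊔ Submodule.span F {y} with hN
  have hN0 : ∀ x ∈ N, Q x = 0 := fun x hx => by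
    obtain ⟨w, hw, t', ht', rfl⟩ := Submodule.mem_sup.1 hx
    obtain ⟨t, rfl⟩ := Submodule.mem_span_singleton.1 ht'
    rw [map_add_smul, hV0 w hw, hy0, pe hyU hw]; ring
  have hNN : perp Q N = N := by
    refine (Submodule.eq_of_le_of_finrank_eq (le_perp_of_forall_eq_zero hN0) ?_).symm
    have hlt : Module.finrank F V0 < Module.finrank F N :=
      Submodule.finrank_lt_finrank_of_lt (lt_of_le_of_ne le_sup_left fun h =>
        hyV (h ▸ Submodule.mem_sup_right (Submodule.mem_span_singleton_self y)))
    have h1 := two_mul_finrank_le hQ (le_perp_of_forall_eq_zero hN0)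
    rw [finrank_perp hQ N, hdim]
    omega
  have key : ∀ d ∈ perp Q V0, polar Q d y = 0 → polar Q d z = 0 → d ∈ V0 := by
    intro d hd hdy hdz
    have hdN : d ∈ N := by
      rw [← hNN, hN, perp_sup]
      exact ⟨hd, mem_perp_span.2 (by rw [polar_comm]; exact hdy)⟩
    obtain ⟨w, hw, t', ht', rfl⟩ := Submodule.mem_sup.1 hdN
    obtain ⟨t, rfl⟩ := Submodule.mem_span_singleton.1 ht'
    rw [polar_add_left, pe hzU hw, polar_smul_left, hyz, zero_add, smul_eq_mul, mul_one] at hdz
    rw [hdz, zero_smul, add_zero]; exact hw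
  have decomp : ∀ x ∈ perp Q V0, x - (polar Q x z • y + polar Q x y • z) ∈ V0 := by
    intro x hx
    refine key _ (sub_mem hx (add_mem (Submodule.smul_mem _ _ hyU)
      (Submodule.smul_mem _ _ hzU))) ?_ ?_
    · rw [polar_sub_left, polar_add_left, polar_smul_left, polar_smul_left, hyy, hzy]
      simp
    · rw [polar_sub_left, polar_add_left, polar_smul_left, polar_smul_left, hyz,
        polar_self', hz0]
      simp
  set R : V → V := fun x => (r : V ≃ₗ[F] V) x with hR
  have hRU : ∀ x ∈ perp Q V0, R x ∈ perp Q V0 := fun x hx v hv => by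
    change polar Q v (R x) = 0
    rw [hR, ← hr v hv, orth_polar]; exact hx v hv
  have hRd : ∀ x, R x - x ∈ perp Q V0 := fun x v hv => by
    change polar Q v (R x - x) = 0
    rw [polar_sub_right, hR]
    conv_lhs => arg 1; rw [← hr v hv, orth_polar]
    exact sub_self _
  -- squares fix U modulo V0
  obtain ⟨hRy, hRz⟩ : R (R y) - y ∈ V0 ∧ R (R z) - z ∈ V0 := by
    have hRV : ∀ v ∈ V0, R v = v := hr
    have hRadd : ∀ p q : V, R (p + q) = R p + R q := fun p q => map_add _ p q
    have hsum : ∀ v ∈ V0, ∀ s t : F, Q (v + (s • y + t • z)) = s * t := by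
      intro v hv s t
      rw [QuadraticMap.map_add (⇑Q), hV0 v hv, map_smul_add_smul, hy0, hz0, hyz, polar_add_right,
        polar_smul_right, polar_smul_right, pe hyU hv, pe hzU hv]
      simp
    obtain ⟨v, hv, hy'⟩ : ∃ v ∈ V0, R y = v + (polar Q (R y) z • y + polar Q (R y) y • z) :=
      ⟨_, decomp (R y) (hRU y hyU), by abel⟩
    obtain ⟨w, hw, hz'⟩ : ∃ w ∈ V0, R z = w + (polar Q (R z) z • y + polar Q (R z) y • z) :=
      ⟨_, decomp (R z) (hRU z hzU), by abel⟩
    have q1 : polar Q (R y) z * polar Q (R y) y = 0 := by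
      rw [← hsum v hv, ← hy', ← hy0]; exact orth_map r y
    have q2 : polar Q (R z) z * polar Q (R z) y = 0 := by
      rw [← hsum w hw, ← hz', ← hz0]; exact orth_map r z
    have q3 : polar Q (R y) z * polar Q (R z) y + polar Q (R y) y * polar Q (R z) z = 1 := by
      have h : polar Q (R y) (R z) = 1 := (orth_polar r y z).trans hyz
      rw [hz', polar_add_right, polar_comm (⇑Q) (R y) w, pe (hRU y hyU) hw, polar_add_right,
        polar_smul_right, polar_smul_right] at h
      simp only [smul_eq_mul] at h
      linear_combination h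
    rcases h2 (polar Q (R y) y) with ha | ha <;> rcases h2 (polar Q (R y) z) with hb | hb <;>
      rcases h2 (polar Q (R z) y) with hc | hc <;> rcases h2 (polar Q (R z) z) with hd | hd <;>
      rw [ha, hb] at hy' q1 q3 <;> rw [hc, hd] at hz' q2 q3 <;> (try simp at q1) <;> (try simp at q2) <;> (try simp at q3) <;>
      simp only [zero_smul, one_smul, zero_add, add_zero] at hy' hz'
    · constructor
      · rw [hy', hRadd, hRV v hv, hy']
        convert add_mem hv hv using 1; abel
      · rw [hz', hRadd, hRV w hw, hz']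
        convert add_mem hw hw using 1; abel
    · constructor
      · rw [hy', hRadd, hRV v hv, hz']
        convert add_mem hv hw using 1; abel
      · rw [hz', hRadd, hRV w hw, hy']
        convert add_mem hv hw using 1; abel
  have hsU : ∀ x ∈ perp Q V0, R (R x) - x ∈ V0 := by
    intro x hx
    have e := decomp x hx
    set w := x - (polar Q x z • y + polar Q x y • z) with hw
    have hw' : R (R w) = w := by
      rw [show R w = w from hr w e, show R w = w from hr w e]
    have e' : R (R x) - x = polar Q x z • (R (R y) - y) + polar Q x y • (R (R z) - z) := by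
      have hRw : R (R w) = R (R x) - (polar Q x z • R (R y) + polar Q x y • R (R z)) := by
        simp only [hR, hw, map_add, map_sub, map_smul]
      rw [hw', hw] at hRw
      rw [eq_add_of_sub_eq hRw.symm, smul_sub, smul_sub]
      abel
    rw [e']
    exact add_mem (Submodule.smul_mem _ _ hRy) (Submodule.smul_mem _ _ hRz)
  refine orth_ext fun x => ?_
  change ((r ^ 8 : orth Q) : V ≃ₗ[F] V) x = x
  have hpow : r ^ 8 = (r * r) * (r * r) * ((r * r) * (r * r)) := by
    simp only [← pow_two, ← pow_mul]
    norm_num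
  rw [hpow]
  simp only [orth_mul_apply]
  change R (R (R (R (R (R (R (R x))))))) = x
  have hadd : ∀ p q : V, R (R (p + q)) = R (R p) + R (R q) := fun p q => by
    simp only [hR, map_add]
  set d := R (R x) - x with hd
  have hdU : d ∈ perp Q V0 := by
    have h1 := add_mem (hRd (R x)) (hRd x)
    rwa [sub_add_sub_cancel] at h1
  set e := R (R d) - d with he
  have heV : e ∈ V0 := hsU d hdU
  have t1 : R (R x) = x + d := by rw [hd]; abel
  have t2 : R (R d) = d + e := by rw [he]; abel
  have t3 : R (R e) = e := by rw [show R e = e from hr e heV, show R e = e from hr e heV]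
  have dbl : ∀ p : V, p + p = 0 := fun p => by rw [← two_smul F p, h20, zero_smul]
  have t4 : R (R (R (R x))) = x + e := by
    rw [t1, hadd, t1, t2]
    calc x + d + (d + e) = x + e + (d + d) := by abel
      _ = x + e := by rw [dbl, add_zero]
  rw [t4, hadd, hadd, t3, t3, t4, add_assoc, dbl, add_zero]

end two

/-- Two totally singular subspaces of dimension `m-1` have a common nontrivial fixing isometry. -/
theorem exists_common_fix {m : ℕ} (hQ : (polarBilin Q).Nondegenerate)
    (hdim : Module.finrank F V = 2 * m) (V0 V1 : Submodule F V)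
    (h0 : Module.finrank F V0 + 1 = m) (h1 : Module.finrank F V1 + 1 = m) :
    ∃ t : orth Q, t ≠ 1 ∧ (∀ v ∈ V0, (t : V ≃ₗ[F] V) v = v) ∧
      ∀ v ∈ V1, (t : V ≃ₗ[F] V) v = v := by
  set K := V0 ⊔ V1
  set W := perp Q K
  have hW : 2 ≤ Module.finrank F W := by
    have h3 := Submodule.finrank_add_le_finrank_add_finrank V0 V1
    have h4 := finrank_perp_add hQ K
    change Module.finrank F W + Module.finrank F ↥(V0 ⊔ V1) = _ at h4
    omega
  have hperp : ∀ w ∈ W, ∀ v ∈ K, polar Q w v = 0 := fun w hw v hv => by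
    rw [polar_comm]; exact hw v hv
  by_cases hns : ∃ v ∈ W, Q v ≠ 0
  · obtain ⟨v, hv, hQv⟩ := hns
    obtain ⟨x, hx⟩ := exists_polar_eq_one hQ (fun h : v = 0 => hQv (by rw [h, QuadraticMap.map_zero]))
    refine ⟨refl Q v, fun h => ?_, fun w hw => refl_apply_of_ortho (hperp v hv w (Submodule.mem_sup_left hw)),
      fun w hw => refl_apply_of_ortho (hperp v hv w (Submodule.mem_sup_right hw))⟩
    have h' := congrArg (fun g : orth Q => (g : V ≃ₗ[F] V) x) h
    simp only [refl_apply, hx, mul_one] at h'
    have h'' : ((Q v)⁻¹ : F) • v = 0 := by simpa using h'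
    rcases smul_eq_zero.1 h'' with h3 | h3
    · exact inv_ne_zero hQv h3
    · exact hQv (by rw [h3, QuadraticMap.map_zero])
  push Not at hns
  obtain ⟨e, he, hne⟩ : ∃ e ∈ W, e ≠ 0 := Submodule.exists_mem_ne_zero_of_ne_bot fun h => by
    rw [h, finrank_bot] at hW; omega
  obtain ⟨a, ha, hae⟩ : ∃ a ∈ W, a ∉ Submodule.span F {e} := by
    refine SetLike.not_le_iff_exists.1 fun hle => ?_
    have := Submodule.finrank_mono hle
    rw [finrank_span_singleton hne] at this
    omega
  have hea : polar Q e a = 0 := le_perp_of_forall_eq_zero hns ha e he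
  obtain ⟨x, hxe, hxa⟩ := exists_polar_pair hQ hne hae 0 1
  refine ⟨eich Q e a, fun h => ?_,
    fun w hw => eich_apply_of_ortho (hns e he) hea (hperp e he w (Submodule.mem_sup_left hw))
      (hperp a ha w (Submodule.mem_sup_left hw)),
    fun w hw => eich_apply_of_ortho (hns e he) hea (hperp e he w (Submodule.mem_sup_right hw))
      (hperp a ha w (Submodule.mem_sup_right hw))⟩
  have h' := congrArg (fun g : orth Q => (g : V ≃ₗ[F] V) x) h
  simp only [eich_apply (hns e he) hea, hxe, hxa] at h'
  have h'' : e = 0 := by simpa using h'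
  exact hne h''

end Cfsg.Agent.H59.OPlusTwo
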