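import Cfsg.Agent.H19.PiSeparable

/-! Dominance of Hall π-subgroups in π-separable groups, given that groups of odd order are solvable. -/

open scoped Pointwise

universe u

namespace Cfsg.Agent.H59

open Cfsg.Agent.H19

/-- In a π-separable group some Hall π-subgroup contains a conjugate of every π-subgroup. -/
theorem piHall_dominant_of_series {G : Type u} [Group G] [Finite G] {π : Set ℕ}
    (hFT : ∀ (X : Type u) [Group X] [Finite X], Odd (Nat.card X) → Group.IsSolvable X)
    (h : HasFactorSeries (PiOrPiPrime π) G) {H : Subgroup G} (hH : Cfsg.IsPiHall π H)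
    (U : Subgroup G) (hU : ∀ p : ℕ, p.Prime → p ∣ Nat.card U → p ∈ π) :
    ∃ g : G, MulAut.conj g • U ≤ H := by
  revert h hH hU
  induction hc : Nat.card G using Nat.strong_induction_on generalizing G with
  | _ c ih =>
    subst hc
    intro h hH hU
    rcases subsingleton_or_nontrivial G with hs | hs
    · exact ⟨1, fun x _ => Subsingleton.elim (1 : G) x ▸ H.one_mem⟩
    obtain ⟨M, hM, hM0, hMP⟩ := h.exists_normal (fun _ _ => PiOrPiPrime.of_dvd)
    set q := QuotientGroup.mk' M with hq
    have hsurj := QuotientGroup.mk'_surjective M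
    have hHq : Cfsg.IsPiHall π (H.map q) :=
      ⟨fun p hp hd => hH.1 p hp (hd.trans (H.card_map_dvd q)),
        fun p hp hpπ hd => hH.2 p hp hpπ (hd.trans (H.index_map_dvd hsurj))⟩
    obtain ⟨x, hx⟩ := ih _ (card_quotient_lt M hM0) (G := G ⧸ M) (H := H.map q) (U.map q) rfl
      (h.of_surjective (fun _ _ => PiOrPiPrime.of_dvd) q hsurj) hHq
      (fun p hp hd => hU p hp (hd.trans (U.card_map_dvd q)))
    obtain ⟨g, rfl⟩ := hsurj x
    rw [← map_conj_smul, Subgroup.map_le_iff_le_comap, Subgroup.comap_map_eq,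
      QuotientGroup.ker_mk'] at hx
    rcases hMP with hπ | hπ
    · refine ⟨g, hx.trans (sup_le le_rfl ?_)⟩
      refine Subgroup.relIndex_eq_one.1 ?_
      by_contra hne
      obtain ⟨p, hp, hd⟩ := Nat.exists_prime_and_dvd hne
      refine hH.2 p hp (hπ p hp (hd.trans (Subgroup.relIndex_dvd_card H M))) ?_
      have h2 : H.relIndex M ∣ H.index := by
        have h3 : H.relIndex (H ⊔ M) ∣ H.index := Subgroup.relIndex_dvd_index_of_le le_sup_left
        refine dvd_trans (dvd_of_eq ?_) h3
        refine Nat.eq_of_mul_eq_mul_left (Nat.card_pos (α := (H ⊓ M : Subgroup G))) ?_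
        have a1 := Subgroup.relIndex_mul_relIndex (⊥ : Subgroup G) (H ⊓ M) M bot_le inf_le_right
        have a2 := Subgroup.relIndex_mul_relIndex (⊥ : Subgroup G) (H ⊓ M) H bot_le inf_le_left
        have a3 := Subgroup.relIndex_mul_relIndex (⊥ : Subgroup G) H (H ⊔ M) bot_le le_sup_left
        have a4 := Subgroup.relIndex_mul_relIndex (⊥ : Subgroup G) M (H ⊔ M) bot_le le_sup_right
        rw [Subgroup.relIndex_bot_left, Subgroup.relIndex_bot_left, Subgroup.inf_relIndex_right] at a1
        rw [Subgroup.relIndex_bot_left, Subgroup.relIndex_bot_left, Subgroup.inf_relIndex_left] at a2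
        rw [Subgroup.relIndex_bot_left, Subgroup.relIndex_bot_left] at a3
        rw [Subgroup.relIndex_bot_left, Subgroup.relIndex_bot_left, Subgroup.relIndex_sup_right] at a4
        refine Nat.eq_of_mul_eq_mul_right (Nat.pos_of_ne_zero (Subgroup.index_ne_zero_of_finite (H := M.subgroupOf H))) ?_
        show _ * M.relIndex H = _ * M.relIndex H
        calc Nat.card (H ⊓ M : Subgroup G) * H.relIndex M * M.relIndex H
            = Nat.card (H ⊔ M : Subgroup G) := by rw [a1, a4]
          _ = Nat.card (H ⊓ M : Subgroup G) * M.relIndex H * H.relIndex (H ⊔ M) := by rw [a2, a3]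
          _ = _ := by ring
      exact hd.trans h2
    · set J := H ⊔ M with hJ
      have hHJ : H ≤ J := le_sup_left
      have := hM.subgroupOf J
      have hcM : Nat.card (M.subgroupOf J) = Nat.card M :=
        Nat.card_congr (Subgroup.subgroupOfEquivOfLe (le_sup_right : M ≤ J)).toEquiv
      have hdisj : H ⊓ M = ⊥ := Subgroup.inf_eq_bot_of_coprime
        (Nat.coprime_of_dvd fun p hp h1 h2 => hπ p hp h2 (hH.1 p hp h1))
      have hidx : (M.subgroupOf J).index = Nat.card H := by
        show M.relIndex J = _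
        rw [hJ, Subgroup.relIndex_sup_right, ← Subgroup.inf_relIndex_left, hdisj,
          Subgroup.relIndex_bot_left]
      have hcop : (Nat.card (M.subgroupOf J)).Coprime (M.subgroupOf J).index := by
        rw [hcM, hidx]; exact Nat.coprime_of_dvd fun p hp h1 h2 => hπ p hp h1 (hH.1 p hp h2)
      have hcomp := isComplement'_of_card_eq_index (H := H.subgroupOf J) hcop
        ((Nat.card_congr (Subgroup.subgroupOfEquivOfLe hHJ).toEquiv).trans hidx.symm)
      set U' := MulAut.conj g • U with hU'
      have hU'c : Nat.card (U'.subgroupOf J) = Nat.card U :=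
        (Nat.card_congr (Subgroup.subgroupOfEquivOfLe hx).toEquiv).trans (card_conj_smul g U)
      have hsolv : Group.IsSolvable (M.subgroupOf J) ∨ Group.IsSolvable (U'.subgroupOf J) := by
        by_cases h2 : (2 : ℕ) ∈ π
        · exact Or.inl (hFT _ (Nat.not_even_iff_odd.mp fun he =>
            hπ 2 Nat.prime_two (hcM ▸ even_iff_two_dvd.mp he) h2))
        · exact Or.inr (hFT _ (Nat.not_even_iff_odd.mp fun he =>
            h2 (hU 2 Nat.prime_two (hU'c ▸ even_iff_two_dvd.mp he))))
      obtain ⟨m, -, hm⟩ := sz_contained (M.subgroupOf J) hcop hcomp (U'.subgroupOf J)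
        (by rw [hU'c, hcM]; exact Nat.coprime_of_dvd fun p hp h1 h2 => hπ p hp h2 (hU p hp h1))
        hsolv
      refine ⟨(m : G)⁻¹ * g, ?_⟩
      have h2 := Subgroup.map_mono (f := J.subtype) hm
      rw [map_conj_smul, Subgroup.map_subgroupOf_eq_of_le hx, Subgroup.map_subgroupOf_eq_of_le hHJ] at h2
      rw [conj_mul_smul, map_inv, ← hU', ← Subgroup.subset_pointwise_smul_iff]
      exact h2

end Cfsg.Agent.H59
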