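import Cfsg.Agent.H20.Generation
import Cfsg.Agent.H20.Basic

/-! A `p`-group with a coprime action of an abelian group generated by fixed points of two subgroups. -/

set_option autoImplicit false

namespace Cfsg.Agent.H59

open Subgroup
open scoped commutatorElement

variable {S : Type*} [Group S] [Finite S]

/-- A subgroup normalizing two subgroups normalizes their commutator. -/
theorem le_normalizer_commutator {A H K : Subgroup S} (hH : A ≤ normalizer (H : Set S))
    (hK : A ≤ normalizer (K : Set S)) : A ≤ normalizer ((⁅H, K⁆ : Subgroup S) : Set S) := by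
  intro g hg
  have e : ∀ {L : Subgroup S}, g ∈ normalizer (L : Set S) → L.map (MulAut.conj g).toMonoidHom = L := fun {L} h =>
    SetLike.coe_injective (by rw [coe_map]; exact mem_normalizer_iff_conj_image_eq.mp h)
  rw [mem_normalizer_iff_conj_image_eq]
  have h2 : (⁅H, K⁆ : Subgroup S).map (MulAut.conj g).toMonoidHom = ⁅H, K⁆ := by
    rw [map_commutator, e (hH hg), e (hK hg)]
  exact congrArg SetLike.coe h2

/-- A subgroup normalizes the terms of its lower central series. -/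
theorem le_normalizer_lowerCentralSeries (P : Subgroup S) :
    ∀ k, P ≤ normalizer (P.lowerCentralSeries k : Set S)
  | 0 => le_normalizer
  | k + 1 => le_normalizer_commutator (le_normalizer_lowerCentralSeries P k) le_normalizer

/-- Two fixed-point subgroups commute when each acts without fixed points on the other. -/
theorem commutator_fixedPoints_eq_bot {P Q : Subgroup S} [IsMulCommutative Q] (hnil : Group.IsNilpotent P)
    (hQP : Q ≤ normalizer (P : Set S)) {x y : S} (hx : x ∈ Q) (hy : y ∈ Q)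
    (hxy : P ⊓ centralizer ({x} : Set S) ⊓ centralizer ({y} : Set S) = ⊥)
    (hgen : ∀ H : Subgroup S, H ≤ P → Q ≤ normalizer (H : Set S) →
      H ≤ (H ⊓ centralizer ({x} : Set S)) ⊔ (H ⊓ centralizer ({y} : Set S))) :
    ⁅P ⊓ centralizer ({x} : Set S), P ⊓ centralizer ({y} : Set S)⁆ = ⊥ := by
  classical
  have hQc : ∀ a ∈ Q, ∀ b ∈ Q, a * b = b * a := fun a ha b hb =>
    congrArg Subtype.val ((inferInstance : IsMulCommutative Q).is_comm.comm ⟨a, ha⟩ ⟨b, hb⟩)
  have hQn : ∀ a ∈ Q, Q ≤ normalizer (centralizer ({a} : Set S) : Set S) := fun a ha b hb =>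
    le_normalizer (mem_centralizer_singleton_iff.mpr (hQc b hb a ha))
  have hQγ : ∀ k, Q ≤ normalizer (P.lowerCentralSeries k : Set S) := by
    intro k
    induction k with
    | zero => exact hQP
    | succ k ih => exact le_normalizer_commutator ih hQP
  have hγP : ∀ k, P.lowerCentralSeries k ≤ P := by
    intro k
    induction k with
    | zero => exact le_rfl
    | succ k ih => exact (commutator_mono ih le_rfl).trans (commutator_le_self P)
  -- one half of the inductive step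
  have half : ∀ x y : S, x ∈ Q → y ∈ Q → P ⊓ centralizer ({x} : Set S) ⊓ centralizer ({y} : Set S) = ⊥ →
      (∀ H : Subgroup S, H ≤ P → Q ≤ normalizer (H : Set S) →
        H ≤ (H ⊓ centralizer ({x} : Set S)) ⊔ (H ⊓ centralizer ({y} : Set S))) →
      ∀ k, (∀ a ∈ P ⊓ centralizer ({x} : Set S), ∀ b ∈ P ⊓ centralizer ({y} : Set S), ⁅a, b⁆ ∈ P.lowerCentralSeries k) →
      ∀ a ∈ P ⊓ centralizer ({x} : Set S), ∀ b ∈ P ⊓ centralizer ({y} : Set S),
        ⁅a, b⁆ ∈ (P.lowerCentralSeries k ⊓ centralizer ({y} : Set S)) ⊔ P.lowerCentralSeries (k + 1) := by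
    intro x y hx hy hxy hgen k hk a ha b hb
    set γ := P.lowerCentralSeries k with hγ
    set δ := P.lowerCentralSeries (k + 1) with hδ
    set W := (γ ⊓ centralizer ({y} : Set S)) ⊔ δ with hW
    have hδγ : δ ≤ γ :=
      le_normalizer_iff_commutator_le_left.mp (le_normalizer_lowerCentralSeries P k)
    have hcen : ∀ g ∈ γ, ∀ h ∈ P, h * g * h⁻¹ * g⁻¹ ∈ δ := fun g hg h hh => by
      have h1 := commutator_mem_commutator hg hh
      rw [show h * g * h⁻¹ * g⁻¹ = ⁅g, h⁆⁻¹ by rw [commutatorElement_def]; group]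
      exact inv_mem h1
    have hWγ : W ≤ γ := sup_le inf_le_left hδγ
    have hxW : x ∈ normalizer (W : Set S) := by
      have h1 : x ∈ normalizer ((γ ⊓ centralizer ({y} : Set S) : Subgroup S) : Set S) :=
        H20.le_normalizer_inf (hQγ k) (hQn y hy) hx
      rw [hW, mem_normalizer_iff_conj_image_eq] at *
      have h2 := mem_normalizer_iff_conj_image_eq.mp (hQγ (k + 1) hx)
      rw [← hδ] at h2
      have e1 : (γ ⊓ centralizer ({y} : Set S)).map (MulAut.conj x).toMonoidHom = γ ⊓ centralizer ({y} : Set S) :=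
        SetLike.coe_injective (by rw [coe_map]; exact h1)
      have e2 : δ.map (MulAut.conj x).toMonoidHom = δ := SetLike.coe_injective (by rw [coe_map]; exact h2)
      have e3 : ((γ ⊓ centralizer ({y} : Set S)) ⊔ δ).map (MulAut.conj x).toMonoidHom =
          (γ ⊓ centralizer ({y} : Set S)) ⊔ δ := by rw [Subgroup.map_sup, e1, e2]
      exact congrArg SetLike.coe e3
    -- `x` acts trivially on `γ` modulo `W`
    have htriv : ∀ v ∈ γ, x * v * x⁻¹ * v⁻¹ ∈ W := by
      intro v hv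
      have hle := hgen γ (hγP k) (hQγ k) hv
      refine closure_induction (p := fun v _ => x * v * x⁻¹ * v⁻¹ ∈ W) ?_ ?_ ?_ ?_
        (show v ∈ closure (((γ ⊓ centralizer ({x} : Set S) : Subgroup S) : Set S) ∪
          ((γ ⊓ centralizer ({y} : Set S) : Subgroup S) : Set S)) by rwa [← sup_eq_closure])
      · rintro u (hu | hu)
        · rw [show x * u = u * x from (mem_centralizer_singleton_iff.mp hu.2).symm, mul_inv_cancel_right, mul_inv_cancel]
          exact one_mem _
        · have huW : u ∈ W := mem_sup_left hu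
          exact mul_mem ((mem_normalizer_iff.mp hxW u).mp huW) (inv_mem huW)
      · simp [one_mem]
      · intro u v hu hv hu' hv'
        have hsub : ∀ w, w ∈ closure (((γ ⊓ centralizer ({x} : Set S) : Subgroup S) : Set S) ∪
            ((γ ⊓ centralizer ({y} : Set S) : Subgroup S) : Set S)) → w ∈ γ := by
          intro w hw
          rw [← sup_eq_closure] at hw
          exact (show (γ ⊓ centralizer ({x} : Set S)) ⊔ (γ ⊓ centralizer ({y} : Set S)) ≤ γ from sup_le inf_le_left inf_le_left) hw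
        have hxu : x * u * x⁻¹ ∈ γ := (mem_normalizer_iff.mp (hQγ k hx) u).mp (hsub u hu)
        set c := x * v * x⁻¹ * v⁻¹ with hc
        have h1 : (x * u * x⁻¹) * c * (x * u * x⁻¹)⁻¹ * c⁻¹ ∈ W :=
          mem_sup_right (hcen c (hWγ hv') _ (hγP k hxu))
        rw [show x * (u * v) * x⁻¹ * (u * v)⁻¹ =
          ((x * u * x⁻¹) * c * (x * u * x⁻¹)⁻¹ * c⁻¹) * c * (x * u * x⁻¹ * u⁻¹) by rw [hc]; group]
        exact mul_mem (mul_mem h1 hv') hu'
      · intro u hu hu'
        have hsub : u ∈ γ := by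
          rw [← sup_eq_closure] at hu
          exact (show (γ ⊓ centralizer ({x} : Set S)) ⊔ (γ ⊓ centralizer ({y} : Set S)) ≤ γ from sup_le inf_le_left inf_le_left) hu
        have hxu : x * u * x⁻¹ ∈ γ := (mem_normalizer_iff.mp (hQγ k hx) u).mp hsub
        set c := x * u * x⁻¹ * u⁻¹ with hc
        have h1 : u⁻¹ * c⁻¹ * (u⁻¹)⁻¹ * (c⁻¹)⁻¹ ∈ W :=
          mem_sup_right (hcen c⁻¹ (inv_mem (hWγ hu')) _ (hγP k (inv_mem hsub)))
        have h2 : u⁻¹ * c⁻¹ * u ∈ W := by
          have e : u⁻¹ * c⁻¹ * u = (u⁻¹ * c⁻¹ * (u⁻¹)⁻¹ * (c⁻¹)⁻¹) * c⁻¹ := by group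
          rw [e]; exact mul_mem h1 (inv_mem hu')
        rw [show x * u⁻¹ * x⁻¹ * u⁻¹⁻¹ = u⁻¹ * c⁻¹ * u by rw [hc]; group]
        exact h2
    -- the map `d ↦ d⁻¹ d^x` is a bijection of the fixed points of `y`
    set C := P ⊓ centralizer ({y} : Set S) with hC
    have hCx : x ∈ normalizer (C : Set S) := H20.le_normalizer_inf hQP (hQn y hy) hx
    let f : C → C := fun d => ⟨(d : S)⁻¹ * (x * d * x⁻¹), C.mul_mem (C.inv_mem d.2) ((mem_normalizer_iff.mp hCx d).mp d.2)⟩
    have hf : Function.Surjective f := Finite.surjective_of_injective fun d d' h => by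
      have h' : (d : S)⁻¹ * (x * d * x⁻¹) = (d' : S)⁻¹ * (x * d' * x⁻¹) := congrArg Subtype.val h
      have hfix : ((d' : S) * (d : S)⁻¹) ∈ P ⊓ centralizer ({x} : Set S) ⊓ centralizer ({y} : Set S) := by
        have hm := C.mul_mem d'.2 (C.inv_mem d.2)
        refine ⟨⟨hm.1, ?_⟩, hm.2⟩
        show (d' : S) * (d : S)⁻¹ ∈ centralizer ({x} : Set S)
        rw [mem_centralizer_singleton_iff]
        calc (d' : S) * (d : S)⁻¹ * x = (d' : S) * ((d : S)⁻¹ * (x * d * x⁻¹)) * x * (d : S)⁻¹ := by group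
          _ = (d' : S) * ((d' : S)⁻¹ * (x * d' * x⁻¹)) * x * (d : S)⁻¹ := by rw [h']
          _ = x * ((d' : S) * (d : S)⁻¹) := by group
      rw [hxy, mem_bot, mul_inv_eq_one] at hfix
      exact Subtype.ext hfix.symm
    obtain ⟨⟨d, hd⟩, hdb⟩ := hf ⟨b, hb⟩
    have hb' : b = d⁻¹ * (x * d * x⁻¹) := (congrArg Subtype.val hdb).symm
    have hax : x * a * x⁻¹ = a := by
      rw [show x * a = a * x from (mem_centralizer_singleton_iff.mp ha.2).symm, mul_inv_cancel_right]
    have had : ⁅a, d⁆ ∈ γ := hk a ha d hd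
    have hd' : d⁻¹ ∈ P := P.inv_mem hd.1
    -- `⁅a, b⁆ = ⁅a, d⁻¹⁆ · d⁻¹ ⁅a, x d x⁻¹⁆ d`
    set c := x * ⁅a, d⁆ * x⁻¹ * ⁅a, d⁆⁻¹ with hc
    have hcW : c ∈ W := htriv _ had
    have e : ⁅a, b⁆ = d⁻¹ * (⁅a, d⁆⁻¹ * c * ⁅a, d⁆) * (d⁻¹)⁻¹ := by
      have hx2 : x * ⁅a, d⁆ * x⁻¹ = ⁅a, x * d * x⁻¹⁆ := by rw [conjugate_commutatorElement, hax]
      rw [hc, hx2, hb']
      simp only [commutatorElement_def]; group
    have h2 : ⁅a, d⁆⁻¹ * c * ⁅a, d⁆ ∈ W := by
      have h3 := hcen c (hWγ hcW) _ (hγP k (inv_mem had))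
      rw [show ⁅a, d⁆⁻¹ * c * ⁅a, d⁆ = (⁅a, d⁆⁻¹ * c * (⁅a, d⁆⁻¹)⁻¹ * c⁻¹) * c by group]
      exact mul_mem (mem_sup_right h3) hcW
    rw [e]
    set w := ⁅a, d⁆⁻¹ * c * ⁅a, d⁆
    rw [show d⁻¹ * w * (d⁻¹)⁻¹ = (d⁻¹ * w * (d⁻¹)⁻¹ * w⁻¹) * w by group]
    exact mul_mem (mem_sup_right (hcen w (hWγ h2) _ hd')) h2
  have key : ∀ k, ∀ a ∈ P ⊓ centralizer ({x} : Set S), ∀ b ∈ P ⊓ centralizer ({y} : Set S),
      ⁅a, b⁆ ∈ P.lowerCentralSeries k := by
    intro k
    induction k with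
    | zero => exact fun a ha b hb => P.mul_mem (P.mul_mem (P.mul_mem ha.1 hb.1) (P.inv_mem ha.1)) (P.inv_mem hb.1)
    | succ k ih =>
      intro a ha b hb
      have hyx : P ⊓ centralizer ({y} : Set S) ⊓ centralizer ({x} : Set S) = ⊥ := by rw [inf_right_comm]; exact hxy
      have hgen' : ∀ H : Subgroup S, H ≤ P → Q ≤ normalizer (H : Set S) →
          H ≤ (H ⊓ centralizer ({y} : Set S)) ⊔ (H ⊓ centralizer ({x} : Set S)) := fun H h1 h2 => by
        rw [sup_comm]; exact hgen H h1 h2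
      have ih' : ∀ b ∈ P ⊓ centralizer ({y} : Set S), ∀ a ∈ P ⊓ centralizer ({x} : Set S),
          ⁅b, a⁆ ∈ P.lowerCentralSeries k := fun b hb a ha => by
        rw [← commutatorElement_inv]; exact inv_mem (ih a ha b hb)
      have h1 := half x y hx hy hxy hgen k ih a ha b hb
      have h2 : ⁅a, b⁆ ∈ (P.lowerCentralSeries k ⊓ centralizer ({x} : Set S)) ⊔ P.lowerCentralSeries (k + 1) := by
        rw [← commutatorElement_inv]; exact inv_mem (half y x hy hx hyx hgen' k ih' b hb a ha)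
      set δ := P.lowerCentralSeries (k + 1) with hδ
      have hn : ∀ z, P.lowerCentralSeries k ⊓ centralizer ({z} : Set S) ≤ normalizer (δ : Set S) := fun z =>
        (inf_le_left.trans (hγP k)).trans (le_normalizer_lowerCentralSeries P (k + 1))
      rw [← SetLike.mem_coe, coe_mul_of_left_le_normalizer_right _ _ (hn _)] at h1 h2
      obtain ⟨u, hu, w, hw, huw⟩ := Set.mem_mul.mp h1
      obtain ⟨v, hv, w', hw', hvw⟩ := Set.mem_mul.mp h2
      -- `u` is fixed by `y`, `v` by `x`, and they agree modulo `δ`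
      have huv : u⁻¹ * v ∈ δ := by
        have e : u⁻¹ * v = w * w'⁻¹ := by
          rw [show v = ⁅a, b⁆ * w'⁻¹ by rw [← hvw, mul_inv_cancel_right], ← huw]; group
        rw [e]; exact mul_mem hw (inv_mem hw')
      suffices u ∈ δ by rw [← huw]; exact mul_mem this hw
      set Cy := δ ⊓ centralizer ({y} : Set S) with hCy
      have hCx : x ∈ normalizer (Cy : Set S) := H20.le_normalizer_inf (hQγ (k + 1)) (hQn y hy) hx
      let f : Cy → Cy := fun d => ⟨(d : S)⁻¹ * (x * d * x⁻¹),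
        Cy.mul_mem (Cy.inv_mem d.2) ((mem_normalizer_iff.mp hCx d).mp d.2)⟩
      have hinj : ∀ d d' : S, d ∈ P → d' ∈ P → d ∈ centralizer ({y} : Set S) → d' ∈ centralizer ({y} : Set S) →
          d⁻¹ * (x * d * x⁻¹) = d'⁻¹ * (x * d' * x⁻¹) → d = d' := fun d d' hd hd' hdy hd'y h' => by
        have hfix : d' * d⁻¹ ∈ P ⊓ centralizer ({x} : Set S) ⊓ centralizer ({y} : Set S) := by
          refine ⟨⟨P.mul_mem hd' (P.inv_mem hd), ?_⟩, (centralizer ({y} : Set S)).mul_mem hd'y ((centralizer ({y} : Set S)).inv_mem hdy)⟩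
          show d' * d⁻¹ ∈ centralizer ({x} : Set S)
          rw [mem_centralizer_singleton_iff]
          calc d' * d⁻¹ * x = d' * (d⁻¹ * (x * d * x⁻¹)) * x * d⁻¹ := by group
            _ = d' * (d'⁻¹ * (x * d' * x⁻¹)) * x * d⁻¹ := by rw [h']
            _ = x * (d' * d⁻¹) := by group
        rw [hxy, mem_bot, mul_inv_eq_one] at hfix
        exact hfix.symm
      have hf : Function.Surjective f := Finite.surjective_of_injective fun d d' h =>
        Subtype.ext (hinj _ _ (hγP _ d.2.1) (hγP _ d'.2.1) d.2.2 d'.2.2 (congrArg Subtype.val h))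
      have he : u⁻¹ * (x * u * x⁻¹) ∈ Cy := by
        refine ⟨?_, (centralizer ({y} : Set S)).mul_mem ((centralizer ({y} : Set S)).inv_mem hu.2) ((mem_normalizer_iff.mp (hQn y hy hx) u).mp hu.2)⟩
        show u⁻¹ * (x * u * x⁻¹) ∈ δ
        have hvx : x * v * x⁻¹ = v := by
          rw [show x * v = v * x from (mem_centralizer_singleton_iff.mp hv.2).symm, mul_inv_cancel_right]
        rw [show u⁻¹ * (x * u * x⁻¹) = (u⁻¹ * v) * (v⁻¹ * (x * u * x⁻¹)) by group]
        refine mul_mem huv ?_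
        nth_rewrite 1 [← hvx]
        rw [show (x * v * x⁻¹)⁻¹ * (x * u * x⁻¹) = x * (u⁻¹ * v)⁻¹ * x⁻¹ by group]
        exact (mem_normalizer_iff.mp (hQγ (k + 1) hx) _).mp (inv_mem huv)
      obtain ⟨⟨d, hd⟩, hdu⟩ := hf ⟨_, he⟩
      have := hinj d u (hγP _ hd.1) (hγP _ hu.1) hd.2 hu.2 (congrArg Subtype.val hdu)
      exact this ▸ hd.1
  obtain ⟨n, hn⟩ := (isNilpotent_iff_lowerCentralSeries (S := P)).mp hnil
  rw [eq_bot_iff, commutator_le]
  exact fun a ha b hb => hn ▸ key n a ha b hb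

end Cfsg.Agent.H59
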