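import Cfsg.Agent.H59.QdSolvable
import Cfsg.Agent.H19.Fitting
import Cfsg.Agent.H19.PiClosed
import Cfsg.Agent.H51.Basic
import Cfsg.Agent.H52.Quotient
import Cfsg.Agent.H74.PGroupAction
import Cfsg.Agent.H89.Nilpotent
import Cfsg.Prelude.Def_OddOrderLocal

/-! The centralizer of a self-centralizing normal subgroup of the Fitting subgroup of a Hall subgroup. -/

set_option autoImplicit false
set_option linter.style.haveILetI false
set_option maxHeartbeats 400000

namespace Cfsg.Agent.H59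

open Subgroup
open scoped commutatorElement

/-- `F(T)` modulo the product of the `O_r(T)`, `r ≠ q`, is a `q`-group. -/
theorem exists_pow_mem_iSup_ne {T : Type*} [Group T] [Finite T] {q : ℕ} [Fact q.Prime] {v : T}
    (hv : v ∈ Cfsg.fittingSubgroup T) :
    ∃ l, v ^ q ^ l ∈ ⨆ r : {r : ℕ // r.Prime ∧ r ≠ q}, Cfsg.pCore (r : ℕ) T := by
  haveI hWn : (⨆ r : {r : ℕ // r.Prime ∧ r ≠ q}, Cfsg.pCore (r : ℕ) T).Normal :=
    @Subgroup.iSup_normal _ _ _ _ fun r => H19.pCore_normal (r : ℕ) T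
  set W := ⨆ r : {r : ℕ // r.Prime ∧ r ≠ q}, Cfsg.pCore (r : ℕ) T with hW
  have hle : Cfsg.fittingSubgroup T ≤ W ⊔ Cfsg.pCore q T := by
    rw [H51.fittingSubgroup_eq_iSup_pCore]
    refine iSup_le fun ⟨r, hr'⟩ => ?_
    rcases eq_or_ne r q with rfl | hrq
    · exact le_sup_right
    · exact (le_iSup (fun r : {r : ℕ // r.Prime ∧ r ≠ q} => Cfsg.pCore (r : ℕ) T)
        ⟨r, Nat.prime_of_mem_primeFactors hr', hrq⟩).trans le_sup_left
  have hmap : (W ⊔ Cfsg.pCore q T).map (QuotientGroup.mk' W) =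
      (Cfsg.pCore q T).map (QuotientGroup.mk' W) := by
    rw [Subgroup.map_sup, (Subgroup.map_eq_bot_iff W).mpr (QuotientGroup.ker_mk' W).ge, bot_sup_eq]
  obtain ⟨l, hl⟩ := (H51.pCore_isPGroup q T).map (QuotientGroup.mk' W)
    ⟨_, hmap ▸ mem_map_of_mem (QuotientGroup.mk' W) (hle hv)⟩
  refine ⟨l, (QuotientGroup.eq_one_iff _).mp ?_⟩
  have h := congrArg Subtype.val hl
  rw [SubmonoidClass.coe_pow, OneMemClass.coe_one, ← map_pow] at h
  exact h

/-- The elements centralizing the `O_r(T)`, `r ≠ q`, and inducing elements of `O_q` on `O_q(T)`. -/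
theorem mem_fitting_of_pCore {T : Type*} [Group T] [Finite T] [Group.IsSolvable T] {q : ℕ} [Fact q.Prime]
    [(Cfsg.pCore q T).Normal] {x : T}
    (hx1 : ∀ r : ℕ, r.Prime → r ≠ q → x ∈ centralizer (Cfsg.pCore r T : Set T))
    (hx2 : (QuotientGroup.mk x : T ⧸ centralizer (Cfsg.pCore q T : Set T)) ∈
      Cfsg.pCore q (T ⧸ centralizer (Cfsg.pCore q T : Set T))) : x ∈ Cfsg.fittingSubgroup T := by
  set CV := centralizer (Cfsg.pCore q T : Set T) with hCV
  haveI := H19.pCore_normal q (T ⧸ CV)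
  set D := (Cfsg.pCore q (T ⧸ CV)).comap (QuotientGroup.mk' CV) with hD
  haveI hDn : D.Normal := Normal.comap inferInstance _
  set K := ⨅ r : {r : ℕ // r.Prime ∧ r ≠ q}, centralizer (Cfsg.pCore (r : ℕ) T : Set T) with hK
  haveI hKn : K.Normal := Subgroup.normal_iInf_normal fun r => by
    haveI := H19.pCore_normal (r : ℕ) T
    infer_instance
  haveI hWn : (⨆ r : {r : ℕ // r.Prime ∧ r ≠ q}, Cfsg.pCore (r : ℕ) T).Normal :=
    @Subgroup.iSup_normal _ _ _ _ fun r => H19.pCore_normal (r : ℕ) T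
  set W := ⨆ r : {r : ℕ // r.Prime ∧ r ≠ q}, Cfsg.pCore (r : ℕ) T with hW
  set E := D ⊓ K with hE
  have hxE : x ∈ E := ⟨hx2, mem_iInf.mpr fun r => hx1 r r.2.1 r.2.2⟩
  suffices h : Group.IsNilpotent E from H51.le_fittingSubgroup inferInstance h hxE
  let f : E →* T ⧸ W := (QuotientGroup.mk' W).comp E.subtype
  have hfq : IsPGroup q f.range := by
    rintro ⟨_, e, rfl⟩
    obtain ⟨i, hi⟩ := (H51.pCore_isPGroup q (T ⧸ CV)) ⟨_, e.2.1⟩
    have hi' : (e : T) ^ q ^ i ∈ CV := by
      have h := congrArg Subtype.val hi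
      rw [SubmonoidClass.coe_pow, OneMemClass.coe_one, ← map_pow] at h
      exact (QuotientGroup.eq_one_iff _).mp h
    have hmem : (e : T) ^ q ^ i ∈ Cfsg.fittingSubgroup T := by
      refine H19.centralizer_fitting_le (mem_centralizer_iff.mpr fun v hv => ?_)
      suffices h : Cfsg.fittingSubgroup T ≤ centralizer ({(e : T) ^ q ^ i} : Set T) from
        mem_centralizer_singleton_iff.mp (h hv)
      rw [H51.fittingSubgroup_eq_iSup_pCore]
      refine iSup_le fun ⟨r, hr'⟩ u hu => mem_centralizer_singleton_iff.mpr ?_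
      rcases eq_or_ne r q with rfl | hrq
      · exact mem_centralizer_iff.mp hi' u hu
      · exact mem_centralizer_iff.mp
          (pow_mem (mem_iInf.mp e.2.2 ⟨r, Nat.prime_of_mem_primeFactors hr', hrq⟩) _) u hu
    obtain ⟨l, hl⟩ := exists_pow_mem_iSup_ne (q := q) hmem
    refine ⟨i + l, Subtype.ext ?_⟩
    rw [SubmonoidClass.coe_pow, OneMemClass.coe_one, pow_add, pow_mul]
    show ((QuotientGroup.mk' W) (e : T) ^ q ^ i) ^ q ^ l = 1
    rw [← map_pow, ← map_pow]
    exact (QuotientGroup.eq_one_iff _).mpr hl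
  haveI : Group.IsNilpotent f.range := hfq.isNilpotent
  refine Subgroup.isNilpotent_of_ker_le_center f.rangeRestrict fun e he => mem_center_iff.mpr fun d => ?_
  rw [MonoidHom.ker_rangeRestrict, MonoidHom.mem_ker] at he
  have heW : (e : T) ∈ W := (QuotientGroup.eq_one_iff (e : T)).mp he
  refine Subtype.ext ((mem_centralizer_singleton_iff.mp ((iSup_le fun r => ?_ : W ≤ centralizer ({(d : T)} : Set T)) heW)).symm)
  exact fun u hu => mem_centralizer_singleton_iff.mpr (mem_centralizer_iff.mp (mem_iInf.mp d.2.2 r) u hu)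

/-- `C(A) ≤ A`, for `A` self-centralizing normal in a nilpotent π-subgroup containing the Fitting subgroup. -/
theorem centralizer_le_of_scn {T : Type*} [Group T] [Finite T] [Group.IsSolvable T] {π : Set ℕ}
    (hπ : ∀ r : ℕ, r.Prime → r ∈ π → 5 ≤ r) {N A : Subgroup T} (hN : Group.IsNilpotent N)
    (hNπ : ∀ r : ℕ, r.Prime → r ∣ Nat.card N → r ∈ π) (hFN : Cfsg.fittingSubgroup T ≤ N)
    (hA : Cfsg.IsSCN N A) : centralizer (A : Set T) ≤ A := by
  set V := Cfsg.fittingSubgroup T with hV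
  have hCV : centralizer (V : Set T) ≤ V := H19.centralizer_fitting_le
  suffices h : centralizer (A : Set T) ≤ V from fun c hc => hA.2.2.le ⟨hFN (h hc), hc⟩
  intro c hc
  refine (subgroupOf_eq_top.mp (H51.eq_top_of_forall_sylow_le (V.subgroupOf (centralizer (A : Set T)))
    fun q hq _ => ?_)) hc
  haveI := Fact.mk hq
  obtain ⟨Q⟩ := (inferInstance : Nonempty (Sylow q (centralizer (A : Set T))))
  refine ⟨Q, fun w hw => ?_⟩
  obtain ⟨k, hk⟩ := IsPGroup.iff_orderOf.mp Q.2 ⟨w, hw⟩
  rw [orderOf_mk, ← orderOf_coe] at hk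
  rw [mem_subgroupOf]
  set x : T := (w : T) with hx
  have hxA : ∀ a ∈ A, a * x = x * a := fun a ha => mem_centralizer_iff.mp w.2 a ha
  have hcomm : ∀ r : ℕ, r.Prime → r ≠ q → x ∈ centralizer (Cfsg.pCore r T : Set T) := by
    intro r hr hrq
    haveI := Fact.mk hr
    haveI := H19.pCore_normal r T
    haveI : (Cfsg.pCore r N).Normal := H19.pCore_normal r N
    rw [mem_centralizer_iff]
    intro v hv
    refine (H74.thompson_AxB (p := r) (R := Cfsg.pCore r T) (B := (Cfsg.pCore r N).map N.subtype ⊓ A)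
      (H51.pCore_isPGroup r T) (((H51.pCore_isPGroup r N).map N.subtype).to_le inf_le_left)
      (by rw [normalizer_eq_top]; exact le_top) (by rw [normalizer_eq_top]; exact mem_top x) ?_
      (fun b hb => (hxA b hb.2).symm) ?_ v hv).eq.symm
    · rw [hk]
      exact fun h => hrq ((Nat.prime_dvd_prime_iff_eq hr hq).mp (hr.dvd_of_dvd_pow h))
    intro u hu hub
    have huN : u ∈ N := hFN (H19.pCore_le_fitting r hu)
    have huA : u ∈ A := by
      refine hA.2.2.le ⟨huN, mem_centralizer_iff.mpr fun a ha => ?_⟩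
      suffices A ≤ centralizer ({u} : Set T) from (mem_centralizer_singleton_iff.mp (this ha)).symm ▸ rfl
      refine subgroupOf_eq_top.mp (H51.eq_top_of_forall_sylow_le _ fun s hs _ => ?_)
      haveI := Fact.mk hs
      obtain ⟨S⟩ := (inferInstance : Nonempty (Sylow s A))
      refine ⟨S, fun b hb => ?_⟩
      obtain ⟨i, hi⟩ := IsPGroup.iff_orderOf.mp S.2 ⟨b, hb⟩
      rw [orderOf_mk, ← orderOf_coe] at hi
      rw [mem_subgroupOf, mem_centralizer_singleton_iff]
      by_cases hsr : s = r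
      · subst hsr
        refine (hub b ⟨?_, b.2⟩).eq
        refine ⟨⟨b, hA.1 b.2⟩, ?_, rfl⟩
        obtain ⟨R⟩ := (inferInstance : Nonempty (Sylow s N))
        haveI := hN
        have hRn : (R : Subgroup N).Normal := inferInstance
        refine H19.le_pCore hRn R.2 ?_
        have hz : IsPGroup s (zpowers (⟨b, hA.1 b.2⟩ : N)) :=
          IsPGroup.iff_card.mpr ⟨i, by rw [Nat.card_zpowers, ← orderOf_coe]; exact hi⟩
        obtain ⟨R', hR'⟩ := hz.exists_le_sylow
        have hU := Sylow.unique_of_normal R hRn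
        exact (Subsingleton.elim R' R) ▸ hR' (mem_zpowers _)
      · refine (H89.commute_of_nilpotent_coprime hN (hA.1 b.2) huN ?_).eq
        obtain ⟨j, hj⟩ := IsPGroup.iff_orderOf.mp (H51.pCore_isPGroup r T) ⟨u, hu⟩
        rw [orderOf_mk] at hj
        rw [hi, hj]
        exact ((Nat.coprime_primes hs hr).mpr hsr).pow i j
    exact (hxA u huA).symm
  by_cases hqπ : q ∈ π
  swap
  · refine hCV (mem_centralizer_iff.mpr fun v hv => ?_)
    suffices V ≤ centralizer ({x} : Set T) from mem_centralizer_singleton_iff.mp (this hv)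
    rw [hV, H51.fittingSubgroup_eq_iSup_pCore]
    refine iSup_le fun ⟨r, hr'⟩ => ?_
    have hr := Nat.prime_of_mem_primeFactors hr'
    by_cases hrq : r = q
    · subst hrq
      intro v hv
      haveI := Fact.mk hr
      obtain ⟨j, hj⟩ := IsPGroup.iff_orderOf.mp (H51.pCore_isPGroup r T) ⟨v, hv⟩
      rw [orderOf_mk] at hj
      have hvN := hFN (H19.pCore_le_fitting r hv)
      rcases Nat.eq_zero_or_pos j with hj0 | hj0
      · rw [hj0, pow_zero, orderOf_eq_one_iff] at hj
        rw [hj]; exact one_mem _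
      · have hd : r ∣ orderOf v := hj ▸ dvd_pow_self r hj0.ne'
        exact absurd (hNπ r hr (hd.trans (orderOf_dvd_natCard N hvN))) hqπ
    · intro v hv
      exact mem_centralizer_singleton_iff.mpr (mem_centralizer_iff.mp (hcomm r hr hrq) v hv)
  -- `q ∈ π`: `x` is quadratic on `O_q(T)`
  haveI := H19.pCore_normal q T
  set Vq := Cfsg.pCore q T with hVq
  have hVqN : Vq ≤ N := (H19.pCore_le_fitting q).trans hFN
  have hquad : ⁅⁅Vq, zpowers x⁆, zpowers x⁆ = ⊥ := by
    have hzA : ∀ y ∈ zpowers x, ∀ a ∈ A, a * y = y * a := fun y hy a ha => by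
      obtain ⟨i, rfl⟩ := mem_zpowers_iff.mp hy
      exact ((show Commute a x from hxA a ha).zpow_right i).eq
    rw [eq_bot_iff]
    refine (commutator_mono (show ⁅Vq, zpowers x⁆ ≤ A from commutator_le.mpr ?_) le_rfl).trans ?_
    · intro v hv y hy
      refine hA.2.2.le ⟨hVqN (commutator_le.mp (commutator_le_left Vq (zpowers x)) v hv y hy),
        mem_centralizer_iff.mpr fun a ha => ?_⟩
      have ha' : v⁻¹ * a * v ∈ A := (mem_normalizer_iff''.mp (hA.2.1 (hVqN hv)) a).mp ha
      have e1 := hzA y hy _ ha'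
      have e2 := hzA y hy a ha
      rw [commutatorElement_def]
      calc a * (v * y * v⁻¹ * y⁻¹) = v * ((v⁻¹ * a * v) * y) * v⁻¹ * y⁻¹ := by group
        _ = v * (y * (v⁻¹ * a * v)) * v⁻¹ * y⁻¹ := by rw [e1]
        _ = v * y * v⁻¹ * (a * y⁻¹) := by group
        _ = v * y * v⁻¹ * (y⁻¹ * a) := by
            rw [((show Commute a y from e2).inv_right).eq]
        _ = _ := by group
    · rw [le_bot_iff, commutator_eq_bot_iff_le_centralizer]
      exact fun a ha => mem_centralizer_iff.mpr fun y hy => (hzA y hy a ha).symm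
  exact mem_fitting_of_pCore hcomm
    (isPStableOn_of_solvable (hπ q hq hqπ) Vq (H51.pCore_isPGroup q T) x hquad)

/-- `C(A) = A × D` with `D` a π'-group. -/
theorem centralizer_scn_decomposition {S : Type*} [Group S] [Finite S] [Group.IsSolvable S]
    (π : Set ℕ) (hπ : ∀ r : ℕ, r.Prime → r ∈ π → 5 ≤ r) (H : Subgroup S) (hH : Cfsg.IsPiHall π H)
    (A : Subgroup S) (hA : Cfsg.IsSCN ((Cfsg.fittingSubgroup H).map H.subtype) A) :
    ∃ D : Subgroup S, D ≤ centralizer (A : Set S) ∧
      (∀ c ∈ centralizer (A : Set S), ∀ d ∈ D, c * d * c⁻¹ ∈ D) ∧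
      A ⊓ D = ⊥ ∧ A ⊔ D = centralizer (A : Set S) ∧
      ∀ q : ℕ, q.Prime → q ∣ Nat.card D → q ∉ π := by
  set O := Cfsg.piCore πᶜ S with hO
  have hOπ : ∀ r : ℕ, r.Prime → r ∣ Nat.card O → r ∉ π := fun r hr hd => H19.piCore_isPi πᶜ r hr hd
  set F := (Cfsg.fittingSubgroup H).map H.subtype with hF
  have hFH : F ≤ H := map_subtype_le _
  have hAH : A ≤ H := hA.1.trans hFH
  have hinf : H ⊓ O = ⊥ := inf_eq_bot_of_coprime
    (Nat.coprime_of_dvd fun r hr h1 h2 => hOπ r hr h2 (hH.1 r hr h1))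
  have hAc : ∀ a ∈ A, ∀ b ∈ A, a * b = b * a := fun a ha b hb =>
    (mem_centralizer_iff.mp (hA.2.2.ge hb).2 a ha)
  refine ⟨centralizer (A : Set S) ⊓ O, inf_le_left, fun c hc d hd =>
    ⟨(centralizer (A : Set S)).mul_mem ((centralizer (A : Set S)).mul_mem hc hd.1) ((centralizer (A : Set S)).inv_mem hc), Normal.conj_mem inferInstance d hd.2 c⟩,
    eq_bot_iff.mpr ((inf_le_inf hAH inf_le_right).trans hinf.le), ?_,
    fun r hr hd => hOπ r hr (hd.trans (card_dvd_of_le inf_le_right))⟩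
  refine le_antisymm (sup_le (fun a ha => mem_centralizer_iff.mpr fun b hb => hAc b hb a ha) inf_le_left) ?_
  set g := QuotientGroup.mk' O with hg
  have hgs : Function.Surjective g := QuotientGroup.mk'_surjective O
  have hinj : ∀ u ∈ H, g u = 1 → u = 1 := fun u hu h1 =>
    mem_bot.mp (hinf ▸ ⟨hu, (QuotientGroup.eq_one_iff u).mp h1⟩)
  haveI : Group.IsSolvable (S ⧸ O) := Group.isSolvable_of_surjective hgs
  haveI hFnil : Group.IsNilpotent F := H51.isNilpotent_map (H51.fittingSubgroup_isNilpotent H) H.subtype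
  have hscn : Cfsg.IsSCN (F.map g) (A.map g) := by
    refine ⟨map_mono hA.1, (map_mono hA.2.1).trans (le_normalizer_map g), le_antisymm ?_ ?_⟩
    · rintro _ ⟨⟨f, hf, rfl⟩, hc⟩
      refine mem_map_of_mem g (hA.2.2.le ⟨hf, mem_centralizer_iff.mpr fun a ha => ?_⟩)
      have h1 : g ⁅a, f⁆ = 1 := by
        rw [map_commutatorElement, commutatorElement_eq_one_iff_mul_comm]
        exact mem_centralizer_iff.mp hc (g a) (mem_map_of_mem g ha)
      exact commutatorElement_eq_one_iff_mul_comm.mp (hinj _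
        (mul_mem (mul_mem (mul_mem (hAH ha) (hFH hf)) (inv_mem (hAH ha))) (inv_mem (hFH hf))) h1)
    · rintro _ ⟨a, ha, rfl⟩
      refine ⟨mem_map_of_mem g (hA.1 ha), mem_centralizer_iff.mpr ?_⟩
      rintro _ ⟨b, hb, rfl⟩
      rw [← map_mul, ← map_mul, hAc b hb a ha]
  have hFπ : ∀ r : ℕ, r.Prime → r ∣ Nat.card (F.map g) → r ∈ π := fun r hr hd =>
    hH.1 r hr ((hd.trans (card_map_dvd F g)).trans (card_dvd_of_le hFH))
  -- the Fitting subgroup of the quotient
  set V := Cfsg.fittingSubgroup (S ⧸ O) with hV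
  haveI : V.Normal := H51.fittingSubgroup_normal _
  have hVπ : ∀ r : ℕ, r.Prime → r ∣ Nat.card V → r ∈ π := by
    intro r hr hd
    by_contra hrπ
    haveI := Fact.mk hr
    obtain ⟨v, hv⟩ := exists_prime_orderOf_dvd_card' (G := V) r hd
    haveI : Group.IsNilpotent V := H51.fittingSubgroup_isNilpotent _
    obtain ⟨R⟩ := (inferInstance : Nonempty (Sylow r V))
    have hRn : (R : Subgroup V).Normal := inferInstance
    haveI : (R : Subgroup V).Characteristic := R.characteristic_of_normal hRn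
    haveI : ((R : Subgroup V).map V.subtype).Normal := ConjAct.normal_of_characteristic_of_normal
    have hle := H19.le_piCore (π := πᶜ) (N := (R : Subgroup V).map V.subtype) inferInstance (by
      intro s hs hsd
      obtain ⟨i, hi⟩ := IsPGroup.iff_card.mp (R.2.map V.subtype)
      rw [hi] at hsd
      exact ((Nat.prime_dvd_prime_iff_eq hs hr).mp (hs.dvd_of_dvd_pow hsd)) ▸ hrπ)
    rw [H19.piCore_quotient_piCore, le_bot_iff, map_eq_bot_iff_of_injective _ V.subtype_injective] at hle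
    have h2 := R.not_dvd_index
    rw [hle, index_bot] at h2
    exact h2 hd
  have hVH : V ≤ H.map g := by
    have h1 : (H.map g).relIndex (H.map g ⊔ V) = 1 := by
      refine Nat.eq_one_of_dvd_coprimes (a := (H.map g).index) (b := Nat.card V) ?_ (relIndex_dvd_index_of_le le_sup_left) ?_
      · refine (Nat.coprime_of_dvd fun r hr h1 h2 => hH.2 r hr (hVπ r hr h1) ?_).symm
        exact h2.trans (index_map_dvd H hgs)
      · have h := card_mul_index ((H.map g).subgroupOf (H.map g ⊔ V))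
        rw [Nat.card_congr (subgroupOfEquivOfLe le_sup_left).toEquiv] at h
        exact Nat.dvd_of_mul_dvd_mul_left Nat.card_pos
          (h ▸ H51.card_sup_dvd_mul_of_normal (H.map g) V)
    exact le_sup_right.trans (relIndex_eq_one.mp h1)
  have hVF : V ≤ F.map g := by
    let gH := g.subgroupMap H
    have hgH : Function.Bijective gH := ⟨fun a b hab => Subtype.ext (by
      have h1 : g ((a : S)⁻¹ * b) = 1 := by
        rw [map_mul, map_inv, show g a = g b from congrArg Subtype.val hab, inv_mul_cancel]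
      exact inv_mul_eq_one.mp (hinj _ (mul_mem (inv_mem a.2) b.2) h1)), g.subgroupMap_surjective H⟩
    have h1 : V.subgroupOf (H.map g) ≤ Cfsg.fittingSubgroup ↥(H.map g) := by
      refine H51.le_fittingSubgroup inferInstance ?_
      haveI := H51.fittingSubgroup_isNilpotent (S ⧸ O)
      exact Group.nilpotent_of_mulEquiv (subgroupOfEquivOfLe hVH).symm
    rw [← H51.fittingSubgroup_map_equiv (MulEquiv.ofBijective gH hgH)] at h1
    intro v hv
    obtain ⟨u, hu, huv⟩ := h1 (show (⟨v, hVH hv⟩ : H.map g) ∈ V.subgroupOf (H.map g) from hv)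
    exact ⟨u, mem_map_of_mem H.subtype hu, congrArg Subtype.val huv⟩
  have key := centralizer_le_of_scn hπ (H51.isNilpotent_map hFnil g) hFπ hVF hscn
  intro c hc
  obtain ⟨a, ha, hac⟩ := key (show g c ∈ centralizer ((A.map g : Subgroup _) : Set _) from
    mem_centralizer_iff.mpr fun _ ⟨b, hb, hbc⟩ => by
      rw [← hbc, ← map_mul, ← map_mul, mem_centralizer_iff.mp hc b hb])
  have hd : a⁻¹ * c ∈ centralizer (A : Set S) ⊓ O := by
    refine ⟨(centralizer (A : Set S)).mul_mem ((centralizer (A : Set S)).inv_mem (mem_centralizer_iff.mpr fun b hb => hAc b hb a ha)) hc, ?_⟩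
    have : g (a⁻¹ * c) = 1 := by rw [map_mul, map_inv, hac, inv_mul_cancel]
    exact (QuotientGroup.eq_one_iff _).mp this
  rw [show c = a * (a⁻¹ * c) by group]
  exact mul_mem_sup ha hd

end Cfsg.Agent.H59
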