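import Cfsg.Agent.H59.GlaubermanSolvable
import Cfsg.Agent.H61.Sect
import Cfsg.Agent.H24.PGroupBasic
import Cfsg.Agent.H51.PLayer
import Cfsg.Agent.H20.FixedPoints

/-! A 2-group `Q` acting on `N` with `C_N(Q) = C_N(t)`, `t` in `Z(Q) ∩ [Q,Q]`: `[N,Q]` has odd order. -/

set_option autoImplicit false
set_option linter.style.haveILetI false

namespace Cfsg.Agent.H59

open Subgroup Cfsg
open scoped commutatorElement

variable {G : Type*} [Group G] [Finite G] (N Q : Subgroup G) [N.Normal]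

theorem inf_sylow_centralized (t : G) (htQ : t ∈ ⁅Q, Q⁆)
    (hC : N ⊓ centralizer (Q : Set G) = N ⊓ centralizer ({t} : Set G))
    (S : Sylow 2 G) (hQS : Q ≤ (S : Subgroup G)) :
    (S : Subgroup G) ⊓ N ≤ centralizer (Q : Set G) := by
  haveI : Fact (Nat.Prime 2) := ⟨Nat.prime_two⟩
  set P := (S : Subgroup G) ⊓ N with hPdef
  set P1 := P ⊓ centralizer (Q : Set G) with hP1
  by_contra hne
  have hlt : P1.subgroupOf P < ⊤ := lt_top_iff_ne_top.mpr fun h => hne fun x hx =>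
    ((subgroupOf_eq_top.mp h) hx).2
  haveI : Group.IsNilpotent P := (S.2.to_le inf_le_left).isNilpotent
  obtain ⟨y, hyN, hyn⟩ := SetLike.exists_of_lt
    (Group.normalizerCondition_of_isNilpotent _ hlt)
  set T := (S : Subgroup G) ⊓ normalizer (P1 : Set G) with hTdef
  have hQP1 : ∀ q ∈ Q, ∀ w ∈ P1, Commute q w := fun q hq w hw => mem_centralizer_iff.mp hw.2 q hq
  have hQT : Q ≤ T := le_inf hQS fun q hq => centralizer_le_normalizer _
    (mem_centralizer_iff.mpr fun w hw => (hQP1 q hq w hw).eq.symm)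
  have hP1T : P1 ≤ T := le_inf (inf_le_left.trans inf_le_left) le_normalizer
  haveI : (P1.subgroupOf T).Normal := normal_subgroupOf_of_le_normalizer inf_le_right
  haveI : ((P ⊓ T).subgroupOf T).Normal := by
    refine normal_subgroupOf_of_le_normalizer (H20.le_normalizer_inf ?_ le_normalizer)
    exact H20.le_normalizer_inf (inf_le_left.trans le_normalizer) le_normalizer_of_normal
  set mk := QuotientGroup.mk' (P1.subgroupOf T)
  haveI : (((P ⊓ T).subgroupOf T).map mk).Normal :=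
    Normal.map inferInstance mk (QuotientGroup.mk'_surjective _)
  have hne' : ((P ⊓ T).subgroupOf T).map mk ≠ ⊥ := by
    intro h
    have hyT : (y : G) ∈ T := ⟨y.2.1, le_normalizer_map P.subtype (mem_map_of_mem _ hyN) |>
      fun h' => by rwa [map_subgroupOf_eq_of_le inf_le_left] at h'⟩
    have h1 : mk ⟨y, hyT⟩ ∈ ((P ⊓ T).subgroupOf T).map mk := mem_map_of_mem mk ⟨y.2, hyT⟩
    rw [h, mem_bot] at h1
    exact hyn ((QuotientGroup.eq_one_iff (⟨y, hyT⟩ : T)).mp h1)
  have hz := H24.inf_center_ne_bot ((S.2.to_le (inf_le_left : T ≤ _)).to_quotient _) hne'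
  obtain ⟨z, hz, hz1⟩ := (bot_or_exists_ne_one _).resolve_left hz
  obtain ⟨⟨x, hx, rfl⟩, hzc⟩ := hz
  have hxP : (x : G) ∈ P := hx.1
  have hxn : (x : G) ∈ normalizer (P1 : Set G) := x.2.2
  have hxP1 : (x : G) ∉ P1 := fun h => hz1 ((QuotientGroup.eq_one_iff x).mpr h)
  have hf : ∀ q ∈ Q, (x : G)⁻¹ * q * x * q⁻¹ ∈ P1 := by
    intro q hq
    have h := mem_center_iff.mp hzc (mk ⟨q, hQT hq⟩)
    rw [← map_mul, ← map_mul] at h
    have h2 : ((x * ⟨q, hQT hq⟩)⁻¹ * (⟨q, hQT hq⟩ * x) : T) ∈ P1.subgroupOf T :=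
      QuotientGroup.eq.mp h.symm
    rw [mem_subgroupOf] at h2
    have h3 := hQP1 q hq _ h2
    simp only [Subgroup.coe_mul, Subgroup.coe_inv, mul_inv_rev] at h2 h3
    have e : (x : G)⁻¹ * q * x * q⁻¹ = q * (q⁻¹ * (x : G)⁻¹ * (q * x)) * q⁻¹ := by group
    rw [e, h3.eq, mul_inv_cancel_right]
    exact h2
  let f : Q →* G := MonoidHom.mk' (fun q => (x : G)⁻¹ * q * x * (q : G)⁻¹) (fun a b => by
    simp only [Subgroup.coe_mul, mul_inv_rev]
    have h := hQP1 a a.2 _ (hf b b.2)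
    calc (x : G)⁻¹ * (↑a * ↑b) * x * ((b : G)⁻¹ * (a : G)⁻¹)
        = (x : G)⁻¹ * a * x * (((x : G)⁻¹ * b * x * (b : G)⁻¹) * (a : G)⁻¹) := by group
      _ = _ := by rw [← h.inv_left.eq]; group)
  have hfc : ∀ a b : Q, f a * f b = f b * f a := by
    intro a b
    have hw : f b ∈ P1 := hf b b.2
    have h1 : Commute (a : G) (f b) := hQP1 a a.2 _ hw
    have hw' : (x : G) * f b * (x : G)⁻¹ ∈ P1 := (mem_normalizer_iff.mp hxn _).mp hw
    have h2 : Commute ((x : G)⁻¹ * a * x) (f b) := by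
      have h3 := (hQP1 a a.2 _ hw').map (MulAut.conj (x : G)⁻¹).toMonoidHom
      simpa [mul_assoc] using h3
    exact (h2.mul_left h1.inv_left).eq
  have hft : t ∈ f.ker.map Q.subtype := by
    refine (commutator_le.mpr fun a ha b hb => ?_) htQ
    refine ⟨⁅(⟨a, ha⟩ : Q), ⟨b, hb⟩⁆, MonoidHom.mem_ker.mpr ?_, map_commutatorElement Q.subtype _ _⟩
    rw [map_commutatorElement, commutatorElement_eq_one_iff_mul_comm]
    exact hfc _ _
  obtain ⟨t', ht', rfl⟩ := hft
  refine hxP1 ⟨hxP, ?_⟩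
  have h : (x : G) ∈ N ⊓ centralizer ({(t' : G)} : Set G) := by
    refine ⟨hxP.2, mem_centralizer_singleton_iff.mpr ?_⟩
    have h : (x : G)⁻¹ * t' * x * (t' : G)⁻¹ = 1 := ht'
    rw [mul_inv_eq_one, mul_assoc, inv_mul_eq_iff_eq_mul] at h
    exact h.symm
  rw [Subgroup.coe_subtype] at hC
  rw [← hC] at h
  exact h.2

theorem commutator_le_core (t : G) (htQm : t ∈ Q) (hQ : IsPGroup 2 Q) (htQ : t ∈ ⁅Q, Q⁆)
    (hC : N ⊓ centralizer (Q : Set G) = N ⊓ centralizer ({t} : Set G)) :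
    ⁅N, Q⁆ ≤ (pPrimeCore 2 N).map N.subtype := by
  haveI : Fact (Nat.Prime 2) := ⟨Nat.prime_two⟩
  obtain ⟨S, hQS⟩ := hQ.exists_le_sylow
  have hcent := inf_sylow_centralized N Q t htQ hC S hQS
  haveI := H51.pPrimeCore_characteristic 2 N
  set O := pPrimeCore 2 N with hO
  let φ : Q →* MulAut (N ⧸ O) := MonoidHom.mk'
    (fun q => QuotientGroup.congr O O (MulAut.conjNormal (q : G))
      (characteristic_iff_map_eq.mp inferInstance _))
    (fun a b => by
      ext y
      obtain ⟨y, rfl⟩ := QuotientGroup.mk'_surjective O y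
      simp [map_mul]
      rfl)
  have hPn : ¬ 2 ∣ ((S : Subgroup G) ⊓ N).relIndex N :=
    (H61.sylowIn_inf_normal (p := 2) (H := ⊤) ⟨le_top, S.2, by rw [relIndex_top_right]; exact S.not_dvd_index⟩
      le_top le_normalizer_of_normal).2.2
  let P : Sylow 2 N := ((S.2.to_le (inf_le_left : (S : Subgroup G) ⊓ N ≤ _)).of_equiv
    (subgroupOfEquivOfLe inf_le_right).symm).toSylow hPn
  let Pb : Sylow 2 (N ⧸ O) := P.mapSurjective (QuotientGroup.mk'_surjective O)
  have hodd : Odd (Nat.card (commutator φ.range)) := by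
    refine odd_card_commutator_autFix (fun M hM hodd => ?_) Pb φ.range ?_
    · exact le_bot_iff.mp ((H51.le_pPrimeCore hM (Nat.coprime_two_right.mpr hodd)).trans
        (H51.pPrimeCore_quotient_self 2).le)
    · rintro _ ⟨q, rfl⟩ _ ⟨y, hy, rfl⟩
      show QuotientGroup.mk' O (MulAut.conjNormal (q : G) y) = QuotientGroup.mk' O y
      congr 1
      refine Subtype.ext ?_
      have h : (y : G) ∈ (S : Subgroup G) ⊓ N := hy
      rw [MulAut.conjNormal_apply, mem_centralizer_iff.mp (hcent h) q q.2, mul_inv_cancel_right]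
  set O' := O.map N.subtype with hO'
  have hO'n : ∀ A : Subgroup G, A ≤ normalizer (O' : Set G) := fun A => by
    haveI : O'.Normal := ConjAct.normal_of_characteristic_of_normal
    exact le_normalizer_of_normal
  have hker : φ ⟨t, htQm⟩ = 1 := by
    obtain ⟨k, hk⟩ := hQ ⟨t, htQm⟩
    have hmem : (⟨t, htQm⟩ : Q) ∈ commutator Q := by
      have h : t ∈ (commutator Q).map Q.subtype := by rwa [map_subtype_commutator]
      obtain ⟨w, hw, hwe⟩ := h
      exact (Subtype.ext hwe : w = ⟨t, htQm⟩) ▸ hw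
    have h1 : φ.rangeRestrict ⟨t, htQm⟩ ∈ commutator φ.range := by
      rw [_root_.commutator_def, ← map_top_of_surjective _ φ.rangeRestrict_surjective, ← map_commutator]
      exact mem_map_of_mem _ (by rwa [← _root_.commutator_def])
    have h2 : orderOf (φ.rangeRestrict ⟨t, htQm⟩) ∣ 2 ^ k :=
      (orderOf_map_dvd _ _).trans (orderOf_dvd_of_pow_eq_one hk)
    exact congrArg Subtype.val (orderOf_eq_one_iff.mp (Nat.eq_one_of_dvd_coprimes
      ((Nat.coprime_two_left.mpr hodd).pow_left k) h2 (orderOf_dvd_natCard _ h1)))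
  have hcop : (Nat.card (zpowers t)).Coprime (Nat.card O') := by
    obtain ⟨k, hk⟩ := (IsPGroup.iff_card.mp (hQ.to_le (zpowers_le.mpr htQm)))
    rw [hk, hO', card_map_of_injective N.subtype_injective]
    exact (H51.pPrimeCore_coprime 2 N).symm.pow_left k
  haveI : IsMulCommutative (zpowers t) := inferInstance
  have hdec : ∀ n ∈ N, ∃ o ∈ O', n * o ∈ N ⊓ centralizer (Q : Set G) := by
    intro n hn
    have hk : ∀ a ∈ zpowers t, n⁻¹ * (a * n * a⁻¹) ∈ O' := by
      intro a ha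
      obtain ⟨i, rfl⟩ := mem_zpowers_iff.mp ha
      have h : φ ((⟨t, htQm⟩ : Q) ^ i) (QuotientGroup.mk' O ⟨n, hn⟩) = QuotientGroup.mk' O ⟨n, hn⟩ := by
        rw [map_zpow, hker, one_zpow, MulAut.one_apply]
      have h' : QuotientGroup.mk' O (MulAut.conjNormal (((⟨t, htQm⟩ : Q) ^ i : Q) : G) ⟨n, hn⟩) =
          QuotientGroup.mk' O ⟨n, hn⟩ := h
      refine ⟨_, QuotientGroup.eq.mp h'.symm, ?_⟩
      simp [← map_zpow, MulAut.conjNormal_apply, mul_assoc]
    obtain ⟨o, ho, hoc⟩ := H20.exists_mul_mem_centralizer (hO'n _) hcop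
      (Or.inl (Group.isSolvable_of_comm mul_comm')) hk
    refine ⟨o, ho, hC ▸ ⟨N.mul_mem hn (map_subtype_le O ho), mem_centralizer_singleton_iff.mpr ?_⟩⟩
    exact (mem_centralizer_iff.mp hoc t (mem_zpowers t)).symm
  rw [commutator_le]
  intro n hn q hq
  obtain ⟨o, ho, hc⟩ := hdec n hn
  have e : Commute q (n * o) := mem_centralizer_iff.mp hc.2 q hq
  have hqo : q * o * q⁻¹ ∈ O' := (mem_normalizer_iff.mp (hO'n Q hq) o).mp ho
  have h3 : ⁅n, q⁆ = (n * o) * (o⁻¹ * (q * o * q⁻¹)) * (n * o)⁻¹ := by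
    have e' := e.inv_right.eq
    rw [commutatorElement_def]
    calc n * q * n⁻¹ * q⁻¹ = (n * o) * o⁻¹ * (q * o) * ((n * o)⁻¹ * q⁻¹) := by group
      _ = (n * o) * o⁻¹ * (q * o) * (q⁻¹ * (n * o)⁻¹) := by
        rw [((e.inv_left).inv_right).eq]
      _ = _ := by group
  rw [h3]
  exact (mem_normalizer_iff.mp (hO'n (zpowers (n * o)) (mem_zpowers _)) _).mp (O'.mul_mem (O'.inv_mem ho) hqo)

end Cfsg.Agent.H59
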