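import Cfsg.Agent.H59.WreathNormalRank
import Cfsg.Agent.H44.SpSylowTwo

/-!
Normal 2-rank of a Sylow 2-subgroup of a symplectic group in odd characteristic.
-/

set_option autoImplicit false
open Matrix
open scoped MatrixGroups

namespace Cfsg.Agent.H59

theorem two_ne_zero_of_odd_card {F : Type*} [Field F] [Fintype F] (hF : Odd (Fintype.card F)) :
    (2 : F) ≠ 0 := by
  refine Ring.two_ne_zero fun h => ?_
  have := (FiniteField.even_card_iff_char_two (F := F)).mp h
  rw [Nat.odd_iff] at hF
  omega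

theorem sl2_involution {F : Type*} [Field F] (h2 : (2 : F) ≠ 0) (x : SL(2, F)) (hx : x ^ 2 = 1) :
    x = 1 ∨ x = -1 := by
  have hinv : x⁻¹ = x := inv_eq_of_mul_eq_one_right (by rw [← pow_two, hx])
  have h : (adjugate x.1) = x.1 :=
    (Matrix.SpecialLinearGroup.coe_inv x).symm.trans (congrArg Subtype.val hinv)
  rw [adjugate_fin_two] at h
  have e01 : (2 : F) * x.1 0 1 = 0 := by
    have := congrFun (congrFun h 0) 1
    simp at this
    linear_combination -this
  have e10 : (2 : F) * x.1 1 0 = 0 := by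
    have := congrFun (congrFun h 1) 0
    simp at this
    linear_combination -this
  have e00 : x.1 1 1 = x.1 0 0 := by
    have := congrFun (congrFun h 0) 0
    simpa using this
  have h01 := (mul_eq_zero.1 e01).resolve_left h2
  have h10 := (mul_eq_zero.1 e10).resolve_left h2
  have hd := x.2
  rw [det_fin_two, h01, h10, e00, mul_zero, sub_zero] at hd
  rcases mul_self_eq_one_iff.1 hd with h | h
  · left
    refine Subtype.ext (Matrix.ext fun i j => ?_)
    fin_cases i <;> fin_cases j <;> simp [h, h01, h10, e00]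
  · right
    refine Subtype.ext (Matrix.ext fun i j => ?_)
    fin_cases i <;> fin_cases j <;> simp [h, h01, h10, e00]

theorem neg_one_ne_one_sl2 {F : Type*} [Field F] (h2 : (2 : F) ≠ 0) : (-1 : SL(2, F)) ≠ 1 := by
  intro h
  have := congrArg (fun x : SL(2, F) => x.1 0 0) h
  simp at this
  exact h2 (by linear_combination -this)

theorem card_zpowers_neg_one {F : Type*} [Field F] (h2 : (2 : F) ≠ 0) :
    Nat.card (Subgroup.zpowers (-1 : SL(2, F))) = 2 := by
  rw [Nat.card_zpowers, orderOf_eq_prime_iff (p := 2)]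
  exact ⟨by rw [neg_one_sq], neg_one_ne_one_sl2 h2⟩

variable {F : Type*} [Field F] [Fintype F]

theorem normalElemMax_sp (hF : Odd (Fintype.card F)) (n : ℕ)
    (P : Sylow 2 (Matrix.symplecticGroup (Fin n) F)) :
    NormalElemMax (P : Subgroup (Matrix.symplecticGroup (Fin n) F)) (2 ^ n) := by
  classical
  haveI : Fact (Nat.Prime 2) := ⟨Nat.prime_two⟩
  have h2 := two_ne_zero_of_odd_card hF
  let R : Sylow 2 SL(2, F) := default
  obtain ⟨W₀, hW₀, -, -⟩ := H44.exists_genByOrder_sylow (p := 2) n
  have hq : 3 ≤ Fintype.card F := by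
    have := Fintype.one_lt_card (α := F)
    rw [Nat.odd_iff] at hF
    omega
  have h8 : 8 ≤ Nat.card (R : Subgroup SL(2, F)) := by
    obtain ⟨k, hk⟩ := hF
    have hdvd : 2 ^ 3 ∣ Nat.card SL(2, F) := by
      rw [H6.card_sl2 rfl, hk]
      have h1 : (2 * k + 1) ^ 2 - 1 = 4 * (k * (k + 1)) := by
        zify [Nat.one_le_pow 2 (2 * k + 1) (by omega)]
        ring
      obtain ⟨c, hc⟩ := Nat.even_mul_succ_self k
      rw [h1, hc]
      exact ⟨(2 * k + 1) * c, by ring⟩
    exact Nat.le_of_dvd Nat.card_pos (R.pow_dvd_card_of_pow_dvd_card hdvd)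
  have hmem : (-1 : SL(2, F)) ∈ (R : Subgroup SL(2, F)) := by
    obtain ⟨g, hg⟩ := MulAction.exists_smul_eq SL(2, F)
      ((IsPGroup.of_card (n := 1) (by rw [card_zpowers_neg_one h2, pow_one]) :
        IsPGroup 2 (Subgroup.zpowers (-1 : SL(2, F)))).exists_le_sylow.choose) R
    have hle := (IsPGroup.of_card (n := 1) (by rw [card_zpowers_neg_one h2, pow_one]) :
        IsPGroup 2 (Subgroup.zpowers (-1 : SL(2, F)))).exists_le_sylow.choose_spec
    have h1 : g * (-1) * g⁻¹ ∈ (R : Subgroup SL(2, F)) := by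
      rw [← hg]
      exact ⟨-1, hle (Subgroup.mem_zpowers _), rfl⟩
    simpa using h1
  refine normalElemMax_sylow (H44.wreath (H44.SpWreath.base F n) (H44.SpWreath.perm F n)
    (R : Subgroup SL(2, F)) W₀).subtype Subtype.val_injective ?_ ?_ P
  · rw [H44.card_wreath _ _ (H44.SpWreath.perm_conj F n) (H44.SpWreath.base_injective F n)
      (H44.SpWreath.perm_injective F n) (H44.SpWreath.eq_one_of_base_eq_perm F n), hW₀,
      Sylow.card_eq_multiplicity, Nat.factorization_def _ Nat.prime_two,
      H44.SpWreath.padic_card F n hF, pow_add, pow_mul']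
  have hcard := card_zpowers_neg_one (F := F) h2
  rw [show (2 : ℕ) ^ n = Nat.card (Subgroup.zpowers (-1 : SL(2, F))) ^ n by rw [hcard]]
  refine normalElemMax_wreath _ _ (H44.SpWreath.perm_conj F n) (H44.SpWreath.base_injective F n) _ _ _
    (Subgroup.zpowers_le.2 hmem) ?_ ?_ ?_ ?_
  · intro r _ z hz
    obtain ⟨k, rfl⟩ := Subgroup.mem_zpowers_iff.1 hz
    have hc : Commute r ((-1 : SL(2, F)) ^ k) := (Commute.neg_one_right r).zpow_right k
    rw [hc.eq, mul_inv_cancel_right]
    exact Subgroup.zpow_mem_zpowers _ _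
  · intro z hz
    obtain ⟨k, rfl⟩ := Subgroup.mem_zpowers_iff.1 hz
    rw [← zpow_natCast, ← _root_.zpow_mul, mul_comm, _root_.zpow_mul, zpow_natCast, neg_one_sq, _root_.one_zpow]
  · by_contra! h
    have hle : (R : Subgroup SL(2, F)) ≤ Subgroup.zpowers (-1) := by
      intro x hx
      rcases sl2_involution h2 x (h x hx) with rfl | rfl
      · exact one_mem _
      · exact Subgroup.mem_zpowers _
    have := Subgroup.card_le_of_le hle
    omega
  · intro T _ _ hT t ht
    rcases sl2_involution h2 t (hT t ht) with rfl | rfl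
    · exact one_mem _
    · exact Subgroup.mem_zpowers _

end Cfsg.Agent.H59
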