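import Cfsg.Agent.H44.WreathSylowTwo
import Cfsg.Prelude.Def_Transfer

/-!
Normal elementary abelian subgroups of wreathed Sylow 2-subgroups.
-/

set_option autoImplicit false
open scoped commutatorElement

namespace Cfsg.Agent.H59

open Cfsg.Agent.H44

/-- The largest order of a normal elementary abelian 2-subgroup is `N`. -/
def NormalElemMax (G : Type*) [Group G] (N : ℕ) : Prop :=
  (∃ E : Subgroup G, E.Normal ∧ Cfsg.IsElementaryAbelian 2 E ∧ N ≤ Nat.card E) ∧
    ∀ E : Subgroup G, E.Normal → Cfsg.IsElementaryAbelian 2 E → Nat.card E ≤ N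

theorem isElementaryAbelian_of_sq {G : Type*} [Group G] (E : Subgroup G)
    (h : ∀ a ∈ E, a ^ 2 = 1) : Cfsg.IsElementaryAbelian 2 E := by
  refine ⟨⟨⟨fun a b => Subtype.ext ?_⟩⟩, h⟩
  have hinv : ∀ c ∈ E, c⁻¹ = c := fun c hc =>
    inv_eq_of_mul_eq_one_right (by rw [← pow_two]; exact h c hc)
  change (a : G) * b = b * a
  rw [← hinv _ (mul_mem a.2 b.2), mul_inv_rev, hinv _ a.2, hinv _ b.2]

theorem NormalElemMax.congr {G H : Type*} [Group G] [Group H] (e : G ≃* H) {N : ℕ}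
    (h : NormalElemMax G N) : NormalElemMax H N := by
  obtain ⟨⟨E, hE, hEel, hN⟩, hmax⟩ := h
  refine ⟨⟨E.map e.toMonoidHom, hE.map _ e.surjective, isElementaryAbelian_of_sq _ ?_, ?_⟩,
    fun E' hE' hel => ?_⟩
  · rintro _ ⟨a, ha, rfl⟩
    rw [← map_pow, hEel.2 a ha, map_one]
  · rwa [Subgroup.card_map_of_injective e.injective]
  · rw [← Subgroup.card_map_of_injective (K := E') (f := e.symm.toMonoidHom) e.symm.injective]
    refine hmax _ (hE'.map _ e.symm.surjective) (isElementaryAbelian_of_sq _ ?_)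
    rintro _ ⟨a, ha, rfl⟩
    rw [← map_pow, hel.2 a ha, map_one]

/-- A direct factor of exponent two. -/
theorem NormalElemMax.prod {C W : Type*} [Group C] [Group W] [Finite C] [Finite W]
    (hC : ∀ c : C, c ^ 2 = 1) {N : ℕ} (h : NormalElemMax W N) :
    NormalElemMax (C × W) (Nat.card C * N) := by
  obtain ⟨⟨E, hE, hEel, hN⟩, hmax⟩ := h
  refine ⟨⟨Subgroup.prod ⊤ E, Subgroup.prod_normal _ _, isElementaryAbelian_of_sq _ ?_, ?_⟩,
    fun E' hE' hel => ?_⟩
  · intro a ha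
    exact Prod.ext (hC a.1) (hEel.2 a.2 ha.2)
  · rw [Nat.card_congr (Subgroup.prodEquiv _ _).toEquiv, Nat.card_prod, Subgroup.card_top]
    exact Nat.mul_le_mul_left _ hN
  · have hproj : Nat.card (E'.map (MonoidHom.snd C W)) ≤ N := by
      refine hmax _ (hE'.map _ Prod.snd_surjective) (isElementaryAbelian_of_sq _ ?_)
      rintro _ ⟨a, ha, rfl⟩
      rw [← map_pow, hel.2 a ha, map_one]
    let f : E' → C × E'.map (MonoidHom.snd C W) :=
      fun x => (x.1.1, ⟨x.1.2, Subgroup.mem_map_of_mem _ x.2⟩)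
    have hf : Function.Injective f := fun a b hab =>
      Subtype.ext (Prod.ext (congrArg Prod.fst hab :) (congrArg (fun z => (z.2 : W)) hab :))
    refine (Nat.card_le_card_of_injective f hf).trans ?_
    rw [Nat.card_prod]
    exact Nat.mul_le_mul_left _ hproj

section Wreath

variable {G S : Type*} [Group G] [Group S] {m : ℕ} (A : (Fin m → S) →* G)
  (B : Equiv.Perm (Fin m) →* G)
variable (hconj : ∀ π f, B π * A f * (B π)⁻¹ = A (f ∘ π.symm))
include hconj

theorem conj_base {f : Fin m → S} {g : Fin m → S} {π : Equiv.Perm (Fin m)} :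
    (A g * B π) * A f * (A g * B π)⁻¹ = A (g * (f ∘ π.symm) * g⁻¹) := by
  rw [map_mul, map_mul, map_inv, ← hconj π f]
  group

theorem mem_wreath_iff (R : Subgroup S) (W₀ : Subgroup (Equiv.Perm (Fin m))) (x : G) :
    x ∈ wreath A B R W₀ ↔ ∃ g, (∀ i, g i ∈ R) ∧ ∃ π ∈ W₀, x = A g * B π := by
  constructor
  · intro hx
    have hn : W₀.map B ≤ Subgroup.normalizer
        (((Subgroup.pi Set.univ fun _ : Fin m => R).map A : Subgroup G) : Set G) := by
      rintro _ ⟨π, -, rfl⟩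
      rw [Subgroup.mem_normalizer_iff]
      intro y
      refine ⟨?_, fun hy => ?_⟩
      · rintro ⟨f, hf, rfl⟩
        exact ⟨f ∘ π.symm, fun i _ => hf (π.symm i) (Set.mem_univ _), (hconj π f).symm⟩
      · obtain ⟨f, hf, hf'⟩ := hy
        refine ⟨f ∘ π, fun i _ => hf (π i) (Set.mem_univ _), ?_⟩
        have h := hconj π (f ∘ π)
        rw [show (f ∘ π) ∘ π.symm = f by ext i; simp, hf'] at h
        exact mul_left_cancel (mul_right_cancel h)
    have hx' : x ∈ ((wreath A B R W₀ : Subgroup G) : Set G) := hx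
    rw [wreath, Subgroup.coe_mul_of_right_le_normalizer_left _ _ hn] at hx'
    obtain ⟨a, ⟨g, hg, rfl⟩, b, ⟨π, hπ, rfl⟩, rfl⟩ := hx'
    exact ⟨g, fun i => hg i (Set.mem_univ i), π, hπ, rfl⟩
  · rintro ⟨g, hg, π, hπ, rfl⟩
    exact mul_mem (Subgroup.mem_sup_left ⟨g, fun i _ => hg i, rfl⟩)
      (Subgroup.mem_sup_right ⟨π, hπ, rfl⟩)

/-- Normal elementary abelian subgroups of a wreath product lie in the power of the largest
one of the factor. -/
theorem normalElemMax_wreath [Finite G] (hA : Function.Injective A) (R : Subgroup S) [Finite S]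
    (W₀ : Subgroup (Equiv.Perm (Fin m))) (Z₀ : Subgroup S) (hZR : Z₀ ≤ R)
    (hZn : ∀ r ∈ R, ∀ z ∈ Z₀, r * z * r⁻¹ ∈ Z₀) (hZ2 : ∀ z ∈ Z₀, z ^ 2 = 1)
    (hR2 : ∃ r ∈ R, r ^ 2 ≠ 1)
    (hmaxR : ∀ T : Subgroup S, T ≤ R → (∀ r ∈ R, ∀ t ∈ T, r * t * r⁻¹ ∈ T) →
      (∀ t ∈ T, t ^ 2 = 1) → T ≤ Z₀) :
    NormalElemMax (wreath A B R W₀) (Nat.card Z₀ ^ m) := by
  classical
  set W := wreath A B R W₀ with hW
  have hZW : (Subgroup.pi Set.univ fun _ : Fin m => Z₀).map A ≤ W := by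
    rintro _ ⟨f, hf, rfl⟩
    exact Subgroup.mem_sup_left ⟨f, fun i hi => hZR (hf i hi), rfl⟩
  set E₀ : Subgroup W := ((Subgroup.pi Set.univ fun _ : Fin m => Z₀).map A).subgroupOf W with hE₀
  have hcard : Nat.card E₀ = Nat.card Z₀ ^ m := by
    rw [Nat.card_congr (Subgroup.subgroupOfEquivOfLe hZW).toEquiv,
      Subgroup.card_map_of_injective hA, card_pi]
  refine ⟨⟨E₀, ⟨fun n hn w => ?_⟩, isElementaryAbelian_of_sq _ ?_, hcard.ge⟩, fun E hE hel => ?_⟩
  · obtain ⟨g, hg, π, -, hw⟩ := (mem_wreath_iff A B hconj R W₀ w.1).1 w.2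
    obtain ⟨f, hf, hf'⟩ := Subgroup.mem_subgroupOf.1 hn
    refine Subgroup.mem_subgroupOf.2 ⟨g * (f ∘ π.symm) * g⁻¹, fun i _ =>
      hZn _ (hg i) _ (hf (π.symm i) (Set.mem_univ _)), ?_⟩
    rw [← conj_base A B hconj, hf', ← hw]
    rfl
  · intro a ha
    obtain ⟨f, hf, hf'⟩ := Subgroup.mem_subgroupOf.1 ha
    apply Subtype.ext
    rw [Subgroup.coe_pow, ← hf', ← map_pow, Subgroup.coe_one]
    rw [show f ^ 2 = 1 from funext fun i => hZ2 _ (hf i (Set.mem_univ i)), map_one]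
  rw [← hcard]
  refine Subgroup.card_le_of_le ?_
  -- every element of `E` is in the base
  have hsingle : ∀ (i : Fin m) (r : S), r ∈ R → A (Pi.mulSingle i r) ∈ W := fun i r hr => by
    refine Subgroup.mem_sup_left ⟨_, fun j _ => ?_, rfl⟩
    by_cases h : j = i
    · subst h; rw [Pi.mulSingle_eq_same]; exact hr
    · rw [Pi.mulSingle_eq_of_ne h]; exact R.one_mem
  have hbase : ∀ e : W, e ∈ E → ∃ g, (∀ i, g i ∈ R) ∧ (e : G) = A g := by
    intro e he
    obtain ⟨g, hg, π, -, hw⟩ := (mem_wreath_iff A B hconj R W₀ e.1).1 e.2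
    refine ⟨g, hg, ?_⟩
    suffices π = 1 by rw [hw, this, map_one, mul_one]
    refine Equiv.ext fun i => by_contra fun hi => ?_
    obtain ⟨r, hr, hr2⟩ := hR2
    set a : W := ⟨A (Pi.mulSingle i r), hsingle i r hr⟩ with ha
    have hmem : a * e * a⁻¹ * e⁻¹ ∈ E := mul_mem (hE.conj_mem e he a) (inv_mem he)
    have h2 := congrArg Subtype.val (hel.2 _ hmem)
    have hval : ((a * e * a⁻¹ * e⁻¹ : W) : G) =
        A (Pi.mulSingle i r * (g * ((Pi.mulSingle i r)⁻¹ ∘ π.symm) * g⁻¹)) := by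
      rw [map_mul, ← conj_base A B hconj]
      simp only [Subgroup.coe_mul, Subgroup.coe_inv, ha, hw, map_inv]
      group
    rw [Subgroup.coe_pow, Subgroup.coe_one, hval, ← map_pow, ← map_one A] at h2
    have h3 := congrFun (hA h2) i
    have hne : π.symm i ≠ i := fun h => hi (by
      change π i = i
      exact ((Equiv.symm_apply_eq π).1 h).symm)
    refine hr2 ?_
    simpa [Pi.mulSingle_eq_of_ne hne] using h3
  intro e he
  obtain ⟨g, hg, heq⟩ := hbase e he
  refine Subgroup.mem_subgroupOf.2 ⟨g, fun i _ => ?_, heq.symm⟩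
  -- the projection to one coordinate
  let T : Subgroup S :=
    { carrier := {t | ∃ x : W, x ∈ E ∧ ∃ f : Fin m → S, (∀ j, f j ∈ R) ∧ (x : G) = A f ∧ f i = t}
      one_mem' := ⟨1, E.one_mem, 1, fun _ => R.one_mem, (map_one A).symm, rfl⟩
      mul_mem' := by
        rintro a b ⟨x, hx, f, hf, hxf, rfl⟩ ⟨y, hy, f', hf', hyf, rfl⟩
        exact ⟨x * y, mul_mem hx hy, f * f', fun j => mul_mem (hf j) (hf' j),
          by rw [Subgroup.coe_mul, hxf, hyf, map_mul], rfl⟩
      inv_mem' := by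
        rintro a ⟨x, hx, f, hf, hxf, rfl⟩
        exact ⟨x⁻¹, inv_mem hx, f⁻¹, fun j => inv_mem (hf j),
          by rw [Subgroup.coe_inv, hxf, map_inv], rfl⟩ }
  refine hmaxR T ?_ ?_ ?_ ⟨e, he, g, hg, heq, rfl⟩
  · rintro _ ⟨x, hx, f, hf, hxf, rfl⟩
    exact hf i
  · rintro r hr _ ⟨x, hx, f, hf, hxf, rfl⟩
    refine ⟨⟨A (Pi.mulSingle i r), hsingle i r hr⟩ * x * ⟨A (Pi.mulSingle i r), hsingle i r hr⟩⁻¹,
      hE.conj_mem x hx _, Pi.mulSingle i r * f * (Pi.mulSingle i r)⁻¹, fun j => ?_, ?_, ?_⟩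
    · by_cases h : j = i
      · subst h
        rw [Pi.mul_apply, Pi.mul_apply, Pi.inv_apply, Pi.mulSingle_eq_same]
        exact mul_mem (mul_mem hr (hf j)) (inv_mem hr)
      · rw [Pi.mul_apply, Pi.mul_apply, Pi.inv_apply, Pi.mulSingle_eq_of_ne h]
        simpa using hf j
    · simp only [Subgroup.coe_mul, Subgroup.coe_inv, hxf, map_mul, map_inv]
    · simp
  · rintro _ ⟨x, hx, f, hf, hxf, rfl⟩
    have h2 := congrArg Subtype.val (hel.2 _ hx)
    rw [Subgroup.coe_pow, hxf, ← map_pow, Subgroup.coe_one, ← map_one A] at h2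
    exact congrFun (hA h2) i

end Wreath

/-- Transfer to every Sylow 2-subgroup. -/
theorem normalElemMax_sylow {G W : Type*} [Group G] [Group W] [Finite G] (ι : W →* G)
    (hι : Function.Injective ι) (hcard : Nat.card W = 2 ^ padicValNat 2 (Nat.card G)) {N : ℕ}
    (h : NormalElemMax W N) (P : Sylow 2 G) : NormalElemMax (P : Subgroup G) N := by
  haveI : Fact (Nat.Prime 2) := ⟨Nat.prime_two⟩
  have hr : Nat.card ι.range = 2 ^ (Nat.card G).factorization 2 := by
    rw [← Nat.card_congr (MonoidHom.ofInjective hι).toEquiv, hcard,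
      Nat.factorization_def _ Nat.prime_two]
  exact h.congr (((MonoidHom.ofInjective hι).trans
    (MulEquiv.subgroupCongr (Sylow.coe_ofCard ι.range hr).symm)).trans
      (Sylow.equiv (Sylow.ofCard ι.range hr) P))

end Cfsg.Agent.H59
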